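import Mathlib

set_option autoImplicit false

namespace Cfsg.Agent.Lib.helper1

universe u v

/-- extraspecial-like structure of exponent `p` with a marked generator `z` of the centre -/
structure ESp (p : ℕ) (E : Type*) [Group E] (z : E) : Prop where
  ne : z ≠ 1
  cen : ∀ g : E, z * g = g * z
  exp : ∀ a : E, a ^ p = 1
  comms : ∀ a b : E, ∃ k : ℕ, a * b = b * a * z ^ k
  cens : ∀ c : E, (∀ g : E, c * g = g * c) → ∃ k : ℕ, c = z ^ k

section
variable {p : ℕ} [hp : Fact p.Prime] {E : Type*} [Group E] {z : E}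

theorem ESp.zpow_cen (h : ESp p E z) (k : ℕ) (g : E) : z ^ k * g = g * z ^ k :=
  (Commute.pow_left (show Commute z g from h.cen g) k).eq

theorem ESp.orderOf_z (h : ESp p E z) : orderOf z = p := by
  have h1 : orderOf z ∣ p := orderOf_dvd_of_pow_eq_one (h.exp z)
  rcases (Nat.dvd_prime hp.out).mp h1 with h2 | h2
  · exact absurd (orderOf_eq_one_iff.mp h2) h.ne
  · exact h2

theorem ESp.pow_val (h : ESp p E z) (a : E) (k : ℕ) : a ^ ((k : ZMod p).val) = a ^ k := by
  rw [ZMod.val_natCast]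
  exact (pow_eq_pow_mod k (h.exp a)).symm

theorem pow_mul_comm_aux_es {x y w : E} (hw : ∀ g : E, w * g = g * w) (hyx : y * x = x * y * w)
    (b : ℕ) : y ^ b * x = x * y ^ b * w ^ b := by
  induction b with
  | zero => simp
  | succ n ih =>
    have hwn : ∀ g : E, w ^ n * g = g * w ^ n :=
      fun g => (Commute.pow_left (show Commute w g from hw g) n).eq
    calc y ^ (n + 1) * x = y ^ n * (y * x) := by rw [pow_succ, mul_assoc]
      _ = y ^ n * (x * y * w) := by rw [hyx]
      _ = (y ^ n * x) * y * w := by simp only [mul_assoc]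
      _ = (x * y ^ n * w ^ n) * y * w := by rw [ih]
      _ = x * y ^ n * (w ^ n * y) * w := by simp only [mul_assoc]
      _ = x * y ^ n * (y * w ^ n) * w := by rw [hwn y]
      _ = x * y ^ (n + 1) * w ^ (n + 1) := by rw [pow_succ, pow_succ]; simp only [mul_assoc]

theorem mul_pow_comm_aux_es {x y w : E} (hw : ∀ g : E, w * g = g * w) (hyx : y * x = x * y * w)
    (a : ℕ) : y * x ^ a = x ^ a * y * w ^ a := by
  induction a with
  | zero => simp
  | succ n ih =>
    have hwn : ∀ g : E, w ^ n * g = g * w ^ n :=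
      fun g => (Commute.pow_left (show Commute w g from hw g) n).eq
    calc y * x ^ (n + 1) = (y * x ^ n) * x := by rw [pow_succ, mul_assoc]
      _ = x ^ n * y * w ^ n * x := by rw [ih]
      _ = x ^ n * y * (w ^ n * x) := by simp only [mul_assoc]
      _ = x ^ n * y * (x * w ^ n) := by rw [hwn x]
      _ = x ^ n * (y * x) * w ^ n := by simp only [mul_assoc]
      _ = x ^ n * (x * y * w) * w ^ n := by rw [hyx]
      _ = x ^ n * x * y * (w * w ^ n) := by simp only [mul_assoc]
      _ = x ^ (n + 1) * y * w ^ (n + 1) := by rw [← pow_succ, ← pow_succ']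

theorem ESp.z_mem (h : ESp p E z) (x y : E) : z ∈ Subgroup.centralizer ({x, y} : Set E) := by
  rw [Subgroup.mem_centralizer_iff]
  intro g _
  exact (h.cen g).symm

theorem cent_x_es {x y : E} (c : Subgroup.centralizer ({x, y} : Set E)) : x * (c : E) = c * x :=
  Subgroup.mem_centralizer_iff.mp c.2 x (by simp)

theorem cent_y_es {x y : E} (c : Subgroup.centralizer ({x, y} : Set E)) : y * (c : E) = c * y :=
  Subgroup.mem_centralizer_iff.mp c.2 y (by simp)

/-- normal form map -/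
def PsiE (p : ℕ) (x y : E) (t : ZMod p × ZMod p × Subgroup.centralizer ({x, y} : Set E)) : E :=
  x ^ t.1.val * y ^ t.2.1.val * (t.2.2 : E)

theorem psi_x_es (h : ESp p E z) {x y : E} (hyx : y * x = x * y * z)
    (t : ZMod p × ZMod p × Subgroup.centralizer ({x, y} : Set E)) :
    PsiE p x y t * x = x * PsiE p x y t * z ^ t.2.1.val := by
  obtain ⟨a, b, c⟩ := t
  show x ^ a.val * y ^ b.val * (c : E) * x = x * (x ^ a.val * y ^ b.val * (c : E)) * z ^ b.val
  have h1 := pow_mul_comm_aux_es (fun g => h.cen g) hyx b.val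
  have h2 := cent_x_es c
  have h3 := h.zpow_cen b.val (c : E)
  calc x ^ a.val * y ^ b.val * (c : E) * x = x ^ a.val * y ^ b.val * ((c : E) * x) := by
        rw [mul_assoc]
    _ = x ^ a.val * y ^ b.val * (x * c) := by rw [h2]
    _ = x ^ a.val * (y ^ b.val * x) * c := by simp only [mul_assoc]
    _ = x ^ a.val * (x * y ^ b.val * z ^ b.val) * c := by rw [h1]
    _ = (x ^ a.val * x) * y ^ b.val * (z ^ b.val * c) := by simp only [mul_assoc]
    _ = (x * x ^ a.val) * y ^ b.val * (c * z ^ b.val) := by rw [h3, ← pow_succ, ← pow_succ']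
    _ = _ := by simp only [mul_assoc]

theorem psi_y_es (h : ESp p E z) {x y : E} (hyx : y * x = x * y * z)
    (t : ZMod p × ZMod p × Subgroup.centralizer ({x, y} : Set E)) :
    y * PsiE p x y t = PsiE p x y t * y * z ^ t.1.val := by
  obtain ⟨a, b, c⟩ := t
  show y * (x ^ a.val * y ^ b.val * (c : E)) = x ^ a.val * y ^ b.val * (c : E) * y * z ^ a.val
  have h1 := mul_pow_comm_aux_es (fun g => h.cen g) hyx a.val
  have h2 := cent_y_es c
  have h3 := h.zpow_cen a.val (y ^ b.val * (c : E) * y)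
  calc y * (x ^ a.val * y ^ b.val * (c : E)) = (y * x ^ a.val) * y ^ b.val * c := by
        simp only [mul_assoc]
    _ = (x ^ a.val * y * z ^ a.val) * y ^ b.val * c := by rw [h1]
    _ = x ^ a.val * (y * y ^ b.val) * (z ^ a.val * c) := by
        have := h.zpow_cen a.val (y ^ b.val)
        simp only [mul_assoc]
        rw [← mul_assoc (z ^ a.val) (y ^ b.val), this]
        simp only [mul_assoc]
    _ = x ^ a.val * (y ^ b.val * y) * (c * z ^ a.val) := by
        rw [h.zpow_cen a.val (c : E), ← pow_succ, ← pow_succ']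
    _ = x ^ a.val * y ^ b.val * (y * c) * z ^ a.val := by simp only [mul_assoc]
    _ = x ^ a.val * y ^ b.val * (c * y) * z ^ a.val := by rw [h2]
    _ = _ := by simp only [mul_assoc]

theorem psi_inj_es (h : ESp p E z) {x y : E} (hyx : y * x = x * y * z) :
    Function.Injective (PsiE p x y) := by
  intro t t' htt
  have hx := psi_x_es h hyx t
  have hx' := psi_x_es h hyx t'
  have hy := psi_y_es h hyx t
  have hy' := psi_y_es h hyx t'
  rw [htt] at hx hy
  have e1 : z ^ t.2.1.val = z ^ t'.2.1.val := mul_left_cancel (hx.symm.trans hx')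
  have e2 : z ^ t.1.val = z ^ t'.1.val := mul_left_cancel (hy.symm.trans hy')
  rw [pow_inj_mod, h.orderOf_z, Nat.mod_eq_of_lt (ZMod.val_lt _), Nat.mod_eq_of_lt (ZMod.val_lt _)]
    at e1 e2
  have e3 : t.2.1 = t'.2.1 := ZMod.val_injective p e1
  have e4 : t.1 = t'.1 := ZMod.val_injective p e2
  obtain ⟨a, b, c⟩ := t
  obtain ⟨a', b', c'⟩ := t'
  simp only at e3 e4
  subst e3 e4
  have e5 : (c : E) = c' := mul_left_cancel htt
  rw [Subtype.ext e5]

theorem psi_surj_es (h : ESp p E z) {x y : E} (hyx : y * x = x * y * z) :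
    Function.Surjective (PsiE p x y) := by
  intro g
  obtain ⟨i, hi⟩ := h.comms g x
  obtain ⟨j, hj⟩ := h.comms y g
  have hu1 := psi_x_es h hyx ((j : ZMod p), (i : ZMod p), 1)
  have hu2 := psi_y_es h hyx ((j : ZMod p), (i : ZMod p), 1)
  obtain ⟨u, hu⟩ : ∃ u, u = PsiE p x y ((j : ZMod p), (i : ZMod p), 1) := ⟨_, rfl⟩
  rw [← hu] at hu1 hu2
  simp only at hu1 hu2
  rw [h.pow_val] at hu1 hu2
  have hc : u⁻¹ * g ∈ Subgroup.centralizer ({x, y} : Set E) := by
    rw [Subgroup.mem_centralizer_iff]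
    intro w hw
    rcases hw with rfl | hw
    · apply mul_left_cancel (a := u)
      have hzi := h.zpow_cen i
      calc u * (w * (u⁻¹ * g)) = (u * w) * u⁻¹ * g := by simp only [mul_assoc]
        _ = (w * u * z ^ i) * u⁻¹ * g := by rw [hu1]
        _ = w * u * (z ^ i * u⁻¹) * g := by simp only [mul_assoc]
        _ = w * u * (u⁻¹ * z ^ i) * g := by rw [hzi]
        _ = w * (z ^ i * g) := by simp [mul_assoc]
        _ = w * g * z ^ i := by rw [hzi, mul_assoc]
        _ = g * w := hi.symm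
        _ = u * (u⁻¹ * g * w) := by simp [mul_assoc]
    · rw [Set.mem_singleton_iff] at hw
      subst hw
      apply mul_left_cancel (a := u)
      apply mul_right_cancel (b := z ^ j)
      have hzj := h.zpow_cen j
      have e : u⁻¹ * g * z ^ j = z ^ j * (u⁻¹ * g) := (hzj _).symm
      calc u * (w * (u⁻¹ * g)) * z ^ j = u * w * (u⁻¹ * g * z ^ j) := by simp only [mul_assoc]
        _ = u * w * (z ^ j * (u⁻¹ * g)) := by rw [e]
        _ = (u * w * z ^ j) * u⁻¹ * g := by simp only [mul_assoc]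
        _ = (w * u) * u⁻¹ * g := by rw [← hu2]
        _ = w * g := by simp [mul_assoc]
        _ = g * w * z ^ j := hj
        _ = u * (u⁻¹ * g * w) * z ^ j := by simp [mul_assoc]
  refine ⟨((j : ZMod p), (i : ZMod p), ⟨u⁻¹ * g, hc⟩), ?_⟩
  show x ^ (j : ZMod p).val * y ^ (i : ZMod p).val * (u⁻¹ * g) = g
  have hu' : u = x ^ (j : ZMod p).val * y ^ (i : ZMod p).val := by
    rw [hu]
    show x ^ (j : ZMod p).val * y ^ (i : ZMod p).val * ((1 : Subgroup.centralizer ({x, y} : Set E)) : E) = _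
    rw [Subgroup.coe_one, mul_one]
  rw [← hu']
  simp

theorem psi_bij_es (h : ESp p E z) {x y : E} (hyx : y * x = x * y * z) :
    Function.Bijective (PsiE p x y) := ⟨psi_inj_es h hyx, psi_surj_es h hyx⟩

theorem psi_mul_es (h : ESp p E z) {x y : E} (hyx : y * x = x * y * z)
    (t t' : ZMod p × ZMod p × Subgroup.centralizer ({x, y} : Set E)) :
    PsiE p x y t * PsiE p x y t' =
      PsiE p x y (t.1 + t'.1, t.2.1 + t'.2.1,
        ⟨z, h.z_mem x y⟩ ^ (t.2.1.val * t'.1.val) * t.2.2 * t'.2.2) := by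
  obtain ⟨a, b, c⟩ := t
  obtain ⟨a', b', c'⟩ := t'
  show x ^ a.val * y ^ b.val * (c : E) * (x ^ a'.val * y ^ b'.val * (c' : E)) =
    x ^ (a + a').val * y ^ (b + b').val * (z ^ (b.val * a'.val) * (c : E) * (c' : E))
  have h1 := pow_mul_comm_aux_es (fun g => h.cen g) hyx b.val
  have h2 := mul_pow_comm_aux_es (fun g => h.zpow_cen b.val g) h1 a'.val
  rw [← pow_mul] at h2
  have h3 : (c : E) * x ^ a'.val = x ^ a'.val * c :=
    ((Commute.pow_left (show Commute x (c : E) from cent_x_es c) a'.val).eq).symm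
  have h4 : (c : E) * y ^ b'.val = y ^ b'.val * c :=
    ((Commute.pow_left (show Commute y (c : E) from cent_y_es c) b'.val).eq).symm
  have h5 := h.zpow_cen (b.val * a'.val) (y ^ b'.val)
  have e1 : x ^ (a + a').val = x ^ a.val * x ^ a'.val := by
    rw [ZMod.val_add, ← pow_eq_pow_mod _ (h.exp x), pow_add]
  have e2 : y ^ (b + b').val = y ^ b.val * y ^ b'.val := by
    rw [ZMod.val_add, ← pow_eq_pow_mod _ (h.exp y), pow_add]
  rw [e1, e2]
  calc x ^ a.val * y ^ b.val * (c : E) * (x ^ a'.val * y ^ b'.val * (c' : E))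
      = x ^ a.val * y ^ b.val * ((c : E) * x ^ a'.val) * y ^ b'.val * c' := by
        simp only [mul_assoc]
    _ = x ^ a.val * y ^ b.val * (x ^ a'.val * c) * y ^ b'.val * c' := by rw [h3]
    _ = x ^ a.val * (y ^ b.val * x ^ a'.val) * ((c : E) * y ^ b'.val) * c' := by
        simp only [mul_assoc]
    _ = x ^ a.val * (x ^ a'.val * y ^ b.val * z ^ (b.val * a'.val)) * (y ^ b'.val * c) * c' := by
        rw [h2, h4]
    _ = x ^ a.val * x ^ a'.val * y ^ b.val * (z ^ (b.val * a'.val) * y ^ b'.val) * c * c' := by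
        simp only [mul_assoc]
    _ = x ^ a.val * x ^ a'.val * y ^ b.val * (y ^ b'.val * z ^ (b.val * a'.val)) * c * c' := by
        rw [h5]
    _ = _ := by simp only [mul_assoc]

theorem esp_cent_es (h : ESp p E z) {x y : E} (hyx : y * x = x * y * z) :
    ESp p (Subgroup.centralizer ({x, y} : Set E)) ⟨z, h.z_mem x y⟩ := by
  refine ⟨?_, ?_, ?_, ?_, ?_⟩
  · intro e
    exact h.ne (congrArg Subtype.val e)
  · intro g
    exact Subtype.ext (h.cen g)
  · intro a
    exact Subtype.ext (h.exp a)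
  · intro a b
    obtain ⟨k, hk⟩ := h.comms a b
    exact ⟨k, Subtype.ext hk⟩
  · intro c hc
    have hall : ∀ g : E, (c : E) * g = g * c := by
      intro g
      obtain ⟨⟨a, b, c'⟩, rfl⟩ := psi_surj_es h hyx g
      show (c : E) * (x ^ a.val * y ^ b.val * (c' : E)) = x ^ a.val * y ^ b.val * (c' : E) * c
      have h3 : (c : E) * x ^ a.val = x ^ a.val * c :=
        ((Commute.pow_left (show Commute x (c : E) from cent_x_es c) a.val).eq).symm
      have h4 : (c : E) * y ^ b.val = y ^ b.val * c :=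
        ((Commute.pow_left (show Commute y (c : E) from cent_y_es c) b.val).eq).symm
      have h5 : (c : E) * c' = c' * c := congrArg Subtype.val (hc c')
      calc (c : E) * (x ^ a.val * y ^ b.val * (c' : E)) = ((c : E) * x ^ a.val) * y ^ b.val * c' := by
            simp only [mul_assoc]
        _ = x ^ a.val * ((c : E) * y ^ b.val) * c' := by rw [h3]; simp only [mul_assoc]
        _ = x ^ a.val * y ^ b.val * ((c : E) * c') := by rw [h4]; simp only [mul_assoc]
        _ = _ := by rw [h5]; simp only [mul_assoc]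
    obtain ⟨k, hk⟩ := h.cens c hall
    exact ⟨k, Subtype.ext hk⟩

theorem esp_card_es (h : ESp p E z) [Finite E] {x y : E} (hyx : y * x = x * y * z) :
    Nat.card E = p * (p * Nat.card (Subgroup.centralizer ({x, y} : Set E))) := by
  rw [← Nat.card_congr (Equiv.ofBijective _ (psi_bij_es h hyx)), Nat.card_prod, Nat.card_prod,
    Nat.card_zmod]

theorem esp_comm_card_es (h : ESp p E z) [Finite E] (hc : ∀ a b : E, a * b = b * a) :
    (∀ g : E, g ∈ Subgroup.zpowers z) ∧ Nat.card E = p := by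
  have h0 : ∀ g : E, g ∈ Subgroup.zpowers z := by
    intro g
    obtain ⟨k, hk⟩ := h.cens g (fun g' => hc g g')
    rw [hk]
    exact Subgroup.pow_mem _ (Subgroup.mem_zpowers z) k
  refine ⟨h0, ?_⟩
  have h1 : Subgroup.zpowers z = ⊤ := (Subgroup.eq_top_iff' _).mpr h0
  rw [← h.orderOf_z, ← Nat.card_zpowers, h1, Subgroup.card_top]

theorem esp_exists_xy_es (h : ESp p E z) (hnc : ¬ ∀ a b : E, a * b = b * a) :
    ∃ x y : E, y * x = x * y * z := by
  push Not at hnc
  obtain ⟨a, b, hab⟩ := hnc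
  obtain ⟨k, hk⟩ := h.comms a b
  have hk0 : ¬ p ∣ k := by
    intro hdvd
    apply hab
    obtain ⟨m, rfl⟩ := hdvd
    rw [hk, pow_mul, h.exp z, one_pow, mul_one]
  have hcop : Nat.Coprime k p := ((Nat.Prime.coprime_iff_not_dvd hp.out).mpr hk0).symm
  obtain ⟨m, -, hm⟩ := Nat.exists_mul_mod_eq_one_of_coprime hcop hp.out.one_lt
  refine ⟨b, a ^ m, ?_⟩
  have h1 := pow_mul_comm_aux_es (x := b) (y := a) (w := z ^ k) (fun g => h.zpow_cen k g) hk m
  rw [h1, ← pow_mul]
  congr 1
  rw [pow_eq_pow_mod (k * m) (h.exp z), hm, pow_one]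

end

theorem esp_iso (p : ℕ) [hp : Fact p.Prime] : ∀ (n : ℕ) (E₁ : Type u) (E₂ : Type v) [Group E₁]
    [Group E₂] [Finite E₁] [Finite E₂] (z₁ : E₁) (z₂ : E₂), ESp p E₁ z₁ → ESp p E₂ z₂ →
    Nat.card E₁ = n → Nat.card E₂ = n → ∃ φ : E₁ ≃* E₂, φ z₁ = z₂ := by
  intro n
  induction n using Nat.strong_induction_on with
  | _ n ih =>
    intro E₁ E₂ _ _ _ _ z₁ z₂ h₁ h₂ hc₁ hc₂
    by_cases hcomm : ∀ a b : E₁, a * b = b * a
    · obtain ⟨hz1, hp1⟩ := esp_comm_card_es h₁ hcomm
      have hp2 : Nat.card E₂ = p := by rw [hc₂, ← hc₁, hp1]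
      have hz2 : ∀ g : E₂, g ∈ Subgroup.zpowers z₂ := by
        have h1 : Subgroup.zpowers z₂ = ⊤ := by
          apply Subgroup.eq_top_of_card_eq
          rw [Nat.card_zpowers, h₂.orderOf_z, hp2]
        intro g
        rw [h1]
        exact Subgroup.mem_top g
      exact ⟨mulEquivOfOrderOfEq hz1 hz2 (by rw [h₁.orderOf_z, h₂.orderOf_z]),
        mulEquivOfOrderOfEq_apply_gen hz1 hz2 _⟩
    · obtain ⟨x₁, y₁, hxy₁⟩ := esp_exists_xy_es h₁ hcomm
      have hcard₁ := esp_card_es h₁ hxy₁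
      have hpos : 0 < p := hp.out.pos
      have hcomm2 : ¬ ∀ a b : E₂, a * b = b * a := by
        intro hc2
        have hp2 := (esp_comm_card_es h₂ hc2).2
        rw [hc₂, ← hc₁, hcard₁] at hp2
        have h3 : p * Nat.card (Subgroup.centralizer ({x₁, y₁} : Set E₁)) = 1 :=
          Nat.eq_of_mul_eq_mul_left hpos (by rw [hp2, mul_one])
        have h4 : p = 1 := Nat.eq_one_of_mul_eq_one_right h3
        exact hp.out.one_lt.ne' h4
      obtain ⟨x₂, y₂, hxy₂⟩ := esp_exists_xy_es h₂ hcomm2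
      have hcard₂ := esp_card_es h₂ hxy₂
      have hC₁ := esp_cent_es h₁ hxy₁
      have hC₂ := esp_cent_es h₂ hxy₂
      have hcc : Nat.card (Subgroup.centralizer ({x₂, y₂} : Set E₂)) =
          Nat.card (Subgroup.centralizer ({x₁, y₁} : Set E₁)) := by
        have h3 : p * (p * Nat.card (Subgroup.centralizer ({x₂, y₂} : Set E₂))) =
            p * (p * Nat.card (Subgroup.centralizer ({x₁, y₁} : Set E₁))) := by
          rw [← hcard₁, ← hcard₂, hc₁, hc₂]
        exact Nat.eq_of_mul_eq_mul_left hpos (Nat.eq_of_mul_eq_mul_left hpos h3)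
      have hlt : Nat.card (Subgroup.centralizer ({x₁, y₁} : Set E₁)) < n := by
        rw [← hc₁, hcard₁]
        have hcpos : 0 < Nat.card (Subgroup.centralizer ({x₁, y₁} : Set E₁)) := Nat.card_pos
        have h2 : 2 ≤ p := hp.out.two_le
        calc Nat.card (Subgroup.centralizer ({x₁, y₁} : Set E₁))
            < 2 * (2 * Nat.card (Subgroup.centralizer ({x₁, y₁} : Set E₁))) := by omega
          _ ≤ p * (p * Nat.card (Subgroup.centralizer ({x₁, y₁} : Set E₁))) :=
            Nat.mul_le_mul h2 (Nat.mul_le_mul h2 le_rfl)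
      obtain ⟨ψ, hψ⟩ := ih _ hlt (Subgroup.centralizer ({x₁, y₁} : Set E₁))
        (Subgroup.centralizer ({x₂, y₂} : Set E₂)) _ _ hC₁ hC₂ rfl hcc
      let e₁ := Equiv.ofBijective (PsiE p x₁ y₁) (psi_bij_es h₁ hxy₁)
      let e₂ := Equiv.ofBijective (PsiE p x₂ y₂) (psi_bij_es h₂ hxy₂)
      let F : E₁ ≃ E₂ := e₁.symm.trans
        ((Equiv.prodCongr (Equiv.refl _) (Equiv.prodCongr (Equiv.refl _) ψ.toEquiv)).trans e₂)
      have hF : ∀ t : ZMod p × ZMod p × Subgroup.centralizer ({x₁, y₁} : Set E₁),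
          F (PsiE p x₁ y₁ t) = PsiE p x₂ y₂ (t.1, t.2.1, ψ t.2.2) := by
        intro t
        have h1 : e₁.symm (PsiE p x₁ y₁ t) = t := e₁.symm_apply_apply t
        show e₂ ((Equiv.prodCongr (Equiv.refl _) (Equiv.prodCongr (Equiv.refl _) ψ.toEquiv))
          (e₁.symm (PsiE p x₁ y₁ t))) = _
        rw [h1]
        rfl
      have hmul : ∀ g g' : E₁, F (g * g') = F g * F g' := by
        intro g g'
        obtain ⟨t, rfl⟩ := psi_surj_es h₁ hxy₁ g
        obtain ⟨t', rfl⟩ := psi_surj_es h₁ hxy₁ g'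
        rw [psi_mul_es h₁ hxy₁, hF, hF, hF, psi_mul_es h₂ hxy₂]
        simp only [map_mul, map_pow, hψ]
      refine ⟨MulEquiv.mk' F hmul, ?_⟩
      have hz : z₁ = PsiE p x₁ y₁ (0, 0, ⟨z₁, h₁.z_mem x₁ y₁⟩) := by
        show z₁ = x₁ ^ (0 : ZMod p).val * y₁ ^ (0 : ZMod p).val * z₁
        simp
      show F z₁ = z₂
      rw [hz, hF]
      show x₂ ^ (0 : ZMod p).val * y₂ ^ (0 : ZMod p).val *
        ((ψ ⟨z₁, h₁.z_mem x₁ y₁⟩ : Subgroup.centralizer ({x₂, y₂} : Set E₂)) : E₂) = z₂
      rw [hψ]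
      simp

theorem esp_of_hyp {E : Type*} [Group E] [Finite E] {p : ℕ} [hp : Fact p.Prime]
    (hcm : commutator E = Subgroup.center E) (hcen : Nat.card (Subgroup.center E) = p)
    (he : Monoid.exponent E = p) : ∃ z : E, ESp p E z := by
  have hcyc : IsCyclic (Subgroup.center E) := isCyclic_of_prime_card hcen
  obtain ⟨w, hw⟩ := hcyc.exists_generator
  have hmem : ∀ c ∈ Subgroup.center E, ∃ k : ℕ, c = (w : E) ^ k := by
    intro c hc
    have h1 := hw ⟨c, hc⟩
    rw [← mem_powers_iff_mem_zpowers] at h1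
    obtain ⟨k, hk⟩ := (Submonoid.mem_powers_iff _ _).mp h1
    exact ⟨k, by rw [← Subgroup.coe_pow, hk]⟩
  refine ⟨(w : E), ?_, ?_, ?_, ?_, ?_⟩
  · intro e
    have hw1 : w = 1 := Subtype.ext e
    have h2 : ∀ c : Subgroup.center E, c = 1 := by
      intro c
      have := hw c
      rw [hw1, Subgroup.zpowers_one_eq_bot, Subgroup.mem_bot] at this
      exact this
    have h3 : Nat.card (Subgroup.center E) = 1 := by
      rw [Nat.card_eq_one_iff_unique]
      exact ⟨⟨fun a b => (h2 a).trans (h2 b).symm⟩, ⟨1⟩⟩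
    rw [hcen] at h3
    exact hp.out.one_lt.ne' h3
  · intro g
    exact (Subgroup.mem_center_iff.mp w.2 g).symm
  · intro a
    rw [← he]
    exact Monoid.pow_exponent_eq_one a
  · intro a b
    have h1 : a * b * a⁻¹ * b⁻¹ ∈ commutator E := by
      rw [commutator_def]
      exact Subgroup.commutator_mem_commutator (Subgroup.mem_top a) (Subgroup.mem_top b)
    rw [hcm] at h1
    obtain ⟨k, hk⟩ := hmem _ h1
    refine ⟨k, ?_⟩
    have hcen' := Subgroup.mem_center_iff.mp h1 (b * a)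
    rw [← hk, hcen']
    group
  · intro c hc
    exact hmem c (Subgroup.mem_center_iff.mpr (fun g => (hc g).symm))

theorem extraspecial_exp_p_iso {E₁ : Type u} {E₂ : Type v} [Group E₁] [Group E₂] [Finite E₁]
    [Finite E₂] {p : ℕ} [hp : Fact p.Prime]
    (hcm₁ : commutator E₁ = Subgroup.center E₁) (hcen₁ : Nat.card (Subgroup.center E₁) = p)
    (hcm₂ : commutator E₂ = Subgroup.center E₂) (hcen₂ : Nat.card (Subgroup.center E₂) = p)
    (he₁ : Monoid.exponent E₁ = p)
    (he₂ : Monoid.exponent E₂ = p) (hc : Nat.card E₁ = Nat.card E₂) : Nonempty (E₁ ≃* E₂) := by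
  obtain ⟨z₁, h₁⟩ := esp_of_hyp hcm₁ hcen₁ he₁
  obtain ⟨z₂, h₂⟩ := esp_of_hyp hcm₂ hcen₂ he₂
  obtain ⟨φ, -⟩ := esp_iso p (Nat.card E₁) E₁ E₂ z₁ z₂ h₁ h₂ rfl hc.symm
  exact ⟨φ⟩

end Cfsg.Agent.Lib.helper1
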