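import Mathlib
import Cfsg.Agent.Lib.helper1.ESOdd

set_option autoImplicit false

namespace Cfsg.Agent.Lib.helper1

universe u v

/-- extraspecial-like structure with a marked generator `z` of the centre (no exponent
condition on the whole group) -/
structure ESz (p : ℕ) (E : Type*) [Group E] (z : E) : Prop where
  ne : z ≠ 1
  zp : z ^ p = 1
  cen : ∀ g : E, z * g = g * z
  comms : ∀ a b : E, ∃ k : ℕ, a * b = b * a * z ^ k
  cens : ∀ c : E, (∀ g : E, c * g = g * c) → ∃ k : ℕ, c = z ^ k

section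
variable {p : ℕ} [hp : Fact p.Prime] {E : Type*} [Group E] {z : E}

theorem ESz.zpow_cen (h : ESz p E z) (k : ℕ) (g : E) : z ^ k * g = g * z ^ k :=
  (Commute.pow_left (show Commute z g from h.cen g) k).eq

theorem ESz.orderOf_z (h : ESz p E z) : orderOf z = p := orderOf_eq_prime h.zp h.ne

theorem ESz.pow_val (h : ESz p E z) (k : ℕ) : z ^ ((k : ZMod p).val) = z ^ k := by
  rw [ZMod.val_natCast]
  exact (pow_eq_pow_mod k h.zp).symm

theorem ESz.z_mem (h : ESz p E z) (x y : E) : z ∈ Subgroup.centralizer ({x, y} : Set E) := by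
  rw [Subgroup.mem_centralizer_iff]
  intro g _
  exact (h.cen g).symm

theorem ESz.pow_p_eq (h : ESz p E z) (g : E) : ∃ k : ℕ, g ^ p = z ^ k := by
  apply h.cens
  intro t
  obtain ⟨k, hk⟩ := h.comms g t
  have := pow_mul_comm_aux_es (x := t) (y := g) (w := z ^ k) (fun g' => h.zpow_cen k g') hk p
  rw [this, ← pow_mul, mul_comm k p, pow_mul, h.zp, one_pow, mul_one]

theorem ESz.exists_y (h : ESz p E z) {x : E} (hxz : x ∉ Subgroup.zpowers z) :
    ∃ y : E, y * x = x * y * z := by
  have hnc : ∃ g : E, x * g ≠ g * x := by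
    by_contra hall
    push Not at hall
    obtain ⟨k, hk⟩ := h.cens x hall
    apply hxz
    rw [hk]
    exact Subgroup.pow_mem _ (Subgroup.mem_zpowers z) k
  obtain ⟨g, hg⟩ := hnc
  obtain ⟨k, hk⟩ := h.comms g x
  have hk0 : ¬ p ∣ k := by
    intro hdvd
    apply hg
    obtain ⟨m, rfl⟩ := hdvd
    rw [hk, pow_mul, h.zp, one_pow, mul_one]
  have hcop : Nat.Coprime k p := ((Nat.Prime.coprime_iff_not_dvd hp.out).mpr hk0).symm
  obtain ⟨m, -, hm⟩ := Nat.exists_mul_mod_eq_one_of_coprime hcop hp.out.one_lt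
  refine ⟨g ^ m, ?_⟩
  have h1 := pow_mul_comm_aux_es (x := x) (y := g) (w := z ^ k) (fun g => h.zpow_cen k g) hk m
  rw [h1, ← pow_mul]
  congr 1
  rw [pow_eq_pow_mod (k * m) h.zp, hm, pow_one]

theorem psi_x_ez (h : ESz p E z) {x y : E} (hyx : y * x = x * y * z)
    (t : ZMod p × ZMod p × Subgroup.centralizer ({x, y} : Set E)) :
    PsiE p x y t * x = x * PsiE p x y t * z ^ t.2.1.val := by
  obtain ⟨a, b, c⟩ := t
  show x ^ a.val * y ^ b.val * (c : E) * x = x * (x ^ a.val * y ^ b.val * (c : E)) * z ^ b.val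
  have h1 := pow_mul_comm_aux_es (fun g => h.cen g) hyx b.val
  have h2 := cent_x_es c
  have h3 := h.zpow_cen b.val (c : E)
  calc x ^ a.val * y ^ b.val * (c : E) * x = x ^ a.val * y ^ b.val * ((c : E) * x) := by
        rw [mul_assoc]
    _ = x ^ a.val * y ^ b.val * (x * c) := by rw [h2]
    _ = x ^ a.val * (y ^ b.val * x) * c := by simp only [mul_assoc]
    _ = x ^ a.val * (x * y ^ b.val * z ^ b.val) * c := by rw [h1]
    _ = (x ^ a.val * x) * y ^ b.val * (z ^ b.val * c) := by simp only [mul_assoc]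
    _ = (x * x ^ a.val) * y ^ b.val * (c * z ^ b.val) := by rw [h3, ← pow_succ, ← pow_succ']
    _ = _ := by simp only [mul_assoc]

theorem psi_y_ez (h : ESz p E z) {x y : E} (hyx : y * x = x * y * z)
    (t : ZMod p × ZMod p × Subgroup.centralizer ({x, y} : Set E)) :
    y * PsiE p x y t = PsiE p x y t * y * z ^ t.1.val := by
  obtain ⟨a, b, c⟩ := t
  show y * (x ^ a.val * y ^ b.val * (c : E)) = x ^ a.val * y ^ b.val * (c : E) * y * z ^ a.val
  have h1 := mul_pow_comm_aux_es (fun g => h.cen g) hyx a.val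
  have h2 := cent_y_es c
  have h3 := h.zpow_cen a.val (y ^ b.val * (c : E) * y)
  calc y * (x ^ a.val * y ^ b.val * (c : E)) = (y * x ^ a.val) * y ^ b.val * c := by
        simp only [mul_assoc]
    _ = (x ^ a.val * y * z ^ a.val) * y ^ b.val * c := by rw [h1]
    _ = x ^ a.val * (y * y ^ b.val) * (z ^ a.val * c) := by
        have := h.zpow_cen a.val (y ^ b.val)
        simp only [mul_assoc]
        rw [← mul_assoc (z ^ a.val) (y ^ b.val), this]
        simp only [mul_assoc]
    _ = x ^ a.val * (y ^ b.val * y) * (c * z ^ a.val) := by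
        rw [h.zpow_cen a.val (c : E), ← pow_succ, ← pow_succ']
    _ = x ^ a.val * y ^ b.val * (y * c) * z ^ a.val := by simp only [mul_assoc]
    _ = x ^ a.val * y ^ b.val * (c * y) * z ^ a.val := by rw [h2]
    _ = _ := by simp only [mul_assoc]

theorem psi_inj_ez (h : ESz p E z) {x y : E} (hyx : y * x = x * y * z) :
    Function.Injective (PsiE p x y) := by
  intro t t' htt
  have hx := psi_x_ez h hyx t
  have hx' := psi_x_ez h hyx t'
  have hy := psi_y_ez h hyx t
  have hy' := psi_y_ez h hyx t'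
  rw [htt] at hx hy
  have e1 : z ^ t.2.1.val = z ^ t'.2.1.val := mul_left_cancel (hx.symm.trans hx')
  have e2 : z ^ t.1.val = z ^ t'.1.val := mul_left_cancel (hy.symm.trans hy')
  rw [pow_inj_mod, h.orderOf_z, Nat.mod_eq_of_lt (ZMod.val_lt _), Nat.mod_eq_of_lt (ZMod.val_lt _)]
    at e1 e2
  have e3 : t.2.1 = t'.2.1 := ZMod.val_injective p e1
  have e4 : t.1 = t'.1 := ZMod.val_injective p e2
  obtain ⟨a, b, c⟩ := t
  obtain ⟨a', b', c'⟩ := t'
  simp only at e3 e4
  subst e3 e4
  have e5 : (c : E) = c' := mul_left_cancel htt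
  rw [Subtype.ext e5]

theorem psi_surj_ez (h : ESz p E z) {x y : E} (hyx : y * x = x * y * z) :
    Function.Surjective (PsiE p x y) := by
  intro g
  obtain ⟨i, hi⟩ := h.comms g x
  obtain ⟨j, hj⟩ := h.comms y g
  have hu1 := psi_x_ez h hyx ((j : ZMod p), (i : ZMod p), 1)
  have hu2 := psi_y_ez h hyx ((j : ZMod p), (i : ZMod p), 1)
  obtain ⟨u, hu⟩ : ∃ u, u = PsiE p x y ((j : ZMod p), (i : ZMod p), 1) := ⟨_, rfl⟩
  rw [← hu] at hu1 hu2
  simp only at hu1 hu2
  rw [h.pow_val] at hu1 hu2
  have hc : u⁻¹ * g ∈ Subgroup.centralizer ({x, y} : Set E) := by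
    rw [Subgroup.mem_centralizer_iff]
    intro w hw
    rcases hw with rfl | hw
    · apply mul_left_cancel (a := u)
      have hzi := h.zpow_cen i
      calc u * (w * (u⁻¹ * g)) = (u * w) * u⁻¹ * g := by simp only [mul_assoc]
        _ = (w * u * z ^ i) * u⁻¹ * g := by rw [hu1]
        _ = w * u * (z ^ i * u⁻¹) * g := by simp only [mul_assoc]
        _ = w * u * (u⁻¹ * z ^ i) * g := by rw [hzi]
        _ = w * (z ^ i * g) := by simp [mul_assoc]
        _ = w * g * z ^ i := by rw [hzi, mul_assoc]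
        _ = g * w := hi.symm
        _ = u * (u⁻¹ * g * w) := by simp [mul_assoc]
    · rw [Set.mem_singleton_iff] at hw
      subst hw
      apply mul_left_cancel (a := u)
      apply mul_right_cancel (b := z ^ j)
      have hzj := h.zpow_cen j
      have e : u⁻¹ * g * z ^ j = z ^ j * (u⁻¹ * g) := (hzj _).symm
      calc u * (w * (u⁻¹ * g)) * z ^ j = u * w * (u⁻¹ * g * z ^ j) := by simp only [mul_assoc]
        _ = u * w * (z ^ j * (u⁻¹ * g)) := by rw [e]
        _ = (u * w * z ^ j) * u⁻¹ * g := by simp only [mul_assoc]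
        _ = (w * u) * u⁻¹ * g := by rw [← hu2]
        _ = w * g := by simp [mul_assoc]
        _ = g * w * z ^ j := hj
        _ = u * (u⁻¹ * g * w) * z ^ j := by simp [mul_assoc]
  refine ⟨((j : ZMod p), (i : ZMod p), ⟨u⁻¹ * g, hc⟩), ?_⟩
  show x ^ (j : ZMod p).val * y ^ (i : ZMod p).val * (u⁻¹ * g) = g
  have hu' : u = x ^ (j : ZMod p).val * y ^ (i : ZMod p).val := by
    rw [hu]
    show x ^ (j : ZMod p).val * y ^ (i : ZMod p).val * ((1 : Subgroup.centralizer ({x, y} : Set E)) : E) = _
    rw [Subgroup.coe_one, mul_one]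
  rw [← hu']
  simp

theorem esz_cent (h : ESz p E z) {x y : E} (hyx : y * x = x * y * z) :
    ESz p (Subgroup.centralizer ({x, y} : Set E)) ⟨z, h.z_mem x y⟩ := by
  refine ⟨?_, ?_, ?_, ?_, ?_⟩
  · intro e
    exact h.ne (congrArg Subtype.val e)
  · exact Subtype.ext h.zp
  · intro g
    exact Subtype.ext (h.cen g)
  · intro a b
    obtain ⟨k, hk⟩ := h.comms a b
    exact ⟨k, Subtype.ext hk⟩
  · intro c hc
    have hall : ∀ g : E, (c : E) * g = g * c := by
      intro g
      obtain ⟨⟨a, b, c'⟩, rfl⟩ := psi_surj_ez h hyx g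
      show (c : E) * (x ^ a.val * y ^ b.val * (c' : E)) = x ^ a.val * y ^ b.val * (c' : E) * c
      have h3 : (c : E) * x ^ a.val = x ^ a.val * c :=
        ((Commute.pow_left (show Commute x (c : E) from cent_x_es c) a.val).eq).symm
      have h4 : (c : E) * y ^ b.val = y ^ b.val * c :=
        ((Commute.pow_left (show Commute y (c : E) from cent_y_es c) b.val).eq).symm
      have h5 : (c : E) * c' = c' * c := congrArg Subtype.val (hc c')
      calc (c : E) * (x ^ a.val * y ^ b.val * (c' : E)) = ((c : E) * x ^ a.val) * y ^ b.val * c' := by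
            simp only [mul_assoc]
        _ = x ^ a.val * ((c : E) * y ^ b.val) * c' := by rw [h3]; simp only [mul_assoc]
        _ = x ^ a.val * y ^ b.val * ((c : E) * c') := by rw [h4]; simp only [mul_assoc]
        _ = _ := by rw [h5]; simp only [mul_assoc]
    obtain ⟨k, hk⟩ := h.cens c hall
    exact ⟨k, Subtype.ext hk⟩

theorem esz_card (h : ESz p E z) [Finite E] {x y : E} (hyx : y * x = x * y * z) :
    Nat.card E = p * (p * Nat.card (Subgroup.centralizer ({x, y} : Set E))) := by
  rw [← Nat.card_congr (Equiv.ofBijective _ ((⟨psi_inj_ez h hyx, psi_surj_ez h hyx⟩ : Function.Bijective (PsiE p x y)))), Nat.card_prod, Nat.card_prod,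
    Nat.card_zmod]

end


section
variable {p : ℕ} [hp : Fact p.Prime] {E : Type*} [Group E] {z : E}

/-- power formula in class two -/
theorem mul_pow_class2_ez {u v t : E} (ht : ∀ g : E, t * g = g * t)
    (hvu : v * u = u * v * t) (n : ℕ) : (u * v) ^ n = u ^ n * v ^ n * t ^ (n.choose 2) := by
  induction n with
  | zero => simp
  | succ n ih =>
    have h1 : v ^ n * u = u * v ^ n * t ^ n := pow_mul_comm_aux_es ht hvu n
    have hT : t ^ (n.choose 2) * (u * v) = (u * v) * t ^ (n.choose 2) :=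
      (Commute.pow_left (show Commute t (u * v) from ht _) (n.choose 2)).eq
    have htn : t ^ n * v = v * t ^ n := (Commute.pow_left (show Commute t v from ht _) n).eq
    have hch : (n + 1).choose 2 = n + n.choose 2 := by
      rw [show (2 : ℕ) = 1 + 1 from rfl, Nat.choose_succ_succ', Nat.choose_one_right]
    calc (u * v) ^ (n + 1) = (u * v) ^ n * (u * v) := pow_succ _ _
      _ = u ^ n * v ^ n * t ^ (n.choose 2) * (u * v) := by rw [ih]
      _ = u ^ n * v ^ n * (t ^ (n.choose 2) * (u * v)) := by rw [mul_assoc]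
      _ = u ^ n * v ^ n * ((u * v) * t ^ (n.choose 2)) := by rw [hT]
      _ = u ^ n * (v ^ n * u) * v * t ^ (n.choose 2) := by simp only [mul_assoc]
      _ = u ^ n * (u * v ^ n * t ^ n) * v * t ^ (n.choose 2) := by rw [h1]
      _ = (u ^ n * u) * v ^ n * (t ^ n * v) * t ^ (n.choose 2) := by simp only [mul_assoc]
      _ = (u ^ n * u) * v ^ n * (v * t ^ n) * t ^ (n.choose 2) := by rw [htn]
      _ = u ^ (n + 1) * v ^ (n + 1) * t ^ ((n + 1).choose 2) := by
        rw [hch, pow_add t, pow_succ u n, pow_succ v n]; simp only [mul_assoc]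

/-- for odd `p` there is a noncentral element of order `p` as soon as the group is nonabelian -/
theorem esz_exists_order_p_odd (h : ESz p E z) (hp2 : p ≠ 2) {x y : E}
    (hxz : x ∉ Subgroup.zpowers z) (hyx : y * x = x * y * z) :
    ∃ g : E, g ∉ Subgroup.zpowers z ∧ g ^ p = 1 := by
  by_cases hxp : x ^ p = 1
  · exact ⟨x, hxz, hxp⟩
  obtain ⟨a, ha⟩ := h.pow_p_eq x
  obtain ⟨b, hb⟩ := h.pow_p_eq y
  obtain ⟨m, hm⟩ : ∃ m, m = (p - 1) * a := ⟨_, rfl⟩
  have hma : a + m = p * a := by
    rw [hm]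
    conv_rhs => rw [show p = (p - 1) + 1 by have := hp.out.pos; omega]
    ring
  have h1 : y ^ m * x = x * y ^ m * z ^ m := pow_mul_comm_aux_es (fun g => h.cen g) hyx m
  have h2 : y ^ m * x ^ b = x ^ b * y ^ m * (z ^ m) ^ b :=
    mul_pow_comm_aux_es (fun g => h.zpow_cen m g) h1 b
  have ht : ∀ g : E, (z ^ m) ^ b * g = g * (z ^ m) ^ b := by
    intro g
    rw [← pow_mul]
    exact h.zpow_cen _ g
  have h3 := mul_pow_class2_ez ht h2 p
  have h4 : ((z ^ m) ^ b) ^ (p.choose 2) = 1 := by
    obtain ⟨q, hq⟩ := hp.out.dvd_choose_self (two_ne_zero)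
      (lt_of_le_of_ne hp.out.two_le (Ne.symm hp2))
    rw [hq, ← pow_mul, ← pow_mul]
    have : m * (b * (p * q)) = p * (m * b * q) := by ring
    rw [this, pow_mul, h.zp, one_pow]
  have h5 : (x ^ b) ^ p = z ^ (a * b) := by rw [← pow_mul, mul_comm, pow_mul, ha, ← pow_mul]
  have h6 : (y ^ m) ^ p = z ^ (b * m) := by rw [← pow_mul, mul_comm, pow_mul, hb, ← pow_mul]
  have hgp : (x ^ b * y ^ m) ^ p = 1 := by
    rw [h3, h4, mul_one, h5, h6, ← pow_add]
    have : a * b + b * m = p * (a * b) := by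
      calc a * b + b * m = b * (a + m) := by ring
        _ = b * (p * a) := by rw [hma]
        _ = p * (a * b) := by ring
    rw [this, pow_mul, h.zp, one_pow]
  refine ⟨x ^ b * y ^ m, ?_, hgp⟩
  intro hg
  obtain ⟨k, hk⟩ := hg
  have hcx : (x ^ b * y ^ m) * x = x * (x ^ b * y ^ m) := by
    rw [← hk]
    exact (Commute.zpow_left (show Commute z x from h.cen x) k).eq
  have hcx2 : x ^ b * y ^ m * x = x * (x ^ b * y ^ m) * z ^ m := by
    rw [mul_assoc, h1]
    simp only [← mul_assoc]
    rw [← pow_succ, ← pow_succ']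
  rw [hcx2] at hcx
  have hzm : z ^ m = 1 := mul_left_cancel (hcx.trans (mul_one _).symm)
  have hdvd : p ∣ m := by
    rw [← h.orderOf_z]
    exact orderOf_dvd_of_pow_eq_one hzm
  have hpa : p ∣ a := by
    rw [hm] at hdvd
    rcases (Nat.Prime.dvd_mul hp.out).mp hdvd with h' | h'
    · exfalso
      have h2le := hp.out.two_le
      have := Nat.le_of_dvd (by omega) h'
      omega
    · exact h'
  apply hxp
  rw [ha]
  obtain ⟨q, rfl⟩ := hpa
  rw [pow_mul, h.zp, one_pow]

/-- for `p = 2`, if all involutions are central then the group has order at most `8` -/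
theorem esz_two_card (h : ESz p E z) [Finite E] (hp2 : p = 2)
    (hno : ∀ g : E, g ^ p = 1 → g ∈ Subgroup.zpowers z) {x y : E}
    (hxz : x ∉ Subgroup.zpowers z) (hyx : y * x = x * y * z) : Nat.card E ≤ 8 := by
  subst hp2
  have hsq : ∀ g : E, g ∉ Subgroup.zpowers z → g ^ 2 = z := by
    intro g hg
    obtain ⟨k, hk⟩ := h.pow_p_eq g
    rcases Nat.even_or_odd k with ⟨q, hq⟩ | ⟨q, hq⟩
    · exfalso
      apply hg
      apply hno
      rw [hk, hq, ← two_mul, pow_mul, h.zp, one_pow]
    · rw [hk, hq, pow_succ, pow_mul, h.zp, one_pow, one_mul]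
  have hcent : ∀ c : Subgroup.centralizer ({x, y} : Set E), (c : E) ∈ Subgroup.zpowers z := by
    intro c
    by_contra hc
    have h1 := hsq x hxz
    have h2 := hsq c hc
    have hxc : (x * (c : E)) ^ 2 = 1 := by
      rw [(Commute.mul_pow (show Commute x (c : E) from cent_x_es c) 2), h1, h2, ← pow_two, h.zp]
    obtain ⟨k, hk⟩ := hno _ hxc
    have hcy : y * (x * (c : E)) = (x * c) * y := by
      rw [← hk]
      exact ((Commute.zpow_left (show Commute z y from h.cen y) k).eq).symm
    have hcy2 : y * (x * (c : E)) = x * c * y * z := by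
      calc y * (x * (c : E)) = (y * x) * c := by rw [mul_assoc]
        _ = x * y * (z * c) := by rw [hyx]; simp only [mul_assoc]
        _ = x * y * (c * z) := by rw [h.cen c]
        _ = x * (y * c) * z := by simp only [mul_assoc]
        _ = x * (c * y) * z := by rw [cent_y_es c]
        _ = x * c * y * z := by simp only [mul_assoc]
    rw [hcy2] at hcy
    exact h.ne (mul_left_cancel (hcy.trans (mul_one _).symm))
  have hle : Nat.card (Subgroup.centralizer ({x, y} : Set E)) ≤ 2 := by
    have hsub : Subgroup.centralizer ({x, y} : Set E) ≤ Subgroup.zpowers z :=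
      fun c hc => hcent ⟨c, hc⟩
    calc Nat.card (Subgroup.centralizer ({x, y} : Set E)) ≤ Nat.card (Subgroup.zpowers z) :=
          Subgroup.card_le_of_le hsub
      _ = 2 := by rw [Nat.card_zpowers, h.orderOf_z]
  have := esz_card h hyx
  omega

end

section ops
variable {E V : Type*} [Group E] [CommGroup V]

/-- the norm operator of `g` (`m`-fold) -/
def nrmE (c : E →* MulAut V) (m : ℕ) (g : E) : V →* V where
  toFun a := ∏ k ∈ Finset.range m, c (g ^ k) a
  map_one' := by simp
  map_mul' a b := by simp [Finset.prod_mul_distrib]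

theorem nrmE_apply (c : E →* MulAut V) (m : ℕ) (g : E) (a : V) :
    nrmE c m g a = ∏ k ∈ Finset.range m, c (g ^ k) a := rfl

theorem nrmE_fixed (c : E →* MulAut V) {m : ℕ} {g : E} (hg : g ^ m = 1) (a : V) :
    c g (nrmE c m g a) = nrmE c m g a := by
  rw [nrmE_apply, map_prod]
  have h1 : ∀ k, c g (c (g ^ k) a) = c (g ^ (k + 1)) a := by
    intro k
    rw [pow_succ', map_mul]
    rfl
  simp_rw [h1]
  have h2 := Finset.prod_range_succ (fun k => c (g ^ k) a) m
  have h3 := Finset.prod_range_succ' (fun k => c (g ^ k) a) m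
  rw [h2] at h3
  simp only [pow_zero, map_one, MulAut.one_apply, hg] at h3
  exact (mul_right_cancel h3).symm

theorem nrmE_eq_one (c : E →* MulAut V) {m : ℕ} {g : E} (hg : g ^ m = 1)
    (hf : ∀ v : V, c g v = v → v = 1) (a : V) : nrmE c m g a = 1 :=
  hf _ (nrmE_fixed c hg a)

theorem fix_pow_ez (c : E →* MulAut V) {g : E} {a : V} (h : c g a = a) (k : ℕ) :
    c (g ^ k) a = a := by
  induction k with
  | zero => simp
  | succ k ih => rw [pow_succ, map_mul, MulAut.mul_apply, h, ih]

theorem nrmE_of_fixed (c : E →* MulAut V) (m : ℕ) {g : E} {a : V} (h : c g a = a) :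
    nrmE c m g a = a ^ m := by
  rw [nrmE_apply, Finset.prod_congr rfl (fun k _ => fix_pow_ez c h k), Finset.prod_const,
    Finset.card_range]

theorem nrmE_comm (c : E →* MulAut V) (m : ℕ) {g h : E} (hgh : h * g = g * h) (a : V) :
    c h (nrmE c m g a) = nrmE c m g (c h a) := by
  rw [nrmE_apply, nrmE_apply, map_prod]
  refine Finset.prod_congr rfl (fun k _ => ?_)
  have h1 : h * g ^ k = g ^ k * h := (Commute.pow_right (show Commute h g from hgh) k).eq
  rw [← MulAut.mul_apply, ← map_mul, h1, map_mul]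
  rfl

theorem nrmE_shift (c : E →* MulAut V) (m : ℕ) {g u : E} (hgu : g * u = u * g) {b : V}
    (hb : c g b = b) : nrmE c m (g * u) b = nrmE c m u b := by
  rw [nrmE_apply, nrmE_apply]
  refine Finset.prod_congr rfl (fun k _ => ?_)
  have hk : c (g ^ k) b = b := fix_pow_ez c hb k
  have h1 : (g * u) ^ k = u ^ k * g ^ k := by
    rw [hgu]
    exact (Commute.mul_pow (show Commute u g from hgu.symm) k)
  rw [h1, map_mul, MulAut.mul_apply, hk]

/-- the subgroup of fixed points of `g` -/
def fixS (c : E →* MulAut V) (g : E) : Subgroup V where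
  carrier := {v | c g v = v}
  mul_mem' := by
    intro a b ha hb
    simp only [Set.mem_setOf_eq] at *
    rw [map_mul, ha, hb]
  one_mem' := by simp
  inv_mem' := by
    intro a ha
    simp only [Set.mem_setOf_eq] at *
    rw [map_inv, ha]

theorem mem_fixS {c : E →* MulAut V} {g : E} {v : V} : v ∈ fixS c g ↔ c g v = v := Iff.rfl

theorem pow_p_of_mem_zpowers_ez {p : ℕ} {z u : E} (hzp : z ^ p = 1)
    (hu : u ∈ Subgroup.zpowers z) : u ^ p = 1 := by
  obtain ⟨t, rfl⟩ := hu
  rw [← zpow_natCast, ← zpow_mul, mul_comm, zpow_mul, zpow_natCast, hzp, one_zpow]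

theorem fpf_of_mem_zpowers_ez [Finite E] {p : ℕ} [hp : Fact p.Prime] (c : E →* MulAut V) {z u : E}
    (hzp : z ^ p = 1) (hf : ∀ v : V, c z v = v → v = 1) (hu : u ∈ Subgroup.zpowers z)
    (hu1 : u ≠ 1) : ∀ v : V, c u v = v → v = 1 := by
  have hz1 : z ≠ 1 := by
    rintro rfl
    rw [Subgroup.zpowers_one_eq_bot, Subgroup.mem_bot] at hu
    exact hu1 hu
  have hoz : orderOf z = p := orderOf_eq_prime hzp hz1
  have hou : orderOf u = p := orderOf_eq_prime (pow_p_of_mem_zpowers_ez hzp hu) hu1
  have hle : Subgroup.zpowers u ≤ Subgroup.zpowers z := Subgroup.zpowers_le.mpr hu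
  have heq : Subgroup.zpowers u = Subgroup.zpowers z :=
    Subgroup.eq_of_le_of_card_ge hle (by rw [Nat.card_zpowers, Nat.card_zpowers, hou, hoz])
  have hzu : z ∈ Subgroup.zpowers u := heq ▸ Subgroup.mem_zpowers z
  obtain ⟨s, hs⟩ := hzu
  intro v hv
  apply hf
  have hs' : z = u ^ s := hs.symm
  rw [hs', map_zpow]
  have h1 : c u ∈ MulAction.stabilizer (MulAut V) v := by
    rw [MulAction.mem_stabilizer_iff]
    exact hv
  have h2 := zpow_mem h1 s
  rw [MulAction.mem_stabilizer_iff] at h2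
  exact h2

/-- the sum of the norm operators of `x z^i` is the `p`-th power map -/
theorem prod_nrmE_eq [Finite E] {p : ℕ} [hp : Fact p.Prime] (c : E →* MulAut V) (x z : E)
    (hz : ∀ g : E, z * g = g * z) (hzp : z ^ p = 1) (hz1 : z ≠ 1)
    (hfpf : ∀ v : V, c z v = v → v = 1) (a : V) :
    ∏ i ∈ Finset.range p, nrmE c p (x * z ^ i) a = a ^ p := by
  have hoz : orderOf z = p := orderOf_eq_prime hzp hz1
  simp only [nrmE_apply]
  rw [Finset.prod_comm]
  have hk : ∀ k ∈ Finset.range p, ∏ i ∈ Finset.range p, c ((x * z ^ i) ^ k) a =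
      c (x ^ k) (nrmE c p (z ^ k) a) := by
    intro k _
    rw [nrmE_apply, map_prod]
    refine Finset.prod_congr rfl (fun i _ => ?_)
    have hcomm : Commute x (z ^ i) :=
      (Commute.pow_left (show Commute z x from hz x) i).symm
    have h1 : (x * z ^ i) ^ k = x ^ k * (z ^ k) ^ i := by
      rw [hcomm.mul_pow k, ← pow_mul, ← pow_mul, mul_comm i k]
    rw [h1, map_mul]
    rfl
  rw [Finset.prod_congr rfl hk, Finset.prod_eq_single 0]
  · rw [pow_zero, pow_zero, map_one, MulAut.one_apply]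
    exact nrmE_of_fixed c p (by rw [map_one, MulAut.one_apply])
  · intro k hk hk0
    rw [Finset.mem_range] at hk
    have hzk1 : z ^ k ≠ 1 := pow_ne_one_of_lt_orderOf hk0 (by rw [hoz]; exact hk)
    have hzkmem : z ^ k ∈ Subgroup.zpowers z := Subgroup.pow_mem _ (Subgroup.mem_zpowers z) k
    rw [nrmE_eq_one c (pow_p_of_mem_zpowers_ez hzp hzkmem)
      (fpf_of_mem_zpowers_ez c hzp hfpf hzkmem hzk1) a, map_one]
  · intro h
    exact absurd (Finset.mem_range.mpr hp.out.pos) h

/-- decomposition of the module along the fixed points of the conjugates `x z^i` of `x` -/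
theorem fix_decomp_ez {E : Type*} {V : Type*} [Group E] [Finite E] [CommGroup V] [Finite V]
    {p r : ℕ} [hp : Fact p.Prime] [hr : Fact r.Prime] (hpr : p ≠ r) (c : E →* MulAut V)
    (x y z : E) (hz : ∀ g : E, z * g = g * z) (hzp : z ^ p = 1) (hz1 : z ≠ 1)
    (hxp : x ^ p = 1) (hyx : y * x = x * y * z) (hfpf : ∀ v : V, c z v = v → v = 1)
    (hexp : ∀ v : V, v ^ r = 1) (hnt : Nontrivial V) :
    fixS c x ≠ ⊥ ∧ Nat.card (fixS c x) ^ p ≤ Nat.card V := by
  classical
  have hoz : orderOf z = p := orderOf_eq_prime hzp hz1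
  have hcop : Nat.Coprime p r := (Nat.coprime_primes hp.out hr.out).mpr hpr
  obtain ⟨s, -, hs⟩ := Nat.exists_mul_mod_eq_one_of_coprime hcop hr.out.one_lt
  have hzk : ∀ (k : ℕ) (g : E), z ^ k * g = g * z ^ k :=
    fun k g => (Commute.pow_left (show Commute z g from hz g) k).eq
  have hxzp : ∀ i : ℕ, (x * z ^ i) ^ p = 1 := by
    intro i
    rw [(Commute.mul_pow (show Commute x (z ^ i) from (hzk i x).symm) p), hxp, one_mul, ← pow_mul,
      mul_comm, pow_mul, hzp, one_pow]
  have hmem : ∀ (i : ℕ) (a : V), nrmE c p (x * z ^ i) a ∈ fixS c (x * z ^ i) :=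
    fun i a => nrmE_fixed c (hxzp i) a
  have hother : ∀ (i j : ℕ), i < p → j < p → i ≠ j → ∀ b : V, b ∈ fixS c (x * z ^ j) →
      nrmE c p (x * z ^ i) b = 1 := by
    intro i j hi hj hij b hb
    have hu : (z ^ j)⁻¹ * z ^ i ∈ Subgroup.zpowers z :=
      Subgroup.mul_mem _ (Subgroup.inv_mem _ (Subgroup.pow_mem _ (Subgroup.mem_zpowers z) j))
        (Subgroup.pow_mem _ (Subgroup.mem_zpowers z) i)
    have hu1 : (z ^ j)⁻¹ * z ^ i ≠ 1 := by
      intro h
      have h' : z ^ i = z ^ j := by
        rw [inv_mul_eq_one] at h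
        exact h.symm
      rw [pow_inj_mod, hoz, Nat.mod_eq_of_lt hi, Nat.mod_eq_of_lt hj] at h'
      exact hij h'
    have hsplit : x * z ^ i = (x * z ^ j) * ((z ^ j)⁻¹ * z ^ i) := by simp [mul_assoc]
    have hcomm : (x * z ^ j) * ((z ^ j)⁻¹ * z ^ i) = ((z ^ j)⁻¹ * z ^ i) * (x * z ^ j) := by
      have hcen : ∀ g : E, ((z ^ j)⁻¹ * z ^ i) * g = g * ((z ^ j)⁻¹ * z ^ i) := by
        intro g
        obtain ⟨t, ht⟩ := hu
        rw [← ht]
        exact (Commute.zpow_left (show Commute z g from hz g) t).eq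
      exact (hcen _).symm
    rw [hsplit, nrmE_shift c p hcomm (mem_fixS.mp hb)]
    exact nrmE_eq_one c (pow_p_of_mem_zpowers_ez hzp hu)
      (fpf_of_mem_zpowers_ez c hzp hfpf hu hu1) b
  have hprod : ∏ i : Fin p, Nat.card (fixS c (x * z ^ (i : ℕ))) ≤ Nat.card V := by
    rw [← Nat.card_pi]
    let Φ : V → (∀ i : Fin p, fixS c (x * z ^ (i : ℕ))) :=
      fun a i => ⟨nrmE c p (x * z ^ (i : ℕ)) a, hmem i a⟩
    apply Nat.card_le_card_of_surjective Φ
    intro f
    refine ⟨∏ i : Fin p, ((f i : V)) ^ s, ?_⟩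
    funext j
    apply Subtype.ext
    show nrmE c p (x * z ^ (j : ℕ)) (∏ i : Fin p, ((f i : V)) ^ s) = (f j : V)
    rw [map_prod, Finset.prod_eq_single j]
    · rw [nrmE_of_fixed c p (mem_fixS.mp (Subgroup.pow_mem _ (f j).2 s)), ← pow_mul, mul_comm s p,
        pow_eq_pow_mod _ (hexp _), hs, pow_one]
    · intro i _ hij
      exact hother j i j.2 i.2 (fun h => hij (Fin.ext h.symm)) _ (Subgroup.pow_mem _ (f i).2 s)
    · intro h
      exact absurd (Finset.mem_univ j) h
  have hyi : ∀ i : ℕ, y ^ i * x = x * z ^ i * y ^ i := by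
    intro i
    have := pow_mul_comm_aux_es hz hyx i
    rw [this, mul_assoc, ← hzk i (y ^ i), ← mul_assoc]
  have hconj : ∀ i : ℕ, Nat.card (fixS c x) ≤ Nat.card (fixS c (x * z ^ i)) := by
    intro i
    let φ : fixS c x → fixS c (x * z ^ i) := fun v => ⟨c (y ^ i) v, by
      rw [mem_fixS, ← MulAut.mul_apply, ← map_mul, ← hyi i, map_mul, MulAut.mul_apply,
        mem_fixS.mp v.2]⟩
    apply Nat.card_le_card_of_injective φ
    intro v v' hvv
    have := congrArg Subtype.val hvv
    exact Subtype.ext ((c (y ^ i)).injective this)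
  have hpow : Nat.card (fixS c x) ^ p ≤ ∏ i : Fin p, Nat.card (fixS c (x * z ^ (i : ℕ))) := by
    calc Nat.card (fixS c x) ^ p = ∏ _i : Fin p, Nat.card (fixS c x) := by simp
      _ ≤ _ := Finset.prod_le_prod (fun i _ => Nat.zero_le _) (fun i _ => hconj i)
  refine ⟨?_, hpow.trans hprod⟩
  intro hbot
  have hall : ∀ i : ℕ, ∀ v : V, v ∈ fixS c (x * z ^ i) → v = 1 := by
    intro i v hv
    have hw : c ((y ^ i)⁻¹) v ∈ fixS c x := by
      rw [mem_fixS, ← MulAut.mul_apply, ← map_mul]
      have h1 : x * (y ^ i)⁻¹ = (y ^ i)⁻¹ * (x * z ^ i) := by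
        rw [eq_inv_mul_iff_mul_eq, ← mul_assoc, hyi i]
        exact mul_inv_cancel_right _ _
      rw [h1, map_mul, MulAut.mul_apply, mem_fixS.mp hv]
    rw [hbot, Subgroup.mem_bot] at hw
    have h2 := congrArg (c (y ^ i)) hw
    rw [← MulAut.mul_apply, ← map_mul, mul_inv_cancel, map_one, MulAut.one_apply, map_one] at h2
    exact h2
  obtain ⟨a, ha⟩ := exists_ne (1 : V)
  apply ha
  have hid := prod_nrmE_eq c x z hz hzp hz1 hfpf a
  have h1 : ∏ i ∈ Finset.range p, nrmE c p (x * z ^ i) a = 1 :=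
    Finset.prod_eq_one (fun i _ => hall i _ (hmem i a))
  rw [h1] at hid
  have h2 : orderOf a ∣ p := orderOf_dvd_of_pow_eq_one hid.symm
  have h3 : orderOf a ∣ r := orderOf_dvd_of_pow_eq_one (hexp a)
  have h4 := Nat.dvd_gcd h2 h3
  rw [Nat.Coprime.gcd_eq_one hcop] at h4
  exact orderOf_eq_one_iff.mp (Nat.dvd_one.mp h4)

end ops


/-- restriction of an action by automorphisms to an invariant subgroup -/
def resAct {E V : Type*} [Group E] [Group V] (c : E →* MulAut V) (B : Subgroup V)
    (h : ∀ (g : E) (v : V), v ∈ B → c g v ∈ B) : E →* MulAut B where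
  toFun g :=
    { toFun := fun v => ⟨c g v, h g v v.2⟩
      invFun := fun v => ⟨c g⁻¹ v, h g⁻¹ v v.2⟩
      left_inv := by
        intro v
        apply Subtype.ext
        show c g⁻¹ (c g v) = v
        rw [← MulAut.mul_apply, ← map_mul, inv_mul_cancel, map_one]
        rfl
      right_inv := by
        intro v
        apply Subtype.ext
        show c g (c g⁻¹ v) = v
        rw [← MulAut.mul_apply, ← map_mul, mul_inv_cancel, map_one]
        rfl
      map_mul' := by
        intro a b
        apply Subtype.ext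
        show c g ((a : V) * (b : V)) = c g a * c g b
        exact map_mul _ _ _ }
  map_one' := by
    apply MulEquiv.ext
    intro v
    apply Subtype.ext
    show c 1 (v : V) = (v : V)
    rw [map_one]
    rfl
  map_mul' := by
    intro g g'
    apply MulEquiv.ext
    intro v
    apply Subtype.ext
    show c (g * g') (v : V) = c g (c g' (v : V))
    rw [map_mul]
    rfl

theorem resAct_apply {E V : Type*} [Group E] [Group V] (c : E →* MulAut V) (B : Subgroup V)
    (h : ∀ (g : E) (v : V), v ∈ B → c g v ∈ B) (g : E) (v : B) :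
    ((resAct c B h g v : B) : V) = c g v := rfl

/-- a `p`-group containing an element acting fixed-point-freely on a nontrivial group of
exponent `r` forces `r^n ≤ |V|`, `n` the order of `r` modulo `p` -/
theorem base_bound_ez {E : Type*} {V : Type*} [Group E] [Finite E] [CommGroup V] [Finite V]
    {p r : ℕ} [hp : Fact p.Prime] [hr : Fact r.Prime] (n : ℕ)
    (hmin : ∀ k : ℕ, 1 ≤ k → p ∣ r ^ k - 1 → n ≤ k) (hE : IsPGroup p E) (z : E)
    (c : E →* MulAut V) (hexp : ∀ v : V, v ^ r = 1) (hfpf : ∀ v : V, c z v = v → v = 1)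
    (hnt : Nontrivial V) : r ^ n ≤ Nat.card V := by
  classical
  letI : MulAction E V := MulAction.compHom V c
  have hsmul : ∀ (g : E) (v : V), g • v = c g v := fun g v => rfl
  have hfix : MulAction.fixedPoints E V = {1} := by
    ext v
    simp only [MulAction.mem_fixedPoints, Set.mem_singleton_iff]
    constructor
    · intro h
      exact hfpf v (by rw [← hsmul]; exact h z)
    · rintro rfl g
      rw [hsmul, map_one]
  have hmod := hE.card_modEq_card_fixedPoints V
  rw [hfix] at hmod
  have h1 : Nat.card (({1} : Set V)) = 1 := by simp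
  rw [h1] at hmod
  have hVp : IsPGroup r V := fun v => ⟨1, by rw [pow_one]; exact hexp v⟩
  obtain ⟨d, hd⟩ := IsPGroup.iff_card.mp hVp
  have hlt := Finite.one_lt_card (α := V)
  have hd1 : 1 ≤ d := by
    rcases Nat.eq_zero_or_pos d with h0 | h0
    · exfalso
      rw [h0, pow_zero] at hd
      omega
    · exact h0
  have hdvd : p ∣ r ^ d - 1 := by
    rw [hd] at hmod
    exact (Nat.modEq_iff_dvd' (Nat.one_le_pow _ _ hr.out.pos)).mp hmod.symm
  have hnd := hmin d hd1 hdvd
  rw [hd]
  exact Nat.pow_le_pow_right hr.out.pos hnd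

/-- a nonabelian action on a group of exponent `r` needs order at least `r^2` -/
theorem nonab_bound_ez {E V : Type*} [Group E] [CommGroup V] [Finite V] {r : ℕ}
    [hr : Fact r.Prime] (c : E →* MulAut V) {x y z : E} (hyx : y * x = x * y * z)
    (hexp : ∀ v : V, v ^ r = 1) (hfpf : ∀ v : V, c z v = v → v = 1) (hnt : Nontrivial V) :
    r ^ 2 ≤ Nat.card V := by
  have hVp : IsPGroup r V := fun v => ⟨1, by rw [pow_one]; exact hexp v⟩
  obtain ⟨d, hd⟩ := IsPGroup.iff_card.mp hVp
  have hlt := Finite.one_lt_card (α := V)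
  rcases Nat.lt_or_ge d 2 with hd2 | hd2
  · exfalso
    have hd1 : d = 1 := by
      rcases Nat.eq_zero_or_pos d with h0 | h0
      · rw [h0, pow_zero] at hd
        omega
      · omega
    rw [hd1, pow_one] at hd
    haveI : IsCyclic V := isCyclic_of_prime_card hd
    obtain ⟨m, hm⟩ := MonoidHom.map_cyclic (c x).toMonoidHom
    obtain ⟨m', hm'⟩ := MonoidHom.map_cyclic (c y).toMonoidHom
    obtain ⟨v, hv⟩ := exists_ne (1 : V)
    apply hv
    apply hfpf
    have a1 : ∀ u : V, c x u = u ^ m := hm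
    have a2 : ∀ u : V, c y u = u ^ m' := hm'
    have e1 : c (y * x) v = c (x * y) v := by
      rw [map_mul, map_mul, MulAut.mul_apply, MulAut.mul_apply, a1, a2, a2, a1, ← zpow_mul,
        ← zpow_mul, mul_comm]
    rw [hyx, map_mul, MulAut.mul_apply] at e1
    exact (c (x * y)).injective e1
  · rw [hd]
    exact Nat.pow_le_pow_right hr.out.pos hd2

/-- main induction: an extraspecial-like group `E` of order `p^(2w+1)` acting on a nontrivial
abelian group of exponent `r` with the centre acting fixed-point-freely -/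
theorem esz_module_bound {p r : ℕ} [hp : Fact p.Prime] [hr : Fact r.Prime] (hpr : p ≠ r) (n : ℕ)
    (hmin : ∀ k : ℕ, 1 ≤ k → p ∣ r ^ k - 1 → n ≤ k) :
    ∀ (w : ℕ) (E : Type u) (V : Type v) [Group E] [Finite E] [CommGroup V] [Finite V] (z : E)
      (c : E →* MulAut V), ESz p E z → Nat.card E = p ^ (2 * w + 1) → (∀ v : V, v ^ r = 1) →
      (∀ v : V, c z v = v → v = 1) → Nontrivial V → r ^ (n * p ^ w) ≤ Nat.card V := by
  intro w
  induction w with
  | zero =>
    intro E V _ _ _ _ z c hE hcard hexp hfpf hnt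
    rw [pow_zero, mul_one]
    exact base_bound_ez n hmin (IsPGroup.of_card hcard) z c hexp hfpf hnt
  | succ w ih =>
    intro E V _ _ _ _ z c hE hcard hexp hfpf hnt
    have hoz := hE.orderOf_z
    have hlt : Nat.card (Subgroup.zpowers z) < Nat.card E := by
      rw [Nat.card_zpowers, hoz, hcard]
      calc p = p ^ 1 := (pow_one p).symm
        _ < p ^ (2 * (w + 1) + 1) := Nat.pow_lt_pow_right hp.out.one_lt (by omega)
    have hex : ∃ x : E, x ∉ Subgroup.zpowers z := by
      by_contra hall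
      push Not at hall
      have htop : Subgroup.zpowers z = ⊤ := (Subgroup.eq_top_iff' _).mpr hall
      rw [htop, Subgroup.card_top] at hlt
      exact lt_irrefl _ hlt
    by_cases hcase : ∃ x : E, x ∉ Subgroup.zpowers z ∧ x ^ p = 1
    · obtain ⟨x, hxz, hxp⟩ := hcase
      obtain ⟨y, hyx⟩ := hE.exists_y hxz
      obtain ⟨hB, hle⟩ := fix_decomp_ez hpr c x y z hE.cen hE.zp hE.ne hxp hyx hfpf hexp hnt
      have hE₁ := esz_cent hE hyx
      have hcard₁ : Nat.card (Subgroup.centralizer ({x, y} : Set E)) = p ^ (2 * w + 1) := by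
        have h1 := esz_card hE hyx
        rw [hcard] at h1
        have h2 : p ^ (2 * (w + 1) + 1) = p * (p * p ^ (2 * w + 1)) := by ring
        rw [h2] at h1
        exact (Nat.eq_of_mul_eq_mul_left hp.out.pos
          (Nat.eq_of_mul_eq_mul_left hp.out.pos h1)).symm
      have hinv : ∀ (g : Subgroup.centralizer ({x, y} : Set E)) (v : V), v ∈ fixS c x →
          (c.comp (Subgroup.centralizer ({x, y} : Set E)).subtype) g v ∈ fixS c x := by
        intro g v hv
        rw [mem_fixS] at hv ⊢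
        show c x (c (g : E) v) = c (g : E) v
        rw [← MulAut.mul_apply, ← map_mul, cent_x_es g, map_mul, MulAut.mul_apply, hv]
      have hbd := ih (Subgroup.centralizer ({x, y} : Set E)) (fixS c x) ⟨z, hE.z_mem x y⟩
        (resAct (c.comp (Subgroup.centralizer ({x, y} : Set E)).subtype) (fixS c x) hinv)
        hE₁ hcard₁ (fun v => Subtype.ext (hexp v))
        (fun v hv => Subtype.ext (hfpf v (congrArg Subtype.val hv)))
        ((Subgroup.nontrivial_iff_ne_bot _).mpr hB)
      calc r ^ (n * p ^ (w + 1)) = (r ^ (n * p ^ w)) ^ p := by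
            rw [← pow_mul, pow_succ, mul_assoc]
        _ ≤ (Nat.card (fixS c x)) ^ p := Nat.pow_le_pow_left hbd p
        _ ≤ Nat.card V := hle
    · push Not at hcase
      obtain ⟨x, hxz⟩ := hex
      obtain ⟨y, hyx⟩ := hE.exists_y hxz
      by_cases hp2 : p = 2
      · have hno : ∀ g : E, g ^ p = 1 → g ∈ Subgroup.zpowers z :=
          fun g hg => by_contra fun hgz => hcase g hgz hg
        have h8 := esz_two_card hE hp2 hno hxz hyx
        have hw : w = 0 := by
          rw [hcard, hp2] at h8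
          by_contra hw
          have h5 : 2 ^ 5 ≤ 2 ^ (2 * (w + 1) + 1) :=
            Nat.pow_le_pow_right (by norm_num) (by omega)
          omega
        subst hw
        have hr2 : r ≠ 2 := fun h => hpr (hp2.trans h.symm)
        have hn1 : n ≤ 1 := hmin 1 le_rfl (by
          rw [hp2, pow_one]
          rcases hr.out.eq_two_or_odd with h | h
          · exact absurd h hr2
          · omega)
        have hr2le := nonab_bound_ez c hyx hexp hfpf hnt
        calc r ^ (n * p ^ (0 + 1)) ≤ r ^ 2 := by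
              apply Nat.pow_le_pow_right hr.out.pos
              rw [hp2]
              omega
          _ ≤ Nat.card V := hr2le
      · exfalso
        obtain ⟨g, hg1, hg2⟩ := esz_exists_order_p_odd hE hp2 hxz hyx
        exact hcase g hg1 hg2

/-- faithful version: `E` extraspecial-like of order `p^(2w+1)` acting faithfully on an abelian
group of exponent `r ≠ p` -/
theorem esz_faithful_bound {p r : ℕ} [hp : Fact p.Prime] [hr : Fact r.Prime] (hpr : p ≠ r) (n : ℕ)
    (hmin : ∀ k : ℕ, 1 ≤ k → p ∣ r ^ k - 1 → n ≤ k) (w : ℕ) {E : Type u} {V : Type v} [Group E]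
    [Finite E] [Group V] [Finite V] (hVc : ∀ a b : V, a * b = b * a) (z : E) (c : E →* MulAut V)
    (hE : ESz p E z) (hcard : Nat.card E = p ^ (2 * w + 1)) (hexp : ∀ v : V, v ^ r = 1)
    (hinj : Function.Injective c) : r ^ (n * p ^ w) ≤ Nat.card V := by
  letI : CommGroup V := { (inferInstance : Group V) with mul_comm := hVc }
  have hcop : Nat.Coprime p r := (Nat.coprime_primes hp.out hr.out).mpr hpr
  have hinv : ∀ (g : E) (v : V), v ∈ (nrmE c p z).ker → c g v ∈ (nrmE c p z).ker := by
    intro g v hv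
    rw [MonoidHom.mem_ker] at hv ⊢
    rw [← nrmE_comm c p (hE.cen g).symm v, hv, map_one]
  have hfpf : ∀ v : (nrmE c p z).ker, resAct c (nrmE c p z).ker hinv z v = v → v = 1 := by
    intro v hv
    have h1 : c z (v : V) = v := congrArg Subtype.val hv
    have h2 : nrmE c p z (v : V) = (v : V) ^ p := nrmE_of_fixed c p h1
    have h3 : nrmE c p z (v : V) = 1 := MonoidHom.mem_ker.mp v.2
    rw [h3] at h2
    have h4 : orderOf (v : V) ∣ p := orderOf_dvd_of_pow_eq_one h2.symm
    have h5 : orderOf (v : V) ∣ r := orderOf_dvd_of_pow_eq_one (hexp v)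
    have h6 := Nat.dvd_gcd h4 h5
    rw [Nat.Coprime.gcd_eq_one hcop] at h6
    exact Subtype.ext (orderOf_eq_one_iff.mp (Nat.dvd_one.mp h6))
  have hnt : Nontrivial (nrmE c p z).ker := by
    have hcz : ∃ v : V, c z v ≠ v := by
      by_contra hall
      push Not at hall
      have h1 : c z = 1 := by
        apply MulEquiv.ext
        intro v
        rw [hall v]
        rfl
      have h2 : c z = c 1 := by rw [h1, map_one]
      exact hE.ne (hinj h2)
    obtain ⟨v, hv⟩ := hcz
    have hu : v⁻¹ * c z v ∈ (nrmE c p z).ker := by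
      rw [MonoidHom.mem_ker, map_mul, map_inv, ← nrmE_comm c p (rfl : z * z = z * z) v,
        nrmE_fixed c hE.zp v, inv_mul_cancel]
    have hu1 : v⁻¹ * c z v ≠ 1 := by
      intro h
      apply hv
      rw [inv_mul_eq_one] at h
      exact h.symm
    exact ⟨⟨⟨v⁻¹ * c z v, hu⟩, 1, fun h => hu1 (congrArg Subtype.val h)⟩⟩
  have hbd := esz_module_bound hpr n hmin w E (nrmE c p z).ker z (resAct c (nrmE c p z).ker hinv)
    hE hcard (fun v => Subtype.ext (hexp v)) hfpf hnt
  exact hbd.trans (Subgroup.card_le_card_group _)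

end Cfsg.Agent.Lib.helper1
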