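import Mathlib
import Cfsg.Agent.Lib.helper1.FrobStruct
import Cfsg.Agent.Lib.helper1.FrobChar
import Cfsg.Agent.S0039
import Cfsg.Agent.S0001

set_option autoImplicit false

namespace Cfsg.Agent.Lib.helper1

open Subgroup
open scoped Pointwise

/-- The Frobenius kernel as a normal complement on which the complement acts fixed-point-freely. -/
theorem frob_pair {G : Type*} [Group G] [Finite G] (H : Subgroup G)
    (hH : Cfsg.IsFrobeniusComplement H) :
    ∃ N : Subgroup G, (N : Set G) = Cfsg.frobeniusKernel H ∧ N.Normal ∧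
      Subgroup.IsComplement' N H ∧ N ≠ ⊥ ∧
      (∀ h ∈ H, h ≠ 1 → N ⊓ Subgroup.centralizer {h} = ⊥) := by
  obtain ⟨N, hset, hNn, hc⟩ := frobenius_theorem H hH
  haveI := hNn
  have hN : N ≠ ⊥ := by
    intro h0
    apply hH.2.1
    have := hc.sup_eq_top
    rwa [h0, bot_sup_eq] at this
  exact ⟨N, hset, hNn, hc, hN, (Cfsg.Agent.S0039.result N H hc hN hH.1).mp hH⟩

/-- Elements outside the kernel act fixed-point-freely on it. -/
theorem frob_fpf_of_not_mem {G : Type*} [Group G] [Finite G] (H N : Subgroup G)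
    (hset : (N : Set G) = Cfsg.frobeniusKernel H) [hNn : N.Normal]
    (hfpf : ∀ h ∈ H, h ≠ 1 → N ⊓ Subgroup.centralizer {h} = ⊥)
    (w : G) (hw : w ∉ N) (n : G) (hn : n ∈ N) (hcomm : w * n = n * w) : n = 1 := by
  have hw' : w ∉ Cfsg.frobeniusKernel H := by rw [← hset]; exact hw
  rw [mem_frobeniusKernel_iff] at hw'
  push Not at hw'
  obtain ⟨hw1, g, hg⟩ := hw'
  have hg1 : g⁻¹ * w * g ≠ 1 := by
    intro h0
    apply hw1
    have := congrArg (fun t => g * t * g⁻¹) h0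
    simpa [mul_assoc] using this
  have hnN : g⁻¹ * n * g ∈ N := by
    have := hNn.conj_mem n hn g⁻¹
    simpa using this
  have hmem : g⁻¹ * n * g ∈ N ⊓ Subgroup.centralizer {g⁻¹ * w * g} := by
    refine Subgroup.mem_inf.mpr ⟨hnN, ?_⟩
    rw [Subgroup.mem_centralizer_singleton_iff]
    calc g⁻¹ * n * g * (g⁻¹ * w * g) = g⁻¹ * (n * w) * g := by group
      _ = g⁻¹ * (w * n) * g := by rw [hcomm]
      _ = g⁻¹ * w * g * (g⁻¹ * n * g) := by group
  rw [hfpf _ hg hg1, Subgroup.mem_bot] at hmem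
  have := congrArg (fun t => g * t * g⁻¹) hmem
  simpa [mul_assoc] using this

/-- Normal subgroups are comparable with the Frobenius kernel. -/
theorem frob_kernel_comparable {G : Type*} [Group G] [Finite G] (H N : Subgroup G)
    (hset : (N : Set G) = Cfsg.frobeniusKernel H) [hNn : N.Normal]
    (hfpf : ∀ h ∈ H, h ≠ 1 → N ⊓ Subgroup.centralizer {h} = ⊥)
    (M : Subgroup G) [hMn : M.Normal] : M ≤ N ∨ N ≤ M := by
  by_cases hMN : M ≤ N
  · left; exact hMN
  right
  obtain ⟨m, hmM, hmN⟩ := SetLike.not_le_iff_exists.mp hMN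
  let f : N → N := fun n => ⟨(n : G) * m * (n : G)⁻¹ * m⁻¹, by
    have h1 : m * (n : G)⁻¹ * m⁻¹ ∈ N := hNn.conj_mem _ (N.inv_mem n.2) m
    have e : (n : G) * m * (n : G)⁻¹ * m⁻¹ = (n : G) * (m * (n : G)⁻¹ * m⁻¹) := by group
    rw [e]; exact N.mul_mem n.2 h1⟩
  have hf : Function.Injective f := by
    intro a b hab
    have h1 : (a : G) * m * (a : G)⁻¹ * m⁻¹ = (b : G) * m * (b : G)⁻¹ * m⁻¹ :=
      congrArg Subtype.val hab
    have h2 : (a : G) * m * (a : G)⁻¹ = (b : G) * m * (b : G)⁻¹ := mul_right_cancel h1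
    have h3 : m * ((b : G)⁻¹ * (a : G))⁻¹ = ((b : G)⁻¹ * (a : G))⁻¹ * m := by
      calc m * ((b : G)⁻¹ * (a : G))⁻¹ = (a : G)⁻¹ * ((a : G) * m * (a : G)⁻¹) * (b : G) := by group
        _ = (a : G)⁻¹ * ((b : G) * m * (b : G)⁻¹) * (b : G) := by rw [h2]
        _ = ((b : G)⁻¹ * (a : G))⁻¹ * m := by group
    have h4 := frob_fpf_of_not_mem H N hset hfpf m hmN _
      (N.inv_mem (N.mul_mem (N.inv_mem b.2) a.2)) h3
    have h5 : (b : G)⁻¹ * (a : G) = 1 := inv_eq_one.mp h4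
    apply Subtype.ext
    have := congrArg (fun t => (b : G) * t) h5
    simpa using this
  have hsurj : Function.Surjective f := Finite.surjective_of_injective hf
  intro n hn
  obtain ⟨n', hn'⟩ := hsurj ⟨n, hn⟩
  have h1 : (n' : G) * m * (n' : G)⁻¹ * m⁻¹ = n := congrArg Subtype.val hn'
  rw [← h1]
  exact M.mul_mem (hMn.conj_mem m hmM _) (M.inv_mem hmM)

/-- If one Frobenius kernel contains another, they are equal. -/
theorem frob_kernel_eq_of_le {G : Type*} [Group G] [Finite G] (H N H₀ N₀ : Subgroup G)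
    (hset : (N : Set G) = Cfsg.frobeniusKernel H) [hNn : N.Normal]
    (hc : Subgroup.IsComplement' N H) (hH : H ≠ ⊥)
    (hfpf : ∀ h ∈ H, h ≠ 1 → N ⊓ Subgroup.centralizer {h} = ⊥)
    [hN₀n : N₀.Normal] (hc₀ : Subgroup.IsComplement' N₀ H₀) (hN₀ : N₀ ≠ ⊥) (hH₀ : H₀ ≠ ⊥)
    (hfpf₀ : ∀ h ∈ H₀, h ≠ 1 → N₀ ⊓ Subgroup.centralizer {h} = ⊥)
    (hle : N₀ ≤ N) : N₀ = N := by
  by_contra hne
  -- N ⊓ H₀ ≠ ⊥
  have hH₁ : N ⊓ H₀ ≠ ⊥ := by
    intro h0
    apply hne
    apply Subgroup.eq_of_le_of_card_ge hle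
    have hdisj : Disjoint H₀ N := by rw [disjoint_iff, inf_comm]; exact h0
    have h1 := card_sup_of_disjoint_normal H₀ N hdisj
    have h2 : Nat.card (H₀ ⊔ N : Subgroup G) ≤ Nat.card G := Subgroup.card_le_card_group _
    have h3 := hc₀.card_mul_card
    rw [h1, ← h3] at h2
    exact Nat.le_of_mul_le_mul_right h2 Nat.card_pos
  obtain ⟨h₁, hh₁, hh₁1⟩ : ∃ x ∈ N ⊓ H₀, x ≠ 1 := by
    by_contra hcon
    push Not at hcon
    exact hH₁ ((Subgroup.eq_bot_iff_forall _).mpr hcon)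
  obtain ⟨hh₁N, hh₁H⟩ := Subgroup.mem_inf.mp hh₁
  -- H₀ is not contained in N
  have hnot : ¬ H₀ ≤ N := by
    intro h0
    have h1 : N = ⊤ := by
      rw [eq_top_iff, ← hc₀.sup_eq_top]
      exact sup_le hle h0
    apply hH
    have h2 := hc.disjoint
    rw [h1] at h2
    exact top_disjoint.mp h2
  obtain ⟨y, hyH, hyN⟩ := SetLike.not_le_iff_exists.mp hnot
  have hZ := frob_center_ne_bot N₀ H₀ hc₀ hN₀ hH₀ hfpf₀
  obtain ⟨z, hz, hz1⟩ : ∃ z ∈ Subgroup.center H₀, z ≠ 1 := by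
    by_contra hcon
    push Not at hcon
    exact hZ ((Subgroup.eq_bot_iff_forall _).mpr hcon)
  rw [Subgroup.mem_center_iff] at hz
  have hzG : (z : G) ≠ 1 := fun h0 => hz1 (Subtype.ext h0)
  by_cases hzN : (z : G) ∈ N
  · apply hzG
    apply frob_fpf_of_not_mem H N hset hfpf y hyN (z : G) hzN
    exact congrArg Subtype.val (hz ⟨y, hyH⟩)
  · apply hh₁1
    apply frob_fpf_of_not_mem H N hset hfpf (z : G) hzN h₁ hh₁N
    exact (congrArg Subtype.val (hz ⟨h₁, hh₁H⟩)).symm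

/-- All Frobenius complements of a finite group are conjugate. -/
theorem frob_complements_conj {G : Type*} [Group G] [Finite G] (H H₀ : Subgroup G)
    (hH : Cfsg.IsFrobeniusComplement H) (hH₀ : Cfsg.IsFrobeniusComplement H₀) :
    ∃ g : G, MulAut.conj g • H₀ = H := by
  obtain ⟨N, hset, hNn, hc, hN, hfpf⟩ := frob_pair H hH
  obtain ⟨N₀, hset₀, hN₀n, hc₀, hN₀, hfpf₀⟩ := frob_pair H₀ hH₀
  haveI := hNn
  haveI := hN₀n
  have heq : N₀ = N := by
    rcases frob_kernel_comparable H N hset hfpf N₀ with h | h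
    · exact frob_kernel_eq_of_le H N H₀ N₀ hset hc hH.1 hfpf hc₀ hN₀ hH₀.1 hfpf₀ h
    · exact (frob_kernel_eq_of_le H₀ N₀ H N hset₀ hc₀ hH₀.1 hfpf₀ hc hN hH.1 hfpf h).symm
  subst heq
  have hHK : H ≤ Subgroup.normalizer (N₀ : Set G) := by
    rw [Subgroup.normalizer_eq_top]; exact le_top
  have hcop : (Nat.card N₀).Coprime N₀.index := by
    have h1 := fpf_coprime (fpfHom hHK) (isFpf_fpfHom hHK hfpf)
    have h2 : N₀.index = Nat.card H := by
      have h3 := hc.card_mul_card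
      have h4 := N₀.card_mul_index
      have h5 : Nat.card N₀ * N₀.index = Nat.card N₀ * Nat.card H := by rw [h4, h3]
      exact Nat.eq_of_mul_eq_mul_left Nat.card_pos h5
    rw [h2]
    exact h1.symm
  have hsolv : Group.IsSolvable N₀ ∨ Group.IsSolvable (G ⧸ N₀) := by
    by_cases heven : 2 ∣ Nat.card H
    · left
      obtain ⟨-, hcomm⟩ := Cfsg.Agent.S0068.result N₀ H hc hN hfpf heven
      exact Group.isSolvable_of_comm (fun a b => hcomm.is_comm.comm a b)
    · right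
      have hodd : Odd (Nat.card H) :=
        Nat.not_even_iff_odd.mp (fun h => heven (even_iff_two_dvd.mp h))
      haveI := frob_complement_isZGroup N₀ H hc hN hfpf hodd
      have hsurj : Function.Surjective ((QuotientGroup.mk' N₀).comp H.subtype) := by
        intro q
        obtain ⟨g, rfl⟩ := QuotientGroup.mk'_surjective N₀ q
        obtain ⟨⟨⟨n, hn⟩, ⟨h, hh⟩⟩, hnh, -⟩ := hc.existsUnique g
        simp only at hnh
        refine ⟨⟨h, hh⟩, ?_⟩
        rw [← hnh]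
        change QuotientGroup.mk' N₀ h = QuotientGroup.mk' N₀ (n * h)
        have h1 : QuotientGroup.mk' N₀ n = 1 := (QuotientGroup.eq_one_iff n).mpr hn
        rw [map_mul, h1, one_mul]
      exact Group.isSolvable_of_surjective hsurj
  exact Cfsg.Agent.S0001.result N₀ hcop hsolv H₀ H hc₀ hc

end Cfsg.Agent.Lib.helper1
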