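import Mathlib
import Cfsg.Agent.Lib.helper1.SZ
import Cfsg.Agent.Lib.helper1.HallCompl
import Cfsg.Agent.Lib.lead.PNil
import Cfsg.Agent.S0536

/-! Wielandt's theorem on nilpotent Hall subgroups. -/

set_option autoImplicit false

namespace Cfsg.Agent.Lib.helper1

open Pointwise
open Cfsg.Agent.Lib.lead

universe u

/-- A subgroup inside a conjugate of a nilpotent subgroup is nilpotent. -/
theorem isNilpotent_of_le_conj {G : Type*} [Group G] (H K : Subgroup G)
    (hH : Group.IsNilpotent H) (x : G) (hK : K ≤ MulAut.conj x • H) : Group.IsNilpotent K := by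
  let f : K →* H :=
    { toFun := fun k => ⟨x⁻¹ * k * x, (mem_conj_smul x k H).mp (hK k.2)⟩
      map_one' := by ext; simp
      map_mul' := by intro a b; ext; simp [mul_assoc] }
  have hinj : Function.Injective f := by
    intro a b hab
    have h1 : x⁻¹ * (a : G) * x = x⁻¹ * (b : G) * x := congrArg (fun z : H => (z : G)) hab
    ext
    simpa using h1
  haveI := hH
  exact Subgroup.isNilpotent_of_ker_le_center f
    (by rw [(MonoidHom.ker_eq_bot_iff f).mpr hinj]; exact bot_le)

theorem wielandt_aux (k : ℕ) : ∀ {G : Type u} [Group G] [Finite G] (H K : Subgroup G),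
    Group.IsNilpotent H → (Nat.card H).Coprime H.index →
    (∀ p : ℕ, p.Prime → p ∣ Nat.card K → p ∣ Nat.card H) → Nat.card K ≤ k →
    ∃ x : G, K ≤ MulAut.conj x • H := by
  induction k with
  | zero =>
    intro G _ _ H K _ _ _ hk
    have := Nat.card_pos (α := K)
    omega
  | succ k ih =>
    intro G _ _ H K hH hHall hπ hk
    by_cases hKbot : K = ⊥
    · exact ⟨1, by rw [hKbot]; exact bot_le⟩
    -- proper subgroups are nilpotent
    have hprop : ∀ K' : Subgroup K, K' ≠ ⊤ → Group.IsNilpotent K' := by
      intro K' hK'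
      have hlt : Nat.card K' < Nat.card K :=
        lt_of_le_of_ne (Subgroup.card_le_card_group K')
          (fun h => hK' (Subgroup.eq_top_of_card_eq K' h))
      have hcard : Nat.card (K'.map K.subtype) = Nat.card K' :=
        Subgroup.card_map_of_injective K.subtype_injective
      obtain ⟨x, hx⟩ := ih H (K'.map K.subtype) hH hHall
        (fun p hp hpd => hπ p hp (hpd.trans (hcard ▸ Subgroup.card_subgroup_dvd_card K')))
        (by omega)
      have hn := isNilpotent_of_le_conj H _ hH x hx
      haveI := hn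
      exact Group.nilpotent_of_mulEquiv
        (K'.equivMapOfInjective K.subtype K.subtype_injective).symm
    -- a nontrivial normal Sylow subgroup
    have hB : ∃ q : ℕ, ∃ _ : Fact q.Prime, ∃ Q₀ : Sylow q K,
        (Q₀ : Subgroup K).Normal ∧ (Q₀ : Subgroup K) ≠ ⊥ := by
      by_cases hnil : Group.IsNilpotent K
      · have hnormal : ∀ (q : ℕ) [Fact q.Prime] (S : Sylow q K), (S : Subgroup K).Normal :=
          ((Group.isNilpotent_of_finite_tfae (G := K)).out 0 3).mp hnil
        have hK1 : Nat.card K ≠ 1 := fun h => hKbot (Subgroup.eq_bot_of_card_eq K h)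
        obtain ⟨q, hq, hqd⟩ := Nat.exists_prime_and_dvd hK1
        haveI : Fact q.Prime := ⟨hq⟩
        obtain ⟨Q₀⟩ : Nonempty (Sylow q K) := inferInstance
        exact ⟨q, ⟨hq⟩, Q₀, hnormal q Q₀, Q₀.ne_bot_of_dvd_card hqd⟩
      · obtain ⟨p, q, hp, hq, hpq, P, Q, hPc, hQn, hPQ⟩ :=
          Cfsg.Agent.S0536.result (G := K) ⟨hnil, hprop⟩
        refine ⟨q, ⟨hq⟩, Q, hQn, ?_⟩
        intro hbot
        rw [hbot, sup_bot_eq] at hPQ
        apply hnil
        haveI : Fact p.Prime := ⟨hp⟩
        have h1 : IsPGroup p (P : Subgroup K) := P.isPGroup'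
        have h2 : IsPGroup p K := by
          intro g
          obtain ⟨n, hn⟩ := h1 ⟨g, hPQ ▸ Subgroup.mem_top g⟩
          exact ⟨n, by simpa using congrArg Subtype.val hn⟩
        exact h2.isNilpotent
    obtain ⟨q, hqF, Q₀, hQn, hQbot⟩ := hB
    haveI := hqF
    haveI := hQn
    have hq : q.Prime := Fact.out
    obtain ⟨K₁₀, hK₁₀⟩ := Subgroup.exists_right_complement'_of_coprime (Q₀.card_coprime_index)
    set Q : Subgroup G := (Q₀ : Subgroup K).map K.subtype with hQdef
    set K₁ : Subgroup G := K₁₀.map K.subtype with hK₁def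
    have hQK : Q ≤ K := Subgroup.map_subtype_le _
    have hK₁K : K₁ ≤ K := Subgroup.map_subtype_le _
    have hsup : Q ⊔ K₁ = K := by
      rw [hQdef, hK₁def, ← Subgroup.map_sup, hK₁₀.sup_eq_top, ← MonoidHom.range_eq_map,
        Subgroup.range_subtype]
    have hcardQ : Nat.card Q = Nat.card (Q₀ : Subgroup K) :=
      Subgroup.card_map_of_injective K.subtype_injective
    have hcardK₁ : Nat.card K₁ = Nat.card K₁₀ :=
      Subgroup.card_map_of_injective K.subtype_injective
    have hmul : Nat.card Q * Nat.card K₁ = Nat.card K := by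
      rw [hcardQ, hcardK₁]; exact hK₁₀.card_mul_card
    have hQgt : 1 < Nat.card Q := by
      rw [hcardQ]; exact (Subgroup.one_lt_card_iff_ne_bot _).mpr hQbot
    have hK₁lt : Nat.card K₁ < Nat.card K := by
      have := Nat.card_pos (α := K₁)
      nlinarith
    have hQp : IsPGroup q Q := Q₀.isPGroup'.map K.subtype
    have hK₁cop : (Nat.card K₁).Coprime q := by
      rw [hcardK₁, ← hK₁₀.symm.index_eq_card]
      exact ((Nat.Prime.coprime_iff_not_dvd hq).mpr Q₀.not_dvd_index).symm
    have hKnorm : K ≤ Subgroup.normalizer (Q : Set G) := by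
      intro g hg
      rw [mem_normalizer_iff_conj_smul]
      exact conj_smul_map_subtype_of_normal K (Q₀ : Subgroup K) hQn g hg
    have hqK : q ∣ Nat.card K := by
      have h1 : q ∣ Nat.card Q := by
        rcases hQp.card_eq_or_dvd with h | h
        · omega
        · exact h
      exact h1.trans (Subgroup.card_dvd_of_le hQK)
    have hqH : q ∣ Nat.card H := hπ q hq hqK
    obtain ⟨S₀⟩ : Nonempty (Sylow q H) := inferInstance
    obtain ⟨P, hP⟩ := exists_sylow_le_hall H hHall hqH S₀
    obtain ⟨P', hQP'⟩ := hQp.exists_le_sylow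
    obtain ⟨x, hx⟩ := MulAction.exists_smul_eq G P P'
    have hQx : Q ≤ MulAut.conj x • (P : Subgroup G) := by
      rw [← Sylow.coe_subgroup_smul, hx]; exact hQP'
    have hPH : (P : Subgroup G) ≤ H := by rw [hP]; exact Subgroup.map_subtype_le _
    -- the complement of the Sylow q-subgroup in H
    have hnormalH : ∀ (r : ℕ) [Fact r.Prime] (S : Sylow r H), (S : Subgroup H).Normal :=
      ((Group.isNilpotent_of_finite_tfae (G := H)).out 0 3).mp hH
    haveI : (S₀ : Subgroup H).Normal := hnormalH q S₀
    obtain ⟨T₀, hT₀⟩ := Subgroup.exists_right_complement'_of_coprime (S₀.card_coprime_index)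
    set T : Subgroup G := T₀.map H.subtype with hTdef
    have hTH : T ≤ H := Subgroup.map_subtype_le _
    have hcardT : Nat.card T = Nat.card T₀ := Subgroup.card_map_of_injective H.subtype_injective
    have hcardP : Nat.card (P : Subgroup G) = Nat.card (S₀ : Subgroup H) := by
      rw [hP]; exact Subgroup.card_map_of_injective H.subtype_injective
    have hPT : Nat.card (P : Subgroup G) * Nat.card T = Nat.card H := by
      rw [hcardP, hcardT]; exact hT₀.card_mul_card
    have hTcop : (Nat.card T).Coprime q := by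
      rw [hcardT, ← hT₀.symm.index_eq_card]
      exact ((Nat.Prime.coprime_iff_not_dvd hq).mpr S₀.not_dvd_index).symm
    have hTcent : ∀ t ∈ T, ∀ s ∈ (P : Subgroup G), s * t = t * s := by
      intro t ht s hs
      rw [hTdef, Subgroup.mem_map] at ht
      obtain ⟨t₀, ht₀, rfl⟩ := ht
      rw [hP, Subgroup.mem_map] at hs
      obtain ⟨s₀, hs₀, rfl⟩ := hs
      have hcop : (orderOf t₀).Coprime q := by
        have h1 : orderOf t₀ ∣ Nat.card T₀ := by
          have := orderOf_dvd_natCard (⟨t₀, ht₀⟩ : T₀)
          rwa [Subgroup.orderOf_mk] at this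
        exact Nat.Coprime.coprime_dvd_left h1 (hcardT ▸ hTcop)
      have h2 := Subgroup.mem_centralizer_iff.mp
        (mem_centralizer_sylow_of_normal hnormalH S₀ t₀ hcop) s₀ hs₀
      exact congrArg Subtype.val h2
    set T' : Subgroup G := MulAut.conj x • T with hT'def
    set M : Subgroup G := Subgroup.normalizer (Q : Set G) with hMdef
    have hT'cent : ∀ t ∈ T', ∀ s ∈ Q, s * t = t * s := by
      intro t ht s hs
      have h1 := (mem_conj_smul x t T).mp ht
      have h2 := (mem_conj_smul x s _).mp (hQx hs)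
      have h3 := hTcent _ h1 _ h2
      have h4 : x⁻¹ * (s * t) * x = x⁻¹ * (t * s) * x := by
        calc x⁻¹ * (s * t) * x = (x⁻¹ * s * x) * (x⁻¹ * t * x) := by group
          _ = (x⁻¹ * t * x) * (x⁻¹ * s * x) := h3
          _ = x⁻¹ * (t * s) * x := by group
      simpa using h4
    have hT'M : T' ≤ M := by
      intro t ht
      rw [hMdef, Subgroup.mem_normalizer_iff]
      intro s
      constructor
      · intro hs
        have : t * s * t⁻¹ = s := by rw [← hT'cent t ht s hs]; group
        rw [this]; exact hs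
      · intro hs
        have h1 := hT'cent t ht _ hs
        have : t * s * t⁻¹ = s := by
          have h2 : t * s * t⁻¹ * t = t * (t * s * t⁻¹) := h1
          have h3 : t * s = t * (t * s * t⁻¹) := by simpa using h2
          exact (mul_left_cancel h3).symm
        rw [← this]; exact hs
    have hK₁M : K₁ ≤ M := hK₁K.trans hKnorm
    have hT'H : T' ≤ MulAut.conj x • H := by
      intro t ht
      rw [mem_conj_smul]
      exact hTH ((mem_conj_smul x t T).mp ht)
    have hnilT' : Group.IsNilpotent T' := isNilpotent_of_le_conj H T' hH x hT'H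
    have hcardT' : Nat.card T' = Nat.card T := card_conj_smul x T
    have e1 : Nat.card (T'.subgroupOf M) = Nat.card T :=
      (Nat.card_congr (Subgroup.subgroupOfEquivOfLe hT'M).toEquiv).trans hcardT'
    have e2 : Nat.card (K₁.subgroupOf M) = Nat.card K₁ :=
      Nat.card_congr (Subgroup.subgroupOfEquivOfLe hK₁M).toEquiv
    have hPq : ∃ a, Nat.card (P : Subgroup G) = q ^ a := IsPGroup.iff_card.mp P.isPGroup'
    obtain ⟨a, ha⟩ := hPq
    have hTP : (Nat.card T).Coprime (Nat.card (P : Subgroup G)) := by
      rw [ha]; exact Nat.Coprime.pow_right a hTcop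
    have hTidx : (Nat.card T).Coprime H.index :=
      Nat.Coprime.coprime_dvd_left (Dvd.intro_left _ hPT) hHall
    have hHall' : (Nat.card (T'.subgroupOf M)).Coprime (T'.subgroupOf M).index := by
      rw [e1]
      have h1 : Nat.card T * (T'.subgroupOf M).index = Nat.card M := by
        rw [← e1]; exact Subgroup.card_mul_index _
      have h2 : Nat.card M ∣ Nat.card G := Subgroup.card_subgroup_dvd_card M
      have h3 : Nat.card G = Nat.card T * (Nat.card (P : Subgroup G) * H.index) := by
        rw [← H.card_mul_index, ← hPT]; ring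
      have h4 : (T'.subgroupOf M).index ∣ Nat.card (P : Subgroup G) * H.index := by
        have h5 : Nat.card T * (T'.subgroupOf M).index ∣
            Nat.card T * (Nat.card (P : Subgroup G) * H.index) := by
          rw [h1, ← h3]; exact h2
        exact (Nat.mul_dvd_mul_iff_left Nat.card_pos).mp h5
      exact Nat.Coprime.coprime_dvd_right h4 (Nat.Coprime.mul_right hTP hTidx)
    have hπ' : ∀ p : ℕ, p.Prime → p ∣ Nat.card (K₁.subgroupOf M) →
        p ∣ Nat.card (T'.subgroupOf M) := by
      intro p hp hpd
      rw [e2] at hpd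
      rw [e1]
      have h1 : p ∣ Nat.card H := hπ p hp (hpd.trans (Subgroup.card_dvd_of_le hK₁K))
      rw [← hPT] at h1
      rcases (Nat.Prime.dvd_mul hp).mp h1 with h | h
      · exfalso
        rw [ha] at h
        have h2 : p ∣ q := hp.dvd_of_dvd_pow h
        have h3 : p = q := (Nat.prime_dvd_prime_iff_eq hp hq).mp h2
        rw [h3] at hpd
        exact (Nat.Prime.coprime_iff_not_dvd hq).mp hK₁cop.symm hpd
      · exact h
    have hnilT'M : Group.IsNilpotent (T'.subgroupOf M) := by
      haveI := hnilT'
      exact Group.nilpotent_of_mulEquiv (Subgroup.subgroupOfEquivOfLe hT'M).symm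
    obtain ⟨m, hm⟩ := ih (G := M) (T'.subgroupOf M) (K₁.subgroupOf M)
      hnilT'M hHall' hπ' (by rw [e2]; omega)
    refine ⟨(m : G) * x, ?_⟩
    rw [← hsup]
    have hm_inv : ∀ y ∈ Q, (m : G)⁻¹ * y * m ∈ Q := by
      intro y hy
      have h1 : (m : G)⁻¹ ∈ Subgroup.normalizer (Q : Set G) := M.inv_mem m.2
      rw [Subgroup.mem_normalizer_iff] at h1
      have := (h1 y).mp hy
      simpa using this
    apply sup_le
    · intro y hy
      rw [mem_conj_smul]
      have h1 := (mem_conj_smul x _ _).mp (hQx (hm_inv y hy))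
      have h2 : ((m : G) * x)⁻¹ * y * ((m : G) * x) = x⁻¹ * ((m : G)⁻¹ * y * m) * x := by group
      rw [h2]
      exact hPH h1
    · intro y hy
      rw [mem_conj_smul]
      have h0 : (⟨y, hK₁M hy⟩ : M) ∈ K₁.subgroupOf M := by
        rw [Subgroup.mem_subgroupOf]; exact hy
      have h1 := (mem_conj_smul m _ _).mp (hm h0)
      rw [Subgroup.mem_subgroupOf] at h1
      have h1' : (m : G)⁻¹ * y * m ∈ T' := by simpa using h1
      have h3 := (mem_conj_smul x _ T).mp h1'
      have h2 : ((m : G) * x)⁻¹ * y * ((m : G) * x) = x⁻¹ * ((m : G)⁻¹ * y * m) * x := by group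
      rw [h2]
      exact hTH h3

/-- Wielandt: a nilpotent Hall subgroup contains a conjugate of every subgroup whose order
involves only primes dividing its order. -/
theorem wielandt {G : Type u} [Group G] [Finite G] (H K : Subgroup G)
    (hH : Group.IsNilpotent H) (hHall : (Nat.card H).Coprime H.index)
    (hK : ∀ p : ℕ, p.Prime → p ∣ Nat.card K → p ∣ Nat.card H) :
    ∃ x : G, K ≤ MulAut.conj x • H :=
  wielandt_aux (Nat.card K) H K hH hHall hK le_rfl

end Cfsg.Agent.Lib.helper1
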