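import Mathlib
import Cfsg.Agent.Lib.helper1.Wielandt
import Cfsg.Agent.Lib.helper1.Uniserial
import Cfsg.Agent.S0071

/-! A Hall subgroup which is the direct product of a nilpotent `σ`-group and a `τ`-group,
in a group whose `τ`-subgroups are conjugate into the `τ`-factor: every `σ ∪ τ`-subgroup is
conjugate into the Hall subgroup. -/

set_option autoImplicit false

namespace Cfsg.Agent.Lib.helper1

open Pointwise
open Cfsg.Agent.Lib.lead

universe u

theorem normalizer_le_normalizer_centralizer_hp {G : Type*} [Group G] [Finite G] (X : Subgroup G) :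
    Subgroup.normalizer (X : Set G) ≤
      Subgroup.normalizer ((Subgroup.centralizer (X : Set G) : Subgroup G) : Set G) := by
  intro n hn
  apply Subgroup.mem_normalizer_fintype
  intro c hc
  rw [SetLike.mem_coe, Subgroup.mem_centralizer_iff]
  intro s hs
  have hs' : n⁻¹ * s * n ∈ X := by
    have hn' := (Subgroup.mem_normalizer_iff.mp (Subgroup.inv_mem _ hn) s).mp hs
    simpa using hn'
  have h1 : (n⁻¹ * s * n) * c = c * (n⁻¹ * s * n) := Subgroup.mem_centralizer_iff.mp hc _ hs'
  calc s * (n * c * n⁻¹) = n * ((n⁻¹ * s * n) * c) * n⁻¹ := by group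
    _ = n * (c * (n⁻¹ * s * n)) * n⁻¹ := by rw [h1]
    _ = n * c * n⁻¹ * s := by group

theorem centralizer_le_normalizer_hp {G : Type*} [Group G] [Finite G] (X : Subgroup G) :
    Subgroup.centralizer (X : Set G) ≤ Subgroup.normalizer (X : Set G) := by
  intro c hc
  apply Subgroup.mem_normalizer_fintype
  intro s hs
  have h1 : s * c = c * s := Subgroup.mem_centralizer_iff.mp hc s hs
  have h2 : c * s * c⁻¹ = s := by rw [← h1]; group
  rw [h2]
  exact hs

/-- a subgroup normalizing `X` whose order is prime to the index of some subgroup centralizing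
`X` centralizes `X` -/
theorem le_centralizer_of_coprime_index {G : Type*} [Group G] [Finite G] (X Y W : Subgroup G)
    (hW : W ≤ Subgroup.centralizer (X : Set G)) (hY : Y ≤ Subgroup.normalizer (X : Set G))
    (hcop : (Nat.card Y).Coprime W.index) : Y ≤ Subgroup.centralizer (X : Set G) := by
  have hCN := centralizer_le_normalizer_hp X
  haveI hnorm : ((Subgroup.centralizer (X : Set G)).subgroupOf
      (Subgroup.normalizer (X : Set G))).Normal :=
    Subgroup.normal_subgroupOf_of_le_normalizer (normalizer_le_normalizer_centralizer_hp X)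
  have h1 : (Subgroup.centralizer (X : Set G)).relIndex Y ∣
      (Subgroup.centralizer (X : Set G)).relIndex (Subgroup.normalizer (X : Set G)) := by
    rw [← Subgroup.relIndex_subgroupOf hY]
    exact Subgroup.relIndex_dvd_index_of_normal _ _
  have h2 : (Subgroup.centralizer (X : Set G)).relIndex (Subgroup.normalizer (X : Set G)) ∣
      (Subgroup.centralizer (X : Set G)).index :=
    Dvd.intro _ (Subgroup.relIndex_mul_index hCN)
  have h3 : (Subgroup.centralizer (X : Set G)).index ∣ W.index := Subgroup.index_dvd_of_le hW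
  have h4 : (Subgroup.centralizer (X : Set G)).relIndex Y ∣ Nat.card Y :=
    Subgroup.relIndex_dvd_card _ _
  have h5 := Nat.eq_one_of_dvd_coprimes hcop h4 (h1.trans (h2.trans h3))
  exact Subgroup.relIndex_eq_one.mp h5

/-- a subgroup containing all elements of prime power order is the whole group -/
theorem eq_top_of_prime_pow_mem {K : Type*} [Group K] [Finite K] (L : Subgroup K)
    (h : ∀ (q : ℕ), q.Prime → ∀ y : K, (∃ k : ℕ, y ^ q ^ k = 1) → y ∈ L) : L = ⊤ := by
  rw [← Subgroup.index_eq_one]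
  by_contra hne
  obtain ⟨q, hq, hqd⟩ := Nat.exists_prime_and_dvd hne
  haveI := Fact.mk hq
  obtain ⟨S⟩ : Nonempty (Sylow q K) := inferInstance
  have hSL : (S : Subgroup K) ≤ L := by
    intro y hy
    obtain ⟨k, hk⟩ := S.isPGroup' ⟨y, hy⟩
    exact h q hq y ⟨k, by simpa using congrArg Subtype.val hk⟩
  exact S.not_dvd_index (hqd.trans (Subgroup.index_dvd_of_le hSL))

/-- a group generated by `t'`-elements which commute with all `t`-elements has order prime to
`t` (Burnside transfer) -/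
theorem not_dvd_card_of_central_generators {L : Type*} [Group L] [Finite L] (t : ℕ)
    [Fact t.Prime] (X : Set L) (hX : Subgroup.closure X = ⊤)
    (hord : ∀ x ∈ X, (orderOf x).Coprime t)
    (hc : ∀ y : L, (∃ k : ℕ, y ^ t ^ k = 1) → ∀ x ∈ X, x * y = y * x) : ¬ t ∣ Nat.card L := by
  intro hdvd
  obtain ⟨P⟩ : Nonempty (Sylow t L) := inferInstance
  have hPc : ∀ y ∈ (P : Subgroup L), ∀ g : L, g * y = y * g := by
    intro y hy g
    have hy' : ∃ k : ℕ, y ^ t ^ k = 1 := by
      obtain ⟨k, hk⟩ := P.isPGroup' ⟨y, hy⟩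
      exact ⟨k, by simpa using congrArg Subtype.val hk⟩
    have hle : Subgroup.closure X ≤ Subgroup.centralizer ({y} : Set L) := by
      rw [Subgroup.closure_le]
      intro x hx
      rw [SetLike.mem_coe, Subgroup.mem_centralizer_iff]
      intro h hh
      rw [Set.mem_singleton_iff] at hh
      rw [hh]
      exact (hc y hy' x hx).symm
    have hg : g ∈ Subgroup.centralizer ({y} : Set L) := hle (hX ▸ Subgroup.mem_top g)
    exact (Subgroup.mem_centralizer_iff.mp hg y rfl).symm
  have hP : Subgroup.normalizer ((P : Subgroup L) : Set L) ≤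
      Subgroup.centralizer ((P : Subgroup L) : Set L) := by
    intro g _
    rw [Subgroup.mem_centralizer_iff]
    intro y hy
    exact (hPc y hy g).symm
  have hcompl := MonoidHom.ker_transferSylow_isComplement' P hP
  have hker : (MonoidHom.transferSylow P hP).ker = ⊤ := by
    rw [eq_top_iff, ← hX, Subgroup.closure_le]
    intro x hx
    rw [SetLike.mem_coe, MonoidHom.mem_ker]
    have h1 : orderOf (MonoidHom.transferSylow P hP x) ∣ orderOf x := orderOf_map_dvd _ x
    have h2 : orderOf (MonoidHom.transferSylow P hP x) ∣ Nat.card (P : Subgroup L) :=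
      orderOf_dvd_natCard _
    obtain ⟨n, hn⟩ := IsPGroup.iff_card.mp P.isPGroup'
    rw [hn] at h2
    have h3 : (orderOf x).Coprime (t ^ n) := Nat.Coprime.pow_right n (hord x hx)
    exact orderOf_eq_one_iff.mp (Nat.eq_one_of_dvd_coprimes h3 h1 h2)
  rw [hker] at hcompl
  have hcard := hcompl.card_mul_card
  rw [Subgroup.card_top] at hcard
  have hP1 : Nat.card (P : Subgroup L) = 1 := by
    have hpos := Nat.card_pos (α := L)
    have h2 : Nat.card L * Nat.card (P : Subgroup L) = Nat.card L * 1 := by rw [hcard, mul_one]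
    exact Nat.eq_of_mul_eq_mul_left hpos h2
  exact (P.ne_bot_of_dvd_card hdvd) (Subgroup.eq_bot_of_card_eq _ hP1)

/-- subgroup form of `not_dvd_card_of_central_generators` -/
theorem not_dvd_card_closure_hp {G : Type*} [Group G] [Finite G] (t : ℕ) [Fact t.Prime]
    (S : Set G) (hord : ∀ s ∈ S, (orderOf s).Coprime t)
    (hc : ∀ u ∈ Subgroup.closure S, (∃ k : ℕ, u ^ t ^ k = 1) → ∀ s ∈ S, s * u = u * s) :
    ¬ t ∣ Nat.card (Subgroup.closure S) := by
  apply not_dvd_card_of_central_generators t (((↑) : Subgroup.closure S → G) ⁻¹' S)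
    Subgroup.closure_closure_coe_preimage
  · intro x hx
    rw [← Subgroup.orderOf_coe]
    exact hord _ hx
  · intro y hy x hx
    obtain ⟨k, hk⟩ := hy
    apply Subtype.ext
    exact hc (y : G) y.2 ⟨k, by simpa using congrArg Subtype.val hk⟩ (x : G) hx

theorem index_conj_smul_hp {G : Type*} [Group G] [Finite G] (g : G) (W : Subgroup G) :
    (MulAut.conj g • W : Subgroup G).index = W.index := by
  have h1 := Subgroup.card_mul_index (MulAut.conj g • W : Subgroup G)
  have h2 := Subgroup.card_mul_index W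
  rw [card_conj_smul] at h1
  exact Nat.eq_of_mul_eq_mul_left Nat.card_pos (h1.trans h2.symm)

theorem cent_of_conj_le_hp {G : Type*} [Group G] [Finite G] (U W X Y : Subgroup G)
    (hUW : ∀ a ∈ U, ∀ b ∈ W, a * b = b * a) (g : G) (hX : X ≤ MulAut.conj g • U)
    (hY : Y ≤ Subgroup.normalizer (X : Set G)) (hcop : (Nat.card Y).Coprime W.index) :
    Y ≤ Subgroup.centralizer (X : Set G) := by
  apply le_centralizer_of_coprime_index X Y (MulAut.conj g • W) ?_ hY ?_
  · intro w hw
    rw [Subgroup.mem_centralizer_iff]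
    intro s hs
    have h1 := (mem_conj_smul g s U).mp (hX (SetLike.mem_coe.mp hs))
    have h2 := (mem_conj_smul g w W).mp hw
    have h3 := hUW _ h1 _ h2
    have h4 : g⁻¹ * (s * w) * g = g⁻¹ * (w * s) * g := by
      calc g⁻¹ * (s * w) * g = (g⁻¹ * s * g) * (g⁻¹ * w * g) := by group
        _ = (g⁻¹ * w * g) * (g⁻¹ * s * g) := h3
        _ = g⁻¹ * (w * s) * g := by group
    simpa using h4
  · rw [index_conj_smul_hp]
    exact hcop

theorem coprime_of_forall_prime_hp {m n : ℕ} (h : ∀ p : ℕ, p.Prime → p ∣ m → ¬ p ∣ n) :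
    m.Coprime n := by
  by_contra hc
  obtain ⟨p, hp, h1, h2⟩ := Nat.Prime.not_coprime_iff_dvd.mp hc
  exact h p hp h1 h2

theorem prime_dvd_card_zpowers_hp {G : Type*} [Group G] {x : G} {p a : ℕ} (hp : p.Prime)
    (hx : x ^ p ^ a = 1) {q : ℕ} (hq : q.Prime) (h : q ∣ Nat.card (Subgroup.zpowers x)) :
    q = p := by
  rw [Nat.card_zpowers] at h
  have h1 : orderOf x ∣ p ^ a := orderOf_dvd_of_pow_eq_one hx
  exact (Nat.prime_dvd_prime_iff_eq hq hp).mp (hq.dvd_of_dvd_pow (h.trans h1))

theorem card_sup_dvd_hp {G : Type*} [Group G] [Finite G] (X Z : Subgroup G)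
    (hZ : Z ≤ Subgroup.normalizer (X : Set G)) :
    Nat.card (X ⊔ Z : Subgroup G) ∣ Nat.card X * Nat.card Z := by
  have hXN : X ≤ Subgroup.normalizer (X : Set G) := Subgroup.le_normalizer
  haveI : (X.subgroupOf (Subgroup.normalizer (X : Set G))).Normal :=
    Subgroup.normal_subgroupOf_of_le_normalizer le_rfl
  have h1 : X.relIndex (X ⊔ Z) = X.relIndex Z := by
    rw [← Subgroup.relIndex_subgroupOf (sup_le hXN hZ), Subgroup.subgroupOf_sup hXN hZ,
      Subgroup.relIndex_sup_left, Subgroup.relIndex_subgroupOf hZ]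
  have h2 : Nat.card X * X.relIndex (X ⊔ Z) = Nat.card (X ⊔ Z : Subgroup G) :=
    card_mul_relIndex_uni le_sup_left
  rw [← h2, h1]
  exact Nat.mul_dvd_mul_left _ (Subgroup.relIndex_dvd_card _ _)

/-- the conjugates of `y` under `K` -/
def nclS {G : Type*} [Group G] (K : Subgroup G) (y : G) : Set G :=
  Set.range (fun k : K => (k : G) * y * (k : G)⁻¹)

theorem nclS_le {G : Type*} [Group G] (K : Subgroup G) (y : G) (hy : y ∈ K) :
    Subgroup.closure (nclS K y) ≤ K := by
  rw [Subgroup.closure_le]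
  rintro _ ⟨k, rfl⟩
  exact K.mul_mem (K.mul_mem k.2 hy) (K.inv_mem k.2)

theorem mem_nclS {G : Type*} [Group G] (K : Subgroup G) (y : G) :
    y ∈ Subgroup.closure (nclS K y) :=
  Subgroup.subset_closure ⟨1, by simp⟩

theorem nclS_pow {G : Type*} [Group G] (K : Subgroup G) (y : G) {m : ℕ} (hm : y ^ m = 1) :
    ∀ s ∈ nclS K y, s ^ m = 1 := by
  rintro _ ⟨k, rfl⟩
  rw [conj_pow, hm]
  simp

theorem nclS_le_of_normal {G : Type*} [Group G] (K : Subgroup G) (y : G) (L : Subgroup G)
    (hyL : y ∈ L) (hKL : K ≤ Subgroup.normalizer (L : Set G)) :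
    Subgroup.closure (nclS K y) ≤ L := by
  rw [Subgroup.closure_le]
  rintro _ ⟨k, rfl⟩
  exact (Subgroup.mem_normalizer_iff.mp (hKL k.2) y).mp hyL

theorem nclS_norm {G : Type*} [Group G] [Finite G] (K : Subgroup G) (y : G) :
    K ≤ Subgroup.normalizer ((Subgroup.closure (nclS K y) : Subgroup G) : Set G) := by
  intro k hk
  apply Subgroup.mem_normalizer_fintype
  intro m hm
  have h1 : Subgroup.closure (nclS K y) ≤
      (Subgroup.closure (nclS K y)).comap (MulAut.conj k).toMonoidHom := by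
    rw [Subgroup.closure_le]
    rintro _ ⟨k', rfl⟩
    rw [SetLike.mem_coe, Subgroup.mem_comap]
    apply Subgroup.subset_closure
    refine ⟨⟨k * k', K.mul_mem hk k'.2⟩, ?_⟩
    simp [mul_assoc]
  have h2 := h1 hm
  rw [Subgroup.mem_comap] at h2
  simpa using h2

theorem le_normalizer_map_subtype_hp {G : Type*} [Group G] [Finite G] (K : Subgroup G)
    (N : Subgroup K) [hN : N.Normal] :
    K ≤ Subgroup.normalizer ((N.map K.subtype : Subgroup G) : Set G) := by
  intro k hk
  apply Subgroup.mem_normalizer_fintype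
  rintro _ ⟨m, hm, rfl⟩
  exact ⟨⟨k, hk⟩ * m * ⟨k, hk⟩⁻¹, hN.conj_mem m hm ⟨k, hk⟩, by simp⟩

/-- the data of a Hall subgroup `Hs × Ht` -/
structure HPData {G : Type*} [Group G] (σ τ : Set ℕ) (Hs Ht : Subgroup G) : Prop where
  disj : ∀ p : ℕ, p ∈ σ → p ∈ τ → False
  hs : ∀ p : ℕ, p.Prime → p ∣ Nat.card Hs → p ∈ σ
  ht : ∀ p : ℕ, p.Prime → p ∣ Nat.card Ht → p ∈ τ
  hsi : ∀ p : ℕ, p.Prime → p ∈ σ → ¬ p ∣ Hs.index
  hti : ∀ p : ℕ, p.Prime → p ∈ τ → ¬ p ∣ Ht.index
  nil : Group.IsNilpotent Hs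
  comm : ∀ a ∈ Hs, ∀ b ∈ Ht, a * b = b * a
  dτ : ∀ T : Subgroup G, (∀ p : ℕ, p.Prime → p ∣ Nat.card T → p ∈ τ) →
    ∃ g : G, T ≤ MulAut.conj g • Ht

section
variable {G : Type u} [Group G] [Finite G] {σ τ : Set ℕ} {Hs Ht : Subgroup G}

theorem HPData.dvd_card_hs (D : HPData σ τ Hs Ht) {p : ℕ} (hp : p.Prime) (hpσ : p ∈ σ)
    {S : Subgroup G} (h : p ∣ Nat.card S) : p ∣ Nat.card Hs := by
  have h1 : p ∣ Nat.card G := h.trans (Subgroup.card_subgroup_dvd_card S)
  rw [← Subgroup.card_mul_index Hs] at h1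
  rcases (Nat.Prime.dvd_mul hp).mp h1 with h2 | h2
  · exact h2
  · exact absurd h2 (D.hsi p hp hpσ)

theorem HPData.dσ (D : HPData σ τ Hs Ht) (S : Subgroup G)
    (hS : ∀ p : ℕ, p.Prime → p ∣ Nat.card S → p ∈ σ) : ∃ g : G, S ≤ MulAut.conj g • Hs :=
  wielandt Hs S D.nil (coprime_of_forall_prime_hp (fun p hp h1 => D.hsi p hp (D.hs p hp h1)))
    (fun p hp h => D.dvd_card_hs hp (hS p hp h) h)

theorem HPData.tau_cent (D : HPData σ τ Hs Ht) (S T : Subgroup G)
    (hS : ∀ p : ℕ, p.Prime → p ∣ Nat.card S → p ∈ σ)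
    (hT : ∀ p : ℕ, p.Prime → p ∣ Nat.card T → p ∈ τ)
    (hST : S ≤ Subgroup.normalizer (T : Set G)) : S ≤ Subgroup.centralizer (T : Set G) := by
  obtain ⟨g, hg⟩ := D.dτ T hT
  exact cent_of_conj_le_hp Ht Hs T S (fun a ha b hb => (D.comm b hb a ha).symm) g hg hST
    (coprime_of_forall_prime_hp (fun p hp h1 => D.hsi p hp (hS p hp h1)))

theorem HPData.sigma_cent (D : HPData σ τ Hs Ht) (S T : Subgroup G)
    (hS : ∀ p : ℕ, p.Prime → p ∣ Nat.card S → p ∈ σ)
    (hT : ∀ p : ℕ, p.Prime → p ∣ Nat.card T → p ∈ τ)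
    (hTS : T ≤ Subgroup.normalizer (S : Set G)) : T ≤ Subgroup.centralizer (S : Set G) := by
  obtain ⟨g, hg⟩ := D.dσ S hS
  exact cent_of_conj_le_hp Hs Ht S T D.comm g hg hTS
    (coprime_of_forall_prime_hp (fun p hp h1 => D.hti p hp (hT p hp h1)))

theorem HPData.sigma_sigma (D : HPData σ τ Hs Ht) {p q : ℕ} (hp : p.Prime) (hq : q.Prime)
    (hpq : p ≠ q) (hpσ : p ∈ σ) (hqσ : q ∈ σ) (Q : Subgroup G) (hQ : IsPGroup p Q) (z : G)
    (hz : ∃ k : ℕ, z ^ q ^ k = 1) (hzQ : z ∈ Subgroup.normalizer (Q : Set G)) :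
    z ∈ Subgroup.centralizer (Q : Set G) := by
  obtain ⟨k, hk⟩ := hz
  haveI := Fact.mk hp
  have hZN : Subgroup.zpowers z ≤ Subgroup.normalizer (Q : Set G) := Subgroup.zpowers_le.mpr hzQ
  have hcard := card_sup_dvd_hp Q (Subgroup.zpowers z) hZN
  have hRσ : ∀ r : ℕ, r.Prime → r ∣ Nat.card (Q ⊔ Subgroup.zpowers z : Subgroup G) → r ∈ σ := by
    intro r hr hrd
    rcases (Nat.Prime.dvd_mul hr).mp (hrd.trans hcard) with h | h
    · obtain ⟨n, hn⟩ := IsPGroup.iff_card.mp hQ
      rw [hn] at h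
      rw [(Nat.prime_dvd_prime_iff_eq hr hp).mp (hr.dvd_of_dvd_pow h)]
      exact hpσ
    · rw [prime_dvd_card_zpowers_hp hq hk hr h]
      exact hqσ
  obtain ⟨g, hg⟩ := D.dσ _ hRσ
  have hnil : Group.IsNilpotent (Q ⊔ Subgroup.zpowers z : Subgroup G) :=
    isNilpotent_of_le_conj Hs _ D.nil g hg
  have hnormal : ∀ (r : ℕ) [Fact r.Prime] (S : Sylow r (Q ⊔ Subgroup.zpowers z : Subgroup G)),
      (S : Subgroup (Q ⊔ Subgroup.zpowers z : Subgroup G)).Normal :=
    ((Group.isNilpotent_of_finite_tfae (G := (Q ⊔ Subgroup.zpowers z : Subgroup G))).out 0 3).mp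
      hnil
  have hQR : Q ≤ Q ⊔ Subgroup.zpowers z := le_sup_left
  have hzR : z ∈ Q ⊔ Subgroup.zpowers z :=
    (le_sup_right : Subgroup.zpowers z ≤ Q ⊔ Subgroup.zpowers z) (Subgroup.mem_zpowers z)
  have hQp' : IsPGroup p (Q.subgroupOf (Q ⊔ Subgroup.zpowers z)) := hQ.comap_subtype
  obtain ⟨S₀, hS₀⟩ := hQp'.exists_le_sylow
  have hcop : (orderOf (⟨z, hzR⟩ : (Q ⊔ Subgroup.zpowers z : Subgroup G))).Coprime p := by
    rw [Subgroup.orderOf_mk]
    have h1 : orderOf z ∣ q ^ k := orderOf_dvd_of_pow_eq_one hk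
    exact Nat.Coprime.coprime_dvd_left h1
      (Nat.Coprime.pow_left k ((Nat.coprime_primes hq hp).mpr (Ne.symm hpq)))
  have hc := mem_centralizer_sylow_of_normal hnormal S₀ ⟨z, hzR⟩ hcop
  rw [Subgroup.mem_centralizer_iff]
  intro u hu
  have hu' : (⟨u, hQR hu⟩ : (Q ⊔ Subgroup.zpowers z : Subgroup G)) ∈ (S₀ : Subgroup _) :=
    hS₀ (by rw [Subgroup.mem_subgroupOf]; exact hu)
  have h2 := Subgroup.mem_centralizer_iff.mp hc _ hu'
  exact congrArg Subtype.val h2

end


section
variable {G : Type u} [Group G] [Finite G] {σ τ : Set ℕ} {Hs Ht : Subgroup G}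

/-- in every `σ ∪ τ`-subgroup, elements of `σ`-prime-power order commute with elements of
`τ`-prime-power order -/
theorem HPData.comm_sigma_tau (D : HPData σ τ Hs Ht) : ∀ (n : ℕ) (K : Subgroup G),
    Nat.card K ≤ n → (∀ p : ℕ, p.Prime → p ∣ Nat.card K → p ∈ σ ∪ τ) →
    ∀ (p t : ℕ), p.Prime → t.Prime → p ∈ σ → t ∈ τ → ∀ x ∈ K, ∀ y ∈ K,
      (∃ a : ℕ, x ^ p ^ a = 1) → (∃ b : ℕ, y ^ t ^ b = 1) → x * y = y * x := by
  intro n
  induction n with
  | zero =>
    intro K hK
    have := Nat.card_pos (α := K)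
    omega
  | succ n ih =>
    intro K hKn hKπ p t hp ht hpσ htτ x hx y hy hxa hyb
    obtain ⟨a, ha⟩ := hxa
    obtain ⟨b, hb⟩ := hyb
    haveI := Fact.mk hp
    have hpt : p ≠ t := fun h => D.disj p hpσ (h ▸ htτ)
    by_cases hYeq : Subgroup.closure (nclS K y) = K
    · -- the normal closure of `y` is `K`: Frobenius
      obtain ⟨P₀⟩ : Nonempty (Sylow p K) := inferInstance
      have hfrob : ∀ Q : Subgroup K, Q ≤ (P₀ : Subgroup K) →
          ∀ g ∈ Subgroup.normalizer (Q : Set K), Nat.Coprime (orderOf g) p →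
          g ∈ Subgroup.centralizer (Q : Set K) := by
        intro Q hQ g hg hcop
        have hQ'p : IsPGroup p (Q.map K.subtype) := (P₀.isPGroup'.to_le hQ).map K.subtype
        have hQ'K : Q.map K.subtype ≤ K := Subgroup.map_subtype_le Q
        have hgN : (g : G) ∈ Subgroup.normalizer ((Q.map K.subtype : Subgroup G) : Set G) := by
          apply Subgroup.mem_normalizer_fintype
          rintro _ ⟨u, hu, rfl⟩
          have h1 := (Subgroup.mem_normalizer_iff.mp hg u).mp hu
          exact ⟨g * u * g⁻¹, h1, by simp⟩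
        suffices hsuff : (g : G) ∈
            Subgroup.centralizer ((Q.map K.subtype : Subgroup G) : Set G) by
          rw [Subgroup.mem_centralizer_iff]
          intro u hu
          have h1 := Subgroup.mem_centralizer_iff.mp hsuff (u : G) ⟨u, hu, rfl⟩
          exact Subtype.ext h1
        have hQ'σ : ∀ r : ℕ, r.Prime → r ∣ Nat.card (Q.map K.subtype : Subgroup G) → r ∈ σ := by
          intro r hr hrd
          obtain ⟨m, hm⟩ := IsPGroup.iff_card.mp hQ'p
          rw [hm] at hrd
          rw [(Nat.prime_dvd_prime_iff_eq hr hp).mp (hr.dvd_of_dvd_pow hrd)]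
          exact hpσ
        by_cases hKN : K ≤ Subgroup.normalizer ((Q.map K.subtype : Subgroup G) : Set G)
        · have hyc : Subgroup.zpowers y ≤
              Subgroup.centralizer ((Q.map K.subtype : Subgroup G) : Set G) :=
            D.sigma_cent (Q.map K.subtype) (Subgroup.zpowers y) hQ'σ
              (fun r hr h => by rw [prime_dvd_card_zpowers_hp ht hb hr h]; exact htτ)
              (Subgroup.zpowers_le.mpr (hKN hy))
          have hYc : Subgroup.closure (nclS K y) ≤
              Subgroup.centralizer ((Q.map K.subtype : Subgroup G) : Set G) :=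
            nclS_le_of_normal K y _ (hyc (Subgroup.mem_zpowers y))
              (hKN.trans (normalizer_le_normalizer_centralizer_hp _))
          rw [hYeq] at hYc
          exact hYc g.2
        · have hlt : (Subgroup.normalizer ((Q.map K.subtype : Subgroup G) : Set G) ⊓ K :
              Subgroup G) < K :=
            lt_of_le_of_ne inf_le_right (fun h => hKN ((le_of_eq h.symm).trans inf_le_left))
          have hMlt : Nat.card (Subgroup.normalizer ((Q.map K.subtype : Subgroup G) : Set G) ⊓ K :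
              Subgroup G) ≤ n := by
            have := card_lt_of_lt_uni hlt
            omega
          have hMπ : ∀ r : ℕ, r.Prime → r ∣ Nat.card (Subgroup.normalizer
              ((Q.map K.subtype : Subgroup G) : Set G) ⊓ K : Subgroup G) → r ∈ σ ∪ τ :=
            fun r hr h => hKπ r hr (h.trans (Subgroup.card_dvd_of_le inf_le_right))
          have hL := eq_top_of_prime_pow_mem
            ((Subgroup.centralizer ((Q.map K.subtype : Subgroup G) : Set G)).subgroupOf
              (Subgroup.zpowers (g : G))) ?_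
          · exact (Subgroup.subgroupOf_eq_top.mp hL) (Subgroup.mem_zpowers (g : G))
          intro q hq z hz
          rw [Subgroup.mem_subgroupOf]
          obtain ⟨k, hk⟩ := hz
          have hk' : (z : G) ^ q ^ k = 1 := by simpa using congrArg Subtype.val hk
          have hzK : (z : G) ∈ K := (Subgroup.zpowers_le.mpr g.2) z.2
          have hzN : (z : G) ∈ Subgroup.normalizer ((Q.map K.subtype : Subgroup G) : Set G) :=
            (Subgroup.zpowers_le.mpr hgN) z.2
          by_cases hz1 : (z : G) = 1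
          · rw [hz1]
            exact Subgroup.one_mem _
          have hqo : q ∣ orderOf (z : G) := by
            have h1 : orderOf (z : G) ∣ q ^ k := orderOf_dvd_of_pow_eq_one hk'
            obtain ⟨j, -, hj⟩ := (Nat.dvd_prime_pow hq).mp h1
            rcases Nat.eq_zero_or_pos j with h0 | h0
            · rw [h0, pow_zero] at hj
              exact absurd (orderOf_eq_one_iff.mp hj) hz1
            · rw [hj]
              exact dvd_pow_self q (by omega)
          have hqp : q ≠ p := by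
            rintro rfl
            have h1 : orderOf (z : G) ∣ orderOf (g : G) := orderOf_dvd_of_mem_zpowers z.2
            have h2 : (orderOf (g : G)).Coprime q := by
              rw [Subgroup.orderOf_coe]
              exact hcop
            have h3 := Nat.eq_one_of_dvd_coprimes h2 (hqo.trans h1) (dvd_refl q)
            exact hq.one_lt.ne' h3
          have hqK : q ∣ Nat.card K := by
            have h1 := orderOf_dvd_natCard (⟨(z : G), hzK⟩ : K)
            rw [Subgroup.orderOf_mk] at h1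
            exact hqo.trans h1
          rcases hKπ q hq hqK with hqσ | hqτ
          · exact D.sigma_sigma hp hq (Ne.symm hqp) hpσ hqσ _ hQ'p (z : G) ⟨k, hk'⟩ hzN
          · rw [Subgroup.mem_centralizer_iff]
            intro u hu
            have huM : u ∈ (Subgroup.normalizer ((Q.map K.subtype : Subgroup G) : Set G) ⊓ K :
                Subgroup G) := ⟨Subgroup.le_normalizer hu, hQ'K hu⟩
            have hzM : (z : G) ∈ (Subgroup.normalizer ((Q.map K.subtype : Subgroup G) : Set G) ⊓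
                K : Subgroup G) := ⟨hzN, hzK⟩
            obtain ⟨a', ha'⟩ := hQ'p ⟨u, hu⟩
            have hua : u ^ p ^ a' = 1 := by simpa using congrArg Subtype.val ha'
            exact ih _ hMlt hMπ p q hp hq hpσ hqτ u huM (z : G) hzM ⟨a', hua⟩ ⟨k, hk'⟩
      obtain ⟨N, hNn, hNc⟩ := (Cfsg.Agent.S0071.result P₀).mpr hfrob
      haveI := hNn
      have hyN : (⟨y, hy⟩ : K) ∈ N := by
        have hidx : N.index = Nat.card (P₀ : Subgroup K) := hNc.symm.index_eq_card
        obtain ⟨m, hm⟩ := IsPGroup.iff_card.mp P₀.isPGroup'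
        rw [← QuotientGroup.eq_one_iff]
        have h1 : orderOf ((⟨y, hy⟩ : K) : K ⧸ N) ∣ t ^ b := by
          apply orderOf_dvd_of_pow_eq_one
          rw [← QuotientGroup.mk_pow]
          have h0 : (⟨y, hy⟩ : K) ^ t ^ b = 1 := Subtype.ext (by simpa using hb)
          rw [h0]
          rfl
        have h2 : orderOf ((⟨y, hy⟩ : K) : K ⧸ N) ∣ p ^ m := by
          rw [← hm, ← hidx, Subgroup.index_eq_card]
          exact orderOf_dvd_natCard _
        have h3 : (t ^ b).Coprime (p ^ m) :=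
          Nat.Coprime.pow _ _ ((Nat.coprime_primes ht hp).mpr (Ne.symm hpt))
        exact orderOf_eq_one_iff.mp (Nat.eq_one_of_dvd_coprimes h3 h1 h2)
      have hYN : Subgroup.closure (nclS K y) ≤ N.map K.subtype :=
        nclS_le_of_normal K y _ ⟨⟨y, hy⟩, hyN, rfl⟩ (le_normalizer_map_subtype_hp K N)
      rw [hYeq] at hYN
      have hNtop : N = ⊤ := by
        rw [eq_top_iff]
        intro k _
        obtain ⟨k', hk', hkk⟩ := hYN k.2
        have h0 : k' = k := Subtype.ext hkk
        rw [← h0]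
        exact hk'
      have hP1 : Nat.card (P₀ : Subgroup K) = 1 := by
        have h1 := hNc.card_mul_card
        rw [hNtop, Subgroup.card_top] at h1
        have hpos := Nat.card_pos (α := K)
        have h2 : Nat.card K * Nat.card (P₀ : Subgroup K) = Nat.card K * 1 := by rw [h1, mul_one]
        exact Nat.eq_of_mul_eq_mul_left hpos h2
      have hpK : ¬ p ∣ Nat.card K :=
        fun h => (P₀.ne_bot_of_dvd_card h) (Subgroup.eq_bot_of_card_eq _ hP1)
      have hx1 : x = 1 := by
        have h1 : orderOf x ∣ p ^ a := orderOf_dvd_of_pow_eq_one ha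
        have h2 : orderOf x ∣ Nat.card K := by
          have h0 := orderOf_dvd_natCard (⟨x, hx⟩ : K)
          rwa [Subgroup.orderOf_mk] at h0
        have h3 : (p ^ a).Coprime (Nat.card K) :=
          Nat.Coprime.pow_left a ((Nat.Prime.coprime_iff_not_dvd hp).mpr hpK)
        exact orderOf_eq_one_iff.mp (Nat.eq_one_of_dvd_coprimes h3 h1 h2)
      rw [hx1, one_mul, mul_one]
    · -- the normal closure of `y` is proper: it is a `τ`-group
      have hYlt : Nat.card (Subgroup.closure (nclS K y)) ≤ n := by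
        have := card_lt_of_lt_uni (lt_of_le_of_ne (nclS_le K y hy) hYeq)
        omega
      have hYπ : ∀ r : ℕ, r.Prime → r ∣ Nat.card (Subgroup.closure (nclS K y)) → r ∈ σ ∪ τ :=
        fun r hr h => hKπ r hr (h.trans (Subgroup.card_dvd_of_le (nclS_le K y hy)))
      have hYτ : ∀ r : ℕ, r.Prime → r ∣ Nat.card (Subgroup.closure (nclS K y)) → r ∈ τ := by
        intro r hr hrd
        rcases hYπ r hr hrd with hrσ | hrτ
        · exfalso
          haveI := Fact.mk hr
          refine not_dvd_card_closure_hp r (nclS K y) ?_ ?_ hrd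
          · intro s hs
            have h1 : orderOf s ∣ t ^ b := orderOf_dvd_of_pow_eq_one (nclS_pow K y hb s hs)
            exact Nat.Coprime.coprime_dvd_left h1 (Nat.Coprime.pow_left b
              ((Nat.coprime_primes ht hr).mpr (fun h => D.disj r hrσ (h ▸ htτ))))
          · intro u hu hupow s hs
            exact (ih _ hYlt hYπ r t hr ht hrσ htτ u hu s (Subgroup.subset_closure hs) hupow
              ⟨b, nclS_pow K y hb s hs⟩).symm
        · exact hrτ
      have hxc := D.tau_cent (Subgroup.zpowers x) (Subgroup.closure (nclS K y))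
        (fun r hr h => by rw [prime_dvd_card_zpowers_hp hp ha hr h]; exact hpσ) hYτ
        (Subgroup.zpowers_le.mpr (nclS_norm K y hx))
      have h1 := Subgroup.mem_centralizer_iff.mp (hxc (Subgroup.mem_zpowers x)) y (mem_nclS K y)
      exact h1.symm

/-- every `σ ∪ τ`-subgroup is conjugate into `Hs ⊔ Ht` -/
theorem HPData.conj_le (D : HPData σ τ Hs Ht) (K : Subgroup G)
    (hKπ : ∀ p : ℕ, p.Prime → p ∣ Nat.card K → p ∈ σ ∪ τ) :
    ∃ g : G, K ≤ MulAut.conj g • (Hs ⊔ Ht) := by
  have hcommK := D.comm_sigma_tau (Nat.card K) K le_rfl hKπ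
  obtain ⟨Sσ, hSσ⟩ : ∃ S : Set G, S = {x : G | x ∈ K ∧ ∃ p : ℕ, p ∈ σ ∧ p.Prime ∧
      ∃ a : ℕ, x ^ p ^ a = 1} := ⟨_, rfl⟩
  obtain ⟨Sτ, hSτ⟩ : ∃ S : Set G, S = {x : G | x ∈ K ∧ ∃ p : ℕ, p ∈ τ ∧ p.Prime ∧
      ∃ a : ℕ, x ^ p ^ a = 1} := ⟨_, rfl⟩
  have hσK : Subgroup.closure Sσ ≤ K := by
    rw [Subgroup.closure_le, hSσ]
    intro x hx
    exact hx.1
  have hτK : Subgroup.closure Sτ ≤ K := by
    rw [Subgroup.closure_le, hSτ]
    intro x hx
    exact hx.1
  have hgen : ∀ x ∈ Sσ, ∀ y ∈ Sτ, x * y = y * x := by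
    intro x hx y hy
    rw [hSσ] at hx
    rw [hSτ] at hy
    obtain ⟨hxK, p, hpσ, hp, hxa⟩ := hx
    obtain ⟨hyK, t, htτ, ht, hyb⟩ := hy
    exact hcommK p t hp ht hpσ htτ x hxK y hyK hxa hyb
  -- the two parts commute
  have hcent : Subgroup.closure Sσ ≤ Subgroup.centralizer ((Subgroup.closure Sτ : Subgroup G) :
      Set G) := by
    rw [Subgroup.closure_le]
    intro x hx
    have h1 : Subgroup.closure Sτ ≤ Subgroup.centralizer ({x} : Set G) := by
      rw [Subgroup.closure_le]
      intro y hy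
      rw [SetLike.mem_coe, Subgroup.mem_centralizer_iff]
      intro h hh
      rw [Set.mem_singleton_iff] at hh
      rw [hh]
      exact hgen x hx y hy
    rw [SetLike.mem_coe, Subgroup.mem_centralizer_iff]
    intro h hh
    exact (Subgroup.mem_centralizer_iff.mp (h1 hh) x rfl).symm
  -- the sigma part is a sigma group
  have hσσ : ∀ q : ℕ, q.Prime → q ∣ Nat.card (Subgroup.closure Sσ) → q ∈ σ := by
    intro q hq hqd
    rcases hKπ q hq (hqd.trans (Subgroup.card_dvd_of_le hσK)) with h | hqτ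
    · exact h
    · exfalso
      haveI := Fact.mk hq
      refine not_dvd_card_closure_hp q Sσ ?_ ?_ hqd
      · intro s hs
        rw [hSσ] at hs
        obtain ⟨-, p, hpσ, hp, a, ha⟩ := hs
        have h1 : orderOf s ∣ p ^ a := orderOf_dvd_of_pow_eq_one ha
        exact Nat.Coprime.coprime_dvd_left h1 (Nat.Coprime.pow_left a
          ((Nat.coprime_primes hp hq).mpr (fun h => D.disj q (h ▸ hpσ) hqτ)))
      · intro u hu hupow s hs
        have hs' := hs
        rw [hSσ] at hs'
        obtain ⟨hsK, p, hpσ, hp, hsa⟩ := hs'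
        exact hcommK p q hp hq hpσ hqτ s hsK u (hσK hu) hsa hupow
  have hττ : ∀ q : ℕ, q.Prime → q ∣ Nat.card (Subgroup.closure Sτ) → q ∈ τ := by
    intro q hq hqd
    rcases hKπ q hq (hqd.trans (Subgroup.card_dvd_of_le hτK)) with hqσ | h
    · exfalso
      haveI := Fact.mk hq
      refine not_dvd_card_closure_hp q Sτ ?_ ?_ hqd
      · intro s hs
        rw [hSτ] at hs
        obtain ⟨-, t, htτ, ht, b, hb⟩ := hs
        have h1 : orderOf s ∣ t ^ b := orderOf_dvd_of_pow_eq_one hb
        exact Nat.Coprime.coprime_dvd_left h1 (Nat.Coprime.pow_left b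
          ((Nat.coprime_primes ht hq).mpr (fun h => D.disj q hqσ (h ▸ htτ))))
      · intro u hu hupow s hs
        have hs' := hs
        rw [hSτ] at hs'
        obtain ⟨hsK, t, htτ, ht, hsb⟩ := hs'
        exact (hcommK q t hq ht hqσ htτ u (hτK hu) s hsK hupow hsb).symm
    · exact h
  -- K is generated by the two parts
  have hKsup : K ≤ Subgroup.closure Sσ ⊔ Subgroup.closure Sτ := by
    rw [← Subgroup.subgroupOf_eq_top]
    apply eq_top_of_prime_pow_mem
    intro q hq y hy
    rw [Subgroup.mem_subgroupOf]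
    obtain ⟨k, hk⟩ := hy
    have hk' : (y : G) ^ q ^ k = 1 := by simpa using congrArg Subtype.val hk
    by_cases hy1 : (y : G) = 1
    · rw [hy1]
      exact Subgroup.one_mem _
    have hqo : q ∣ orderOf (y : G) := by
      have h1 : orderOf (y : G) ∣ q ^ k := orderOf_dvd_of_pow_eq_one hk'
      obtain ⟨j, -, hj⟩ := (Nat.dvd_prime_pow hq).mp h1
      rcases Nat.eq_zero_or_pos j with h0 | h0
      · rw [h0, pow_zero] at hj
        exact absurd (orderOf_eq_one_iff.mp hj) hy1
      · rw [hj]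
        exact dvd_pow_self q (by omega)
    have hqK : q ∣ Nat.card K := by
      have h1 := orderOf_dvd_natCard y
      rw [← Subgroup.orderOf_coe] at h1
      exact hqo.trans h1
    rcases hKπ q hq hqK with hqσ | hqτ
    · apply (le_sup_left : Subgroup.closure Sσ ≤ _)
      apply Subgroup.subset_closure
      rw [hSσ]
      exact ⟨y.2, q, hqσ, hq, k, hk'⟩
    · apply (le_sup_right : Subgroup.closure Sτ ≤ _)
      apply Subgroup.subset_closure
      rw [hSτ]
      exact ⟨y.2, q, hqτ, hq, k, hk'⟩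
  -- conjugate the tau part into Ht
  obtain ⟨g₁, hg₁⟩ := D.dτ _ hττ
  -- the conjugate of Hs centralizes the tau part
  have hHsC : (MulAut.conj g₁ • Hs : Subgroup G) ≤
      Subgroup.centralizer ((Subgroup.closure Sτ : Subgroup G) : Set G) := by
    intro w hw
    rw [Subgroup.mem_centralizer_iff]
    intro s hs
    have h1 := (mem_conj_smul g₁ s Ht).mp (hg₁ (SetLike.mem_coe.mp hs))
    have h2 := (mem_conj_smul g₁ w Hs).mp hw
    have h3 := D.comm _ h2 _ h1
    have h4 : g₁⁻¹ * (s * w) * g₁ = g₁⁻¹ * (w * s) * g₁ := by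
      calc g₁⁻¹ * (s * w) * g₁ = (g₁⁻¹ * s * g₁) * (g₁⁻¹ * w * g₁) := by group
        _ = (g₁⁻¹ * w * g₁) * (g₁⁻¹ * s * g₁) := h3.symm
        _ = g₁⁻¹ * (w * s) * g₁ := by group
    simpa using h4
  -- Wielandt inside the centralizer of the tau part
  obtain ⟨C, hC⟩ : ∃ C : Subgroup G, C = Subgroup.centralizer ((Subgroup.closure Sτ :
      Subgroup G) : Set G) := ⟨_, rfl⟩
  rw [← hC] at hHsC hcent
  have hnil' : Group.IsNilpotent (MulAut.conj g₁ • Hs : Subgroup G) :=
    isNilpotent_of_le_conj Hs _ D.nil g₁ le_rfl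
  have hnilC : Group.IsNilpotent ((MulAut.conj g₁ • Hs : Subgroup G).subgroupOf C) := by
    haveI := hnil'
    exact Group.nilpotent_of_mulEquiv (Subgroup.subgroupOfEquivOfLe hHsC).symm
  have e1 : Nat.card ((MulAut.conj g₁ • Hs : Subgroup G).subgroupOf C) = Nat.card Hs :=
    (Nat.card_congr (Subgroup.subgroupOfEquivOfLe hHsC).toEquiv).trans (card_conj_smul g₁ Hs)
  have e2 : Nat.card ((Subgroup.closure Sσ).subgroupOf C) = Nat.card (Subgroup.closure Sσ) :=
    Nat.card_congr (Subgroup.subgroupOfEquivOfLe hcent).toEquiv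
  have hHall : (Nat.card ((MulAut.conj g₁ • Hs : Subgroup G).subgroupOf C)).Coprime
      ((MulAut.conj g₁ • Hs : Subgroup G).subgroupOf C).index := by
    rw [e1]
    apply coprime_of_forall_prime_hp
    intro p hp h1 h2
    have h3 : ((MulAut.conj g₁ • Hs : Subgroup G).subgroupOf C).index ∣ Hs.index := by
      rw [← index_conj_smul_hp g₁ Hs]
      exact Dvd.intro _ (Subgroup.relIndex_mul_index hHsC)
    exact D.hsi p hp (D.hs p hp h1) (h2.trans h3)
  obtain ⟨c, hc⟩ := wielandt ((MulAut.conj g₁ • Hs : Subgroup G).subgroupOf C)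
    ((Subgroup.closure Sσ).subgroupOf C) hnilC hHall (by
      intro p hp h
      rw [e2] at h
      rw [e1]
      exact D.dvd_card_hs hp (hσσ p hp h) h)
  refine ⟨(c : G) * g₁, ?_⟩
  refine hKsup.trans (sup_le ?_ ?_)
  · intro u hu
    rw [mem_conj_smul]
    have h0 : (⟨u, hcent hu⟩ : C) ∈ (Subgroup.closure Sσ).subgroupOf C := by
      rw [Subgroup.mem_subgroupOf]
      exact hu
    have h1 := (mem_conj_smul c _ _).mp (hc h0)
    rw [Subgroup.mem_subgroupOf] at h1
    have h1' : (c : G)⁻¹ * u * c ∈ (MulAut.conj g₁ • Hs : Subgroup G) := by simpa using h1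
    have h2 := (mem_conj_smul g₁ _ Hs).mp h1'
    have h3 : ((c : G) * g₁)⁻¹ * u * ((c : G) * g₁) = g₁⁻¹ * ((c : G)⁻¹ * u * c) * g₁ := by group
    rw [h3]
    exact (le_sup_left : Hs ≤ Hs ⊔ Ht) h2
  · intro u hu
    rw [mem_conj_smul]
    have hcu : u * (c : G) = (c : G) * u := by
      have hcC : (c : G) ∈ Subgroup.centralizer ((Subgroup.closure Sτ : Subgroup G) : Set G) := by
        rw [← hC]
        exact c.2
      exact Subgroup.mem_centralizer_iff.mp hcC u hu
    have h2 := (mem_conj_smul g₁ u Ht).mp (hg₁ hu)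
    have h3 : ((c : G) * g₁)⁻¹ * u * ((c : G) * g₁) = g₁⁻¹ * u * g₁ := by
      calc ((c : G) * g₁)⁻¹ * u * ((c : G) * g₁) = g₁⁻¹ * ((c : G)⁻¹ * (u * c)) * g₁ := by group
        _ = g₁⁻¹ * ((c : G)⁻¹ * ((c : G) * u)) * g₁ := by rw [hcu]
        _ = g₁⁻¹ * u * g₁ := by group
    rw [h3]
    exact (le_sup_right : Ht ≤ Hs ⊔ Ht) h2

end

/-- index of a factor of a Hall subgroup `Hs ⊔ Ht` -/
theorem hall_factor_index_hp {G : Type*} [Group G] [Finite G] (σ τ : Set ℕ)
    (hdisj : ∀ p : ℕ, p ∈ σ → p ∈ τ → False) (Hs Ht : Subgroup G)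
    (ht : ∀ p : ℕ, p.Prime → p ∣ Nat.card Ht → p ∈ τ)
    (hcomm : ∀ a ∈ Hs, ∀ b ∈ Ht, a * b = b * a)
    (hidx : ∀ p : ℕ, p.Prime → p ∈ σ → ¬ p ∣ (Hs ⊔ Ht : Subgroup G).index) :
    ∀ p : ℕ, p.Prime → p ∈ σ → ¬ p ∣ Hs.index := by
  intro p hp hpσ hpd
  have h1 : Hs.relIndex (Hs ⊔ Ht) * (Hs ⊔ Ht : Subgroup G).index = Hs.index :=
    Subgroup.relIndex_mul_index le_sup_left
  rw [← h1] at hpd
  rcases (Nat.Prime.dvd_mul hp).mp hpd with h | h
  · have hZ : Ht ≤ Subgroup.normalizer (Hs : Set G) := by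
      intro b hb
      apply Subgroup.mem_normalizer_fintype
      intro a ha
      have h2 : b * a * b⁻¹ = a := by rw [← hcomm a ha b hb]; group
      rw [h2]
      exact ha
    have h2 : Nat.card Hs * Hs.relIndex (Hs ⊔ Ht) = Nat.card (Hs ⊔ Ht : Subgroup G) :=
      card_mul_relIndex_uni le_sup_left
    have h3 := card_sup_dvd_hp Hs Ht hZ
    rw [← h2] at h3
    have h4 : Hs.relIndex (Hs ⊔ Ht) ∣ Nat.card Ht :=
      (Nat.mul_dvd_mul_iff_left Nat.card_pos).mp h3
    exact hdisj p hpσ (ht p hp (h.trans h4))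
  · exact hidx p hp hpσ h

end Cfsg.Agent.Lib.helper1
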