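import Mathlib
import Cfsg.Agent.Lib.helper1.NilpMax
import Cfsg.Agent.Lib.helper1.HallCompl
import Cfsg.Agent.Lib.helper1.SZ
import Cfsg.Agent.S0078
import Cfsg.Agent.Lib.lead.Tate

/-!
# Deskins / Janko: a finite group with a nilpotent maximal subgroup of class at most two is solvable

A generic version of the Thompson argument of `NilpMax`, parametrised by a source of normal
`p`-complements, and its instance for class two (via `p`-normality and Grün's second theorem).
-/

set_option autoImplicit false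

namespace Cfsg.Agent.Lib.helper1

open Subgroup
open scoped Pointwise commutatorElement

universe u

theorem centralizer_eq_of_coatom {G : Type*} [Group G] (M : Subgroup G) (hmax : IsCoatom M)
    (hcore : M.normalCore = ⊥) (z : G) (hzM : z ∈ M) (hz1 : z ≠ 1)
    (hle : M ≤ centralizer ({z} : Set G)) : centralizer ({z} : Set G) = M := by
  rcases eq_or_lt_of_le hle with h | h
  · exact h.symm
  · exfalso
    have htop := hmax.2 _ h
    have hzc : ∀ g : G, g * z = z * g := by
      intro g
      have h1 : g ∈ centralizer ({z} : Set G) := by rw [htop]; trivial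
      exact ((Subgroup.mem_centralizer_iff.mp h1) _ rfl).symm
    haveI hn : (zpowers z).Normal := by
      refine ⟨fun x hx g => ?_⟩
      obtain ⟨i, rfl⟩ := mem_zpowers_iff.mp hx
      have h2 : g * z ^ i * g⁻¹ = z ^ i := by
        have h3 : Commute g (z ^ i) := (show Commute g z from hzc g).zpow_right i
        rw [h3.eq]; group
      rw [h2]; exact hx
    have h4 : zpowers z ≤ M.normalCore :=
      Subgroup.normal_le_normalCore.mpr (by rw [zpowers_le]; exact hzM)
    rw [hcore] at h4
    exact hz1 (by simpa using h4 (mem_zpowers _))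

/-- Generic form: if (in the core-free case) the group has a normal `p`-complement for every
prime dividing the order of the nilpotent maximal subgroup `M`, then `G` is solvable. -/
theorem nilp_max_generic
    (Pr : ∀ (G : Type u) [Group G], Subgroup G → Prop)
    (hquot : ∀ (G : Type u) [Group G] [Finite G] (N M : Subgroup G) [N.Normal], N ≤ M → Pr G M →
       Pr (G ⧸ N) (M.map (QuotientGroup.mk' N)))
    (hnpc : ∀ (G : Type u) [Group G] [Finite G] (M : Subgroup G), IsCoatom M →
       Group.IsNilpotent M → Pr G M → M.normalCore = ⊥ →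
       (∀ W : Subgroup G, W ≤ M → W ≠ ⊥ → M ≤ normalizer (W : Set G) →
          normalizer (W : Set G) = M) →
       ∀ (p : ℕ) [Fact p.Prime] (P₀ : Sylow p M) (Q : Sylow p G),
       (Q : Subgroup G) = (P₀ : Subgroup M).map M.subtype →
       (Q : Subgroup G) ≠ ⊥ → M ≤ normalizer ((Q : Subgroup G) : Set G) →
       Cfsg.HasNormalPComplement p G)
    (n : ℕ) : ∀ (G : Type u) [Group G] [Finite G], Nat.card G ≤ n →
    ∀ M : Subgroup G, IsCoatom M → Group.IsNilpotent M → Pr G M → Group.IsSolvable G := by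
  induction n with
  | zero =>
    intro G _ _ h
    exact absurd h (by have := Nat.card_pos (α := G); omega)
  | succ n ih =>
    intro G _ _ hn M hmax hnil hP
    by_cases hcore : M.normalCore = ⊥
    swap
    · obtain ⟨N, hN⟩ : ∃ N : Subgroup G, N = M.normalCore := ⟨_, rfl⟩
      haveI : N.Normal := by rw [hN]; exact Subgroup.normalCore_normal M
      have hNM : N ≤ M := by rw [hN]; exact Subgroup.normalCore_le M
      have hNne : N ≠ ⊥ := by rw [hN]; exact hcore
      have hlt : Nat.card (G ⧸ N) < Nat.card G := by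
        have h1 : Nat.card G = Nat.card (G ⧸ N) * Nat.card N :=
          Subgroup.card_eq_card_quotient_mul_card_subgroup N
        have h2 : 1 < Nat.card N := (Subgroup.one_lt_card_iff_ne_bot N).mpr hNne
        have h3 : 0 < Nat.card (G ⧸ N) := Nat.card_pos
        nlinarith
      have hQ : Group.IsSolvable (G ⧸ N) := by
        apply ih (G ⧸ N) (by omega) (M.map (QuotientGroup.mk' N))
        · exact isCoatom_map_mk N M hNM hmax
        · haveI := hnil
          exact nilpotent_of_surjective ((QuotientGroup.mk' N).subgroupMap M)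
            ((QuotientGroup.mk' N).subgroupMap_surjective M)
        · exact hquot G N M hNM hP
      haveI : Group.IsSolvable N := by
        haveI := hnil
        exact solvable_of_solvable_injective (f := Subgroup.inclusion hNM)
          (Subgroup.inclusion_injective hNM)
      exact solvable_of_ker_le_range N.subtype (QuotientGroup.mk' N)
        (by rw [QuotientGroup.ker_mk', Subgroup.range_subtype])
    · by_cases hMbot : M = ⊥
      · subst hMbot
        by_cases hg : ∃ g : G, g ≠ 1
        · obtain ⟨g, hg⟩ := hg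
          have h1 : zpowers g = ⊤ :=
            hmax.2 _ (bot_lt_iff_ne_bot.mpr (by simpa using hg))
          apply isSolvable_of_comm
          intro a b
          have ha : a ∈ zpowers g := by rw [h1]; trivial
          have hb : b ∈ zpowers g := by rw [h1]; trivial
          obtain ⟨i, rfl⟩ := mem_zpowers_iff.mp ha
          obtain ⟨j, rfl⟩ := mem_zpowers_iff.mp hb
          exact (Commute.zpow_zpow_self g i j).eq
        · push Not at hg
          haveI : Subsingleton G := ⟨fun a b => by rw [hg a, hg b]⟩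
          infer_instance
      have hnorm : ∀ W : Subgroup G, W ≤ M → W ≠ ⊥ → M ≤ normalizer (W : Set G) →
          normalizer (W : Set G) = M := by
        intro W hWM hW hMW
        rcases eq_or_lt_of_le hMW with h | h
        · exact h.symm
        · exfalso
          have htop := hmax.2 _ h
          haveI : W.Normal := Subgroup.normalizer_eq_top_iff.mp htop
          have : W ≤ M.normalCore := Subgroup.normal_le_normalCore.mpr hWM
          rw [hcore] at this
          exact hW (le_bot_iff.mp this)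
      have hA : ∀ p : ℕ, p.Prime → p ∣ Nat.card M →
          ∃ K : Subgroup G, K.Normal ∧ Nat.Coprime (Nat.card K) p ∧
            ∀ D : Subgroup G, ⁅D, D⁆ = D → D ≤ K := by
        intro p hp hpM
        haveI : Fact p.Prime := ⟨hp⟩
        have hnormal : ∀ (q : ℕ) [Fact q.Prime] (S : Sylow q M), (S : Subgroup M).Normal :=
          ((Group.isNilpotent_of_finite_tfae (G := M)).out 0 3).mp hnil
        obtain ⟨P₀⟩ : Nonempty (Sylow p M) := inferInstance
        haveI := hnormal p P₀
        have hPGM : (P₀ : Subgroup M).map M.subtype ≤ M := Subgroup.map_subtype_le _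
        have hPGne : (P₀ : Subgroup M).map M.subtype ≠ ⊥ := by
          rw [Ne, Subgroup.map_eq_bot_iff_of_injective _ M.subtype_injective]
          exact P₀.ne_bot_of_dvd_card hpM
        have hMPG : M ≤ normalizer (((P₀ : Subgroup M).map M.subtype : Subgroup G) : Set G) := by
          have h1 := Subgroup.le_normalizer_map (H := (P₀ : Subgroup M)) M.subtype
          rw [Subgroup.normalizer_eq_top_iff.mpr inferInstance, ← MonoidHom.range_eq_map,
            Subgroup.range_subtype] at h1
          exact h1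
        have hNPG := hnorm _ hPGM hPGne hMPG
        obtain ⟨Q, hQ⟩ := exists_sylow_eq_of_normalizer_eq M P₀ hNPG
        have hQne : (Q : Subgroup G) ≠ ⊥ := by rw [hQ]; exact hPGne
        have hMQ : M ≤ normalizer ((Q : Subgroup G) : Set G) := by rw [hQ]; exact hMPG
        have hG : Cfsg.HasNormalPComplement p G :=
          hnpc G M hmax hnil hP hcore hnorm p P₀ Q hQ hQne hMQ
        rw [Cfsg.Agent.S0072.hasNormalPComplement_iff] at hG
        obtain ⟨K, hKn, hKc, a, ha⟩ := hG
        refine ⟨K, hKn, hKc, ?_⟩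
        haveI := hKn
        have hpg : IsPGroup p (G ⧸ K) := IsPGroup.of_card (n := a) (by rw [← ha]; rfl)
        haveI := hpg.isNilpotent
        intro D hD
        exact perfect_le_of_solvable_quotient D hD K inferInstance
      obtain ⟨k, hk⟩ := exists_derivedSeries_stable G
      obtain ⟨D, hD⟩ : ∃ D : Subgroup G, D = derivedSeries G k := ⟨_, rfl⟩
      haveI hDn : D.Normal := by rw [hD]; exact derivedSeries_normal G k
      have hDperf : ⁅D, D⁆ = D := by rw [hD, ← derivedSeries_succ]; exact hk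
      have hDM : D ⊓ M = ⊥ := by
        by_contra hne
        obtain ⟨p, hp, hpd⟩ := Nat.exists_prime_and_dvd
          (show Nat.card (D ⊓ M : Subgroup G) ≠ 1 from
            fun h => hne (Subgroup.eq_bot_of_card_eq _ h))
        have hpM : p ∣ Nat.card M := hpd.trans (Subgroup.card_dvd_of_le inf_le_right)
        obtain ⟨K, hKn, hKc, hKs⟩ := hA p hp hpM
        have hDK : D ≤ K := hKs D hDperf
        have hpK : p ∣ Nat.card K :=
          hpd.trans (Subgroup.card_dvd_of_le (inf_le_left.trans hDK))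
        exact hp.one_lt.ne' (Nat.Coprime.eq_one_of_dvd hKc.symm hpK)
      haveI : Nontrivial M := (Subgroup.nontrivial_iff_ne_bot M).mpr hMbot
      haveI := hnil
      have hZ : center M ≠ ⊥ := Group.IsNilpotent.center_ne_bot M
      obtain ⟨p, hp, hpd⟩ := Nat.exists_prime_and_dvd
        (show Nat.card (center M) ≠ 1 from fun h => hZ (Subgroup.eq_bot_of_card_eq _ h))
      haveI : Fact p.Prime := ⟨hp⟩
      obtain ⟨z, hz⟩ := exists_prime_orderOf_dvd_card' p hpd
      have hzne : ((z : M) : G) ≠ 1 := by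
        intro h1
        have h2 : z = 1 := Subtype.ext (Subtype.ext h1)
        rw [h2, orderOf_one] at hz
        exact hp.one_lt.ne hz
      have hzpow : ((z : M) : G) ^ p = 1 := by
        have h1 : z ^ p = 1 := by rw [← hz]; exact pow_orderOf_eq_one z
        have h2 : (((z ^ p : center M) : M) : G) = 1 := by rw [h1]; rfl
        simpa using h2
      have hzM : ∀ m ∈ M, m * ((z : M) : G) = ((z : M) : G) * m := by
        intro m hm
        have h1 := (Subgroup.mem_center_iff.mp z.2) ⟨m, hm⟩
        exact congrArg Subtype.val h1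
      have hCz : centralizer ({((z : M) : G)} : Set G) = M := by
        apply centralizer_eq_of_coatom M hmax hcore _ (z : M).2 hzne
        intro m hm
        rw [Subgroup.mem_centralizer_iff]
        intro x hx
        rw [Set.mem_singleton_iff.mp hx]
        exact (hzM m hm).symm
      have hφ : ∀ d : D, (((MulAut.conjNormal ((z : M) : G) : MulAut D) d : D) : G)
          = ((z : M) : G) * d * ((z : M) : G)⁻¹ := fun d => by simp
      have hFP : FP p D (MulAut.conjNormal ((z : M) : G) : MulAut D) := by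
        constructor
        · intro d hd
          have h1 : ((z : M) : G) * (d : G) * ((z : M) : G)⁻¹ = d := by rw [← hφ, hd]
          have h2 : (d : G) ∈ centralizer ({((z : M) : G)} : Set G) := by
            rw [Subgroup.mem_centralizer_iff]
            intro x hx
            rw [Set.mem_singleton_iff.mp hx]
            calc ((z : M) : G) * d = ((z : M) : G) * d * ((z : M) : G)⁻¹ * ((z : M) : G) := by
                  group
              _ = d * ((z : M) : G) := by rw [h1]
          rw [hCz] at h2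
          have h3 : (d : G) ∈ D ⊓ M := ⟨d.2, h2⟩
          rw [hDM] at h3
          exact Subtype.ext (by simpa using h3)
        · have h1 : (MulAut.conjNormal ((z : M) : G) : MulAut D) ^ p
              = MulAut.conjNormal (((z : M) : G) ^ p) := (map_pow MulAut.conjNormal _ p).symm
          rw [h1, hzpow, map_one]
      have hDnil : Group.IsNilpotent D := fpf_nilpotent p hp D _ hFP
      haveI : Group.IsSolvable D := by haveI := hDnil; infer_instance
      haveI : Group.IsSolvable (G ⧸ D) := ⟨⟨k, by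
        rw [← map_derivedSeries_eq (QuotientGroup.mk'_surjective D) k]
        exact (Subgroup.map_eq_bot_iff _).mpr (by rw [QuotientGroup.ker_mk', hD])⟩⟩
      exact solvable_of_ker_le_range D.subtype (QuotientGroup.mk' D)
        (by rw [QuotientGroup.ker_mk', Subgroup.range_subtype])

/-- In a class-two situation, a subgroup `S'` normalizes `S ⊓ S'` as soon as the latter is the
centralizer in `S'` of an element `z ∈ S'` central in `S`. -/
theorem normalizer_inf_of_class_two {G : Type*} [Group G] (S S' : Subgroup G)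
    (hcl : ∀ a ∈ S', ∀ b ∈ S', ∀ c ∈ S', a * b * a⁻¹ * b⁻¹ * c = c * (a * b * a⁻¹ * b⁻¹))
    (z : G) (hzS' : z ∈ S') (hzS : ∀ x ∈ S, x * z = z * x)
    (H1 : ∀ y ∈ S', y * z = z * y → y ∈ S) :
    S' ≤ normalizer ((S ⊓ S' : Subgroup G) : Set G) := by
  have key : ∀ y ∈ S', ∀ d ∈ S ⊓ S', y * d * y⁻¹ ∈ S ⊓ S' := by
    intro y hy d hd
    have hyd : y * d * y⁻¹ ∈ S' := S'.mul_mem (S'.mul_mem hy hd.2) (S'.inv_mem hy)
    refine ⟨H1 _ hyd ?_, hyd⟩
    have h1 := hcl d⁻¹ (S'.inv_mem hd.2) y hy z hzS'
    rw [inv_inv] at h1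
    have h2 := hzS d hd.1
    calc y * d * y⁻¹ * z = d * ((d⁻¹ * y * d * y⁻¹) * z) := by group
      _ = d * (z * (d⁻¹ * y * d * y⁻¹)) := by rw [h1]
      _ = (d * z) * (d⁻¹ * y * d * y⁻¹) := by group
      _ = (z * d) * (d⁻¹ * y * d * y⁻¹) := by rw [h2]
      _ = z * (y * d * y⁻¹) := by group
  intro y hy
  rw [Subgroup.mem_normalizer_iff]
  intro d
  constructor
  · exact key y hy d
  · intro h
    have h1 := key y⁻¹ (S'.inv_mem hy) _ h
    have e : y⁻¹ * (y * d * y⁻¹) * y⁻¹⁻¹ = d := by group
    rw [e] at h1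
    exact h1

/-- The normal `p`-complement in the class-two case, by `p`-normality and Grün's theorem. -/
theorem npc_of_class_two {G : Type u} [Group G] [Finite G] (M : Subgroup G) (hmax : IsCoatom M)
    (hnil : Group.IsNilpotent M)
    (hcl : ∀ a ∈ M, ∀ b ∈ M, ∀ c ∈ M, a * b * a⁻¹ * b⁻¹ * c = c * (a * b * a⁻¹ * b⁻¹))
    (hcore : M.normalCore = ⊥)
    (hnorm : ∀ W : Subgroup G, W ≤ M → W ≠ ⊥ → M ≤ normalizer (W : Set G) →
      normalizer (W : Set G) = M)
    (p : ℕ) [Fact p.Prime] (P₀ : Sylow p M) (Q : Sylow p G)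
    (hQ : (Q : Subgroup G) = (P₀ : Subgroup M).map M.subtype)
    (hQne : (Q : Subgroup G) ≠ ⊥) (hMQ : M ≤ normalizer ((Q : Subgroup G) : Set G)) :
    Cfsg.HasNormalPComplement p G := by
  have hp : p.Prime := Fact.out
  have hQM : (Q : Subgroup G) ≤ M := by rw [hQ]; exact Subgroup.map_subtype_le _
  have hnormal : ∀ (q : ℕ) [Fact q.Prime] (S : Sylow q M), (S : Subgroup M).Normal :=
    ((Group.isNilpotent_of_finite_tfae (G := M)).out 0 3).mp hnil
  have hpel : ∀ (R : Sylow p G), ∀ y ∈ (R : Subgroup G), ∃ k : ℕ, orderOf y = p ^ k := by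
    intro R y hy
    obtain ⟨k, hk⟩ := (IsPGroup.iff_orderOf.mp R.isPGroup') ⟨y, hy⟩
    exact ⟨k, by rw [← hk, Subgroup.orderOf_mk]⟩
  have hE1 : ∀ m ∈ M, (∃ k : ℕ, orderOf m = p ^ k) → m ∈ (Q : Subgroup G) := by
    rintro m hm ⟨k, hk⟩
    have h1 : IsPGroup p (zpowers m) := IsPGroup.of_card (n := k) (by rw [Nat.card_zpowers, hk])
    have h2 : zpowers m ≤ normalizer ((Q : Subgroup G) : Set G) := by
      rw [zpowers_le]; exact hMQ hm
    have h3 : IsPGroup p (zpowers m ⊔ (Q : Subgroup G) : Subgroup G) :=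
      h1.to_sup_of_normal_right' Q.isPGroup' h2
    have h4 := Q.is_maximal' h3 le_sup_right
    have h5 : m ∈ zpowers m ⊔ (Q : Subgroup G) :=
      (le_sup_left : zpowers m ≤ zpowers m ⊔ (Q : Subgroup G)) (mem_zpowers m)
    rw [h4] at h5
    exact h5
  have hFc : ∀ m ∈ M, (orderOf m).Coprime p → ∀ x ∈ (Q : Subgroup G), m * x = x * m := by
    intro m hm hcop x hx
    rw [hQ] at hx
    obtain ⟨x₀, hx₀, rfl⟩ := hx
    have h1 := Cfsg.Agent.Lib.lead.mem_centralizer_sylow_of_normal hnormal P₀ ⟨m, hm⟩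
      (by rw [Subgroup.orderOf_mk]; exact hcop)
    have h2 := (Subgroup.mem_centralizer_iff.mp h1) x₀ hx₀
    exact (congrArg Subtype.val h2).symm
  have hFd : ∀ C : Subgroup G, (Q : Subgroup G) ≤ C →
      (∀ m ∈ M, (orderOf m).Coprime p → m ∈ C) → M ≤ C := by
    intro C hQC hC
    have h1 : C.subgroupOf M = ⊤ := by
      apply eq_top_of_pow_dvd
      intro r hr
      by_cases hrp : r = p
      · subst hrp
        rw [← P₀.card_eq_multiplicity]
        apply Subgroup.card_dvd_of_le
        intro x hx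
        rw [Subgroup.mem_subgroupOf]
        apply hQC; rw [hQ]; exact ⟨x, hx, rfl⟩
      · haveI : Fact r.Prime := ⟨hr⟩
        obtain ⟨S⟩ : Nonempty (Sylow r M) := inferInstance
        rw [← S.card_eq_multiplicity]
        apply Subgroup.card_dvd_of_le
        intro x hx
        rw [Subgroup.mem_subgroupOf]
        apply hC _ x.2
        obtain ⟨k, hk⟩ := (IsPGroup.iff_orderOf.mp S.isPGroup') ⟨x, hx⟩
        rw [Subgroup.orderOf_mk] at hk
        rw [Subgroup.orderOf_coe, hk]
        exact Nat.Coprime.pow_left k ((Nat.coprime_primes hr hp).mpr hrp)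
    exact Subgroup.subgroupOf_eq_top.mp h1
  have hcent : ∀ z ∈ (Q : Subgroup G), (∀ x ∈ (Q : Subgroup G), x * z = z * x) → z ≠ 1 →
      centralizer ({z} : Set G) = M := by
    intro z hz hzQ hz1
    apply centralizer_eq_of_coatom M hmax hcore z (hQM hz) hz1
    apply hFd
    · intro x hx
      rw [Subgroup.mem_centralizer_iff]; intro y hy; rw [Set.mem_singleton_iff.mp hy]
      exact (hzQ x hx).symm
    · intro m hm hcop
      rw [Subgroup.mem_centralizer_iff]; intro y hy; rw [Set.mem_singleton_iff.mp hy]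
      exact (hFc m hm hcop z hz).symm
  have hclQ : ∀ (g : G), ∀ a ∈ MulAut.conj g • (Q : Subgroup G),
      ∀ b ∈ MulAut.conj g • (Q : Subgroup G), ∀ c ∈ MulAut.conj g • (Q : Subgroup G),
      a * b * a⁻¹ * b⁻¹ * c = c * (a * b * a⁻¹ * b⁻¹) := by
    intro g a ha b hb c hc
    rw [mem_conj_smul] at ha hb hc
    have h := hcl _ (hQM ha) _ (hQM hb) _ (hQM hc)
    have e1 : (g⁻¹ * a * g) * (g⁻¹ * b * g) * (g⁻¹ * a * g)⁻¹ * (g⁻¹ * b * g)⁻¹ * (g⁻¹ * c * g)
        = g⁻¹ * (a * b * a⁻¹ * b⁻¹ * c) * g := by group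
    have e2 : (g⁻¹ * c * g) * ((g⁻¹ * a * g) * (g⁻¹ * b * g) * (g⁻¹ * a * g)⁻¹ * (g⁻¹ * b * g)⁻¹)
        = g⁻¹ * (c * (a * b * a⁻¹ * b⁻¹)) * g := by group
    rw [e1, e2] at h
    exact mul_left_cancel (mul_right_cancel h)
  have hZne : (Q : Subgroup G) ⊓ centralizer ((Q : Subgroup G) : Set G) ≠ ⊥ :=
    (ZZ p).ne_bot G (Q : Subgroup G) Q.isPGroup' hQne
  obtain ⟨⟨z, hzZ⟩, hz1'⟩ := (Subgroup.ne_bot_iff_exists_ne_one).mp hZne
  have hz1 : z ≠ 1 := fun h => hz1' (Subtype.ext h)
  have hzQ : z ∈ (Q : Subgroup G) := hzZ.1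
  have hzc : ∀ x ∈ (Q : Subgroup G), x * z = z * x :=
    fun x hx => (Subgroup.mem_centralizer_iff.mp hzZ.2) x hx
  have hCz := hcent z hzQ hzc hz1
  have huniq : ∀ Q' : Sylow p G,
      (Q : Subgroup G) ⊓ centralizer ((Q : Subgroup G) : Set G) ≤ (Q' : Subgroup G) →
      (Q' : Subgroup G) = (Q : Subgroup G) := by
    intro Q' hZQ'
    obtain ⟨g, hg⟩ := MulAction.exists_smul_eq G Q Q'
    have hQ'eq : (Q' : Subgroup G) = MulAut.conj g • (Q : Subgroup G) := by rw [← hg]; rfl
    have hzQ' : z ∈ (Q' : Subgroup G) := hZQ' hzZ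
    have hw_mem : g * z * g⁻¹ ∈ (Q' : Subgroup G) := by
      rw [hQ'eq, mem_conj_smul]
      have e : g⁻¹ * (g * z * g⁻¹) * g = z := by group
      rw [e]; exact hzQ
    have hw_cent : ∀ y ∈ (Q' : Subgroup G), y * (g * z * g⁻¹) = (g * z * g⁻¹) * y := by
      intro y hy
      rw [hQ'eq, mem_conj_smul] at hy
      have h := hzc _ hy
      calc y * (g * z * g⁻¹) = g * ((g⁻¹ * y * g) * z) * g⁻¹ := by group
        _ = g * (z * (g⁻¹ * y * g)) * g⁻¹ := by rw [h]
        _ = (g * z * g⁻¹) * y := by group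
    have H1 : ∀ y ∈ (Q' : Subgroup G), y * z = z * y → y ∈ (Q : Subgroup G) := by
      intro y hy hyz
      apply hE1
      · rw [← hCz, Subgroup.mem_centralizer_iff]
        intro x hx; rw [Set.mem_singleton_iff.mp hx]; exact hyz.symm
      · exact hpel Q' y hy
    have H1' : ∀ x ∈ (Q : Subgroup G), x * (g * z * g⁻¹) = (g * z * g⁻¹) * x →
        x ∈ (Q' : Subgroup G) := by
      intro x hx hxw
      rw [hQ'eq, mem_conj_smul]
      apply hE1
      · rw [← hCz, Subgroup.mem_centralizer_iff]
        intro t ht; rw [Set.mem_singleton_iff.mp ht]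
        calc z * (g⁻¹ * x * g) = g⁻¹ * ((g * z * g⁻¹) * x) * g := by group
          _ = g⁻¹ * (x * (g * z * g⁻¹)) * g := by rw [hxw]
          _ = (g⁻¹ * x * g) * z := by group
      · obtain ⟨k, hk⟩ := hpel Q x hx
        refine ⟨k, ?_⟩
        rw [← hk]
        have e : g⁻¹ * x * g = (MulAut.conj g⁻¹) x := by simp
        rw [e, MulEquiv.orderOf_eq]
    have hwQ : g * z * g⁻¹ ∈ (Q : Subgroup G) := H1 _ hw_mem (hw_cent z hzQ').symm
    have hN1 : (Q' : Subgroup G) ≤
        normalizer (((Q : Subgroup G) ⊓ (Q' : Subgroup G) : Subgroup G) : Set G) :=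
      normalizer_inf_of_class_two (Q : Subgroup G) (Q' : Subgroup G)
        (by rw [hQ'eq]; exact hclQ g) z hzQ' hzc H1
    have hN2 : (Q : Subgroup G) ≤
        normalizer (((Q' : Subgroup G) ⊓ (Q : Subgroup G) : Subgroup G) : Set G) :=
      normalizer_inf_of_class_two (Q' : Subgroup G) (Q : Subgroup G)
        (fun a ha b hb c hc => hcl a (hQM ha) b (hQM hb) c (hQM hc)) (g * z * g⁻¹) hwQ
        hw_cent H1'
    rw [inf_comm] at hN2
    have hDne : (Q : Subgroup G) ⊓ (Q' : Subgroup G) ≠ ⊥ := fun h => hz1 (by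
      have h1 : z ∈ (Q : Subgroup G) ⊓ (Q' : Subgroup G) := ⟨hzQ, hzQ'⟩
      rw [h] at h1; simpa using h1)
    have hDM : (Q : Subgroup G) ⊓ (Q' : Subgroup G) ≤ M := inf_le_left.trans hQM
    have hMD : M ≤ normalizer (((Q : Subgroup G) ⊓ (Q' : Subgroup G) : Subgroup G) : Set G) := by
      apply hFd _ hN2
      intro m hm hcop
      exact Subgroup.centralizer_le_normalizer _ (by
        rw [Subgroup.mem_centralizer_iff]
        intro d hd
        exact (hFc m hm hcop d hd.1).symm)
    have hND := hnorm _ hDM hDne hMD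
    have hQ'M : (Q' : Subgroup G) ≤ M := by rw [← hND]; exact hN1
    have hQ'Q : (Q' : Subgroup G) ≤ (Q : Subgroup G) :=
      fun y hy => hE1 y (hQ'M hy) (hpel Q' y hy)
    exact (Q'.is_maximal' Q.isPGroup' hQ'Q).symm
  have hn : ∀ Q' : Sylow p G,
      (Q : Subgroup G) ⊓ centralizer ((Q : Subgroup G) : Set G) ≤ (Q' : Subgroup G) →
      (Q' : Subgroup G) ⊓ centralizer ((Q' : Subgroup G) : Set G)
        = (Q : Subgroup G) ⊓ centralizer ((Q : Subgroup G) : Set G) := by
    intro Q' h; rw [huniq Q' h]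
  have hV : normalizer ((((Q : Subgroup G) ⊓ centralizer ((Q : Subgroup G) : Set G)) :
      Subgroup G) : Set G) ≤ M := by
    rw [hnorm _ (inf_le_left.trans hQM) hZne
      (hMQ.trans ((ZZ p).normalizer_le G (Q : Subgroup G)))]
  have h78 := Cfsg.Agent.S0078.result Q hn M hV
  have hRM : (Q : Subgroup G) ⊓ (Cfsg.pResidual p M).map M.subtype = ⊥ := by
    have hMnpc : Cfsg.HasNormalPComplement p M := Cfsg.Agent.Lib.lead.hasNPC_of_nilpotent p hnil
    rw [Cfsg.Agent.S0072.hasNormalPComplement_iff] at hMnpc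
    obtain ⟨K, hKn, hKc, a, ha⟩ := hMnpc
    haveI := hKn
    have hRK : Cfsg.pResidual p M ≤ K := by
      unfold Cfsg.pResidual
      rw [Subgroup.closure_le]
      intro m hm
      have h1 : orderOf (QuotientGroup.mk' K m) ∣ orderOf m := orderOf_map_dvd _ m
      have h2 : orderOf (QuotientGroup.mk' K m) ∣ p ^ a := by
        rw [← ha, Subgroup.index_eq_card]; exact orderOf_dvd_natCard _
      have h3 : orderOf (QuotientGroup.mk' K m) = 1 :=
        Nat.eq_one_of_dvd_coprimes (Nat.Coprime.pow_right a hm) h1 h2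
      rw [orderOf_eq_one_iff] at h3
      exact (QuotientGroup.eq_one_iff m).mp h3
    rw [eq_bot_iff]
    rintro x ⟨hxQ, y, hy, rfl⟩
    have hyK : y ∈ K := hRK hy
    obtain ⟨k, hk⟩ := hpel Q _ hxQ
    have h1 : orderOf y ∣ Nat.card K := by
      have h := orderOf_dvd_natCard (⟨y, hyK⟩ : K)
      rwa [Subgroup.orderOf_mk] at h
    have h2 : orderOf y = p ^ k := by rw [← hk]; exact (Subgroup.orderOf_coe y).symm
    have hc : Nat.Coprime (orderOf y) (Nat.card K) := by
      rw [h2]; exact Nat.Coprime.pow_left k hKc.symm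
    have h3 := Nat.Coprime.eq_one_of_dvd hc h1
    rw [orderOf_eq_one_iff] at h3
    rw [h3]; exact Subgroup.one_mem _
  rw [hRM] at h78
  haveI hRn : (Cfsg.pResidual p G).Normal := Cfsg.Agent.S0075.pResidual_normal p
  refine ⟨Q, Cfsg.pResidual p G, hRn, ?_⟩
  apply Subgroup.isComplement'_of_disjoint_and_mul_eq_univ
  · rw [disjoint_iff, inf_comm]; exact h78
  · rw [← Subgroup.normal_mul, Cfsg.Agent.Lib.lead.pResidual_sup_sylow_eq_top Q, Subgroup.coe_top]

/-- **Deskins / Janko**: a finite group with a nilpotent maximal subgroup of class at most two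
is solvable. -/
theorem nilp_max_class_two_solvable {G : Type u} [Group G] [Finite G] (M : Subgroup G)
    (hmax : IsCoatom M) (hnil : Group.IsNilpotent M) (hcl : Group.nilpotencyClass ↥M ≤ 2) :
    Group.IsSolvable G := by
  refine nilp_max_generic
    (fun G _ M => ∀ a ∈ M, ∀ b ∈ M, ∀ c ∈ M, a * b * a⁻¹ * b⁻¹ * c = c * (a * b * a⁻¹ * b⁻¹))
    ?_ ?_ (Nat.card G) G le_rfl M hmax hnil ?_
  · intro G _ _ N M _ hNM h a ha b hb c hc
    obtain ⟨a, ha, rfl⟩ := ha
    obtain ⟨b, hb, rfl⟩ := hb
    obtain ⟨c, hc, rfl⟩ := hc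
    have := congrArg (QuotientGroup.mk' N) (h a ha b hb c hc)
    simpa using this
  · intro G _ _ M hmax hnil h hcore hnorm p _ P₀ Q hQ hQne hMQ
    exact npc_of_class_two M hmax hnil h hcore hnorm p P₀ Q hQ hQne hMQ
  · intro a ha b hb c hc
    have h2 : (⊤ : Subgroup M).lowerCentralSeries 2 = ⊥ :=
      Subgroup.lowerCentralSeries_eq_bot_iff_nilpotencyClass_le.mpr hcl
    have h3 : ⁅⁅(⟨a, ha⟩ : M), (⟨b, hb⟩ : M)⁆, (⟨c, hc⟩ : M)⁆ ∈ (⊤ : Subgroup M).lowerCentralSeries 2 :=
      Subgroup.commutator_mem_commutator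
        (Subgroup.commutator_mem_commutator (Subgroup.mem_top _) (Subgroup.mem_top _))
        (Subgroup.mem_top _)
    rw [h2, Subgroup.mem_bot] at h3
    have h4 := congrArg Subtype.val h3
    simp only [commutatorElement_def, Subgroup.coe_mul, Subgroup.coe_inv, Subgroup.coe_one] at h4
    calc a * b * a⁻¹ * b⁻¹ * c
        = (a * b * a⁻¹ * b⁻¹ * c * (a * b * a⁻¹ * b⁻¹)⁻¹ * c⁻¹) * (c * (a * b * a⁻¹ * b⁻¹)) := by
          group
      _ = c * (a * b * a⁻¹ * b⁻¹) := by rw [h4, one_mul]

end Cfsg.Agent.Lib.helper1
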