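import Mathlib
import Cfsg.Prelude.Def_CaseTheorems
import Cfsg.Agent.S0065
import Cfsg.Agent.Lib.helper1.Dihedral
import Cfsg.Agent.Lib.helper1.Quat
import Cfsg.Agent.Lib.helper1.NormAb

set_option autoImplicit false

namespace Cfsg.Agent.Lib.helper1

open Subgroup

/-- Common setup: a self-centralizing cyclic normal subgroup `A = ⟨a⟩` of a `p`-group in which
all normal abelian subgroups are cyclic. -/
theorem cyclic_normal_setup {P : Type*} [Group P] [Finite P] (p : ℕ) [Fact p.Prime]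
    (hP : IsPGroup p P) (hn : ∀ A : Subgroup P, A.Normal → IsMulCommutative A → IsCyclic A)
    (hm : ∃ B : Subgroup P, IsMulCommutative B ∧ ¬ IsCyclic B) :
    ∃ (a : P) (k : ℕ), 2 ≤ k ∧ orderOf a = p ^ k ∧ (zpowers a).Normal ∧
      (∀ g : P, g * a = a * g → g ∈ zpowers a) ∧
      (∀ g h : P, g * h * g⁻¹ * h⁻¹ ∈ zpowers a) ∧ (∃ y, y ∉ zpowers a) := by
  have hpp : p.Prime := Fact.out
  obtain ⟨A, hAn, hAab, hCA⟩ := exists_self_centralizing_normal hP
  have hAcyc : IsCyclic A := hn A hAn ⟨⟨fun x y => Subtype.ext (hAab x x.2 y y.2)⟩⟩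
  obtain ⟨a, ha⟩ := A.isCyclic_iff_exists_zpowers_eq_top.mp hAcyc
  subst ha
  have haA : a ∈ zpowers a := Subgroup.mem_zpowers a
  obtain ⟨k, hk⟩ : ∃ k, orderOf a = p ^ k := by
    obtain ⟨k, hk⟩ := hP a
    obtain ⟨j, -, hj⟩ := (Nat.dvd_prime_pow hpp).mp (orderOf_dvd_of_pow_eq_one hk)
    exact ⟨j, hj⟩
  have hPA : ∃ y, y ∉ zpowers a := by
    by_contra hcon; push Not at hcon
    have hAtop : zpowers a = ⊤ := (Subgroup.eq_top_iff' _).mpr hcon
    obtain ⟨B, hBab, hBnc⟩ := hm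
    apply hBnc
    have hPcyc : IsCyclic P := by
      rw [isCyclic_iff_exists_zpowers_eq_top]; exact ⟨a, hAtop⟩
    infer_instance
  have hexp : ∀ g : P, ∃ r : ℤ, a ^ r = g * a * g⁻¹ := by
    intro g
    exact Subgroup.mem_zpowers_iff.mp (hAn.conj_mem a haA g)
  have hmemA : ∀ g : P, g * a = a * g → g ∈ zpowers a := by
    intro g hg
    rw [← hCA, Subgroup.mem_centralizer_iff]
    intro c hc
    rw [SetLike.mem_coe] at hc
    obtain ⟨i, rfl⟩ := Subgroup.mem_zpowers_iff.mp hc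
    have h : Commute g a := hg
    exact (h.zpow_right i).eq.symm
  have hcomm' : ∀ g h : P, g⁻¹ * h⁻¹ * g * h ∈ zpowers a := by
    intro g h
    obtain ⟨r₁, hr₁⟩ := hexp g
    obtain ⟨r₂, hr₂⟩ := hexp h
    have e : (g * h) * a * (g * h)⁻¹ = (h * g) * a * (h * g)⁻¹ := by
      have e1 : (g * h) * a * (g * h)⁻¹ = g * (h * a * h⁻¹) * g⁻¹ := by group
      have e2 : (h * g) * a * (h * g)⁻¹ = h * (g * a * g⁻¹) * h⁻¹ := by group
      rw [e1, e2, ← hr₂, ← hr₁, ← conj_zpow, ← conj_zpow, ← hr₁, ← hr₂, ← zpow_mul, ← zpow_mul,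
        mul_comm]
    apply hmemA
    calc g⁻¹ * h⁻¹ * g * h * a = (h * g)⁻¹ * ((g * h) * a * (g * h)⁻¹) * (g * h) := by group
      _ = (h * g)⁻¹ * ((h * g) * a * (h * g)⁻¹) * (g * h) := by rw [e]
      _ = a * (g⁻¹ * h⁻¹ * g * h) := by group
  have hcomm : ∀ g h : P, g * h * g⁻¹ * h⁻¹ ∈ zpowers a := by
    intro g h
    have := hcomm' g⁻¹ h⁻¹
    rwa [inv_inv, inv_inv] at this
  have hk2 : 2 ≤ k := by
    by_contra hk2
    haveI : Group.IsNilpotent P := hP.isNilpotent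
    have hcard : Nat.card (zpowers a) = p ^ k := by rw [Nat.card_zpowers, hk]
    have hAcenter : zpowers a ≤ center P := by
      rcases Nat.lt_or_ge k 1 with h0 | h1
      · have hk0 : k = 0 := by omega
        rw [hk0, pow_zero] at hcard
        rw [Subgroup.card_eq_one.mp hcard]
        exact bot_le
      · have hk1 : k = 1 := by omega
        rw [hk1, pow_one] at hcard
        have hne : zpowers a ≠ ⊥ := by
          intro h
          rw [h, Subgroup.card_bot] at hcard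
          exact hpp.one_lt.ne hcard
        have h1 := Cfsg.Agent.S0065.normal_inf_center_ne_bot (zpowers a) hne
        have h2 : 1 < Nat.card (zpowers a ⊓ center P : Subgroup P) :=
          (Subgroup.one_lt_card_iff_ne_bot _).mpr h1
        have h3 : Nat.card (zpowers a ⊓ center P : Subgroup P) ∣ p := by
          rw [← hcard]; exact Subgroup.card_dvd_of_le inf_le_left
        have h4 : Nat.card (zpowers a ⊓ center P : Subgroup P) = p := by
          rcases (Nat.dvd_prime hpp).mp h3 with h | h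
          · omega
          · exact h
        have h5 : (zpowers a ⊓ center P : Subgroup P) = zpowers a :=
          Subgroup.eq_of_le_of_card_ge inf_le_left (by rw [h4, hcard])
        rw [← h5]; exact inf_le_right
    have htop : Subgroup.centralizer (zpowers a : Set P) = ⊤ :=
      Subgroup.centralizer_eq_top_iff_subset.mpr hAcenter
    obtain ⟨y, hy⟩ := hPA
    apply hy
    rw [← hCA, htop]; trivial
  exact ⟨a, k, hk2, hk, hAn, hmemA, hcomm, hPA⟩

/-- Odd case: contradiction. -/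
theorem cyclic_normal_odd_false {P : Type*} [Group P] [Finite P] (p : ℕ) [Fact p.Prime]
    (hp2 : p ≠ 2) (hP : IsPGroup p P)
    (hn : ∀ A : Subgroup P, A.Normal → IsMulCommutative A → IsCyclic A)
    (a : P) (k : ℕ) (hk2 : 2 ≤ k) (hk : orderOf a = p ^ k) (hAn : (zpowers a).Normal)
    (hmemA : ∀ g : P, g * a = a * g → g ∈ zpowers a)
    (hcomm : ∀ g h : P, g * h * g⁻¹ * h⁻¹ ∈ zpowers a) (hPA : ∃ y, y ∉ zpowers a) : False := by
  have hpp : p.Prime := Fact.out
  classical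
  obtain ⟨y, hy⟩ := hPA
  obtain ⟨N, hN⟩ := hP y
  have hex : ∃ j, y ^ p ^ j ∈ zpowers a := ⟨N, by rw [hN]; exact one_mem _⟩
  have hj : y ^ p ^ (Nat.find hex) ∈ zpowers a := Nat.find_spec hex
  have hj0 : Nat.find hex ≠ 0 := by
    intro h0; rw [h0, pow_zero, pow_one] at hj; exact hy hj
  obtain ⟨j', hj'⟩ : ∃ j', Nat.find hex = j' + 1 := ⟨Nat.find hex - 1, by omega⟩
  have hxA : y ^ p ^ j' ∉ zpowers a := Nat.find_min hex (by omega)
  rw [hj'] at hj
  have hxp : (y ^ p ^ j') ^ p ∈ zpowers a := by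
    rw [← pow_mul, ← pow_succ]; exact hj
  obtain ⟨x, hx⟩ : ∃ x, x = y ^ p ^ j' := ⟨_, rfl⟩
  rw [← hx] at hxA hxp
  obtain ⟨r, hr⟩ := Subgroup.mem_zpowers_iff.mp (hAn.conj_mem a (Subgroup.mem_zpowers a) x)
  obtain ⟨s, hs⟩ := Subgroup.mem_zpowers_iff.mp hxp
  obtain ⟨k', rfl⟩ : ∃ k', k = k' + 2 := ⟨k - 2, by omega⟩
  obtain ⟨b, hbp, hbA, hba⟩ :=
    exists_order_p_modular hp2 a x k' hk r s hr hs (fun h => hxA (hmemA x h)) hxA
  have hk1 : orderOf a = p ^ (k' + 1 + 1) := hk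
  have hb1 : b ≠ 1 := by rintro rfl; exact hbA (one_mem _)
  have hbo : orderOf b = p := orderOf_eq_prime hbp hb1
  have hωp : (a ^ (p ^ (k' + 1))) ^ p = 1 := by
    rw [← pow_mul, ← pow_succ, ← hk]; exact pow_orderOf_eq_one a
  have hω1 : a ^ (p ^ (k' + 1)) ≠ 1 := by
    intro h
    have h' := orderOf_dvd_of_pow_eq_one h
    rw [hk] at h'
    have := (Nat.pow_dvd_pow_iff_le_right hpp.one_lt).mp h'
    omega
  have hωo : orderOf (a ^ (p ^ (k' + 1))) = p := orderOf_eq_prime hωp hω1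
  have hωA : zpowers (a ^ (p ^ (k' + 1))) ≤ zpowers a :=
    Subgroup.zpowers_le.mpr (Subgroup.npow_mem_zpowers a _)
  refine false_of_normal_pair hn b (a ^ (p ^ (k' + 1))) p hbo hωo (fun h => hbA (hωA h))
    (modular_conj_omega p a b (k' + 1) (by omega) hk1 hba) ?_ ?_
  · intro g
    have hc := hcomm g b
    have hpow : (g * b * g⁻¹ * b⁻¹ * b ^ 1) ^ p = 1 := by
      have e : g * b * g⁻¹ * b⁻¹ * b ^ 1 = g * b * g⁻¹ := by group
      rw [e, conj_pow, hbp]; group
    have hmem := kc_odd p hp2 a b (k' + 1) (by omega) hk1 hbp hba _ hc 1 hpow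
    have e : g * b * g⁻¹ = (g * b * g⁻¹ * b⁻¹) * b := by group
    rw [e]
    exact mul_mem (le_sup_right (a := zpowers b) hmem)
      (le_sup_left (b := zpowers (a ^ (p ^ (k' + 1)))) (Subgroup.mem_zpowers b))
  · intro g
    have hc : g * a ^ (p ^ (k' + 1)) * g⁻¹ ∈ zpowers a :=
      hAn.conj_mem _ (Subgroup.npow_mem_zpowers a _) g
    have hpow : (g * a ^ (p ^ (k' + 1)) * g⁻¹ * b ^ 0) ^ p = 1 := by
      rw [pow_zero, mul_one, conj_pow, hωp]; group
    have hmem := kc_odd p hp2 a b (k' + 1) (by omega) hk1 hbp hba _ hc 0 hpow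
    exact le_sup_right (a := zpowers b) hmem

/-- The case `p = 2`. -/
theorem cyclic_normal_two {P : Type*} [Group P] [Finite P]
    (hn : ∀ A : Subgroup P, A.Normal → IsMulCommutative A → IsCyclic A)
    (a : P) (k : ℕ) (hk2 : 2 ≤ k) (hk : orderOf a = 2 ^ k) (hAn : (zpowers a).Normal)
    (hmemA : ∀ g : P, g * a = a * g → g ∈ zpowers a)
    (hcomm : ∀ g h : P, g * h * g⁻¹ * h⁻¹ ∈ zpowers a) (hPA : ∃ y, y ∉ zpowers a)
    (hP : IsPGroup 2 P) :
    (∃ n : ℕ, Nonempty (P ≃* QuaternionGroup n)) ∨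
      (∃ n : ℕ, 8 ≤ n ∧ Nonempty (P ≃* DihedralGroup n)) ∨ Cfsg.IsQuasiDihedral P := by
  classical
  have haA : a ∈ zpowers a := Subgroup.mem_zpowers a
  have hexp : ∀ g : P, ∃ r : ℤ, a ^ r = g * a * g⁻¹ :=
    fun g => Subgroup.mem_zpowers_iff.mp (hAn.conj_mem a haA g)
  have hpowa : ∀ i j : ℤ, (2:ℤ) ^ k ∣ i - j → a ^ i = a ^ j := by
    intro i j hij
    have h : a ^ (i - j) = 1 := by
      rw [← orderOf_dvd_iff_zpow_eq_one, hk]; exact_mod_cast hij
    rw [zpow_sub, mul_inv_eq_one] at h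
    exact h
  have hcase3 : ∀ b : P, b ^ 2 = 1 → b ∉ zpowers a → 3 ≤ k →
      b * a * b⁻¹ = a ^ (1 + 2 ^ (k - 1)) → False := by
    intro b hb2 hbA hk3 hba
    obtain ⟨k', rfl⟩ : ∃ k', k = k' + 1 := ⟨k - 1, by omega⟩
    rw [Nat.add_sub_cancel] at hba
    have hb1 : b ≠ 1 := by rintro rfl; exact hbA (one_mem _)
    have hbo : orderOf b = 2 := orderOf_eq_prime hb2 hb1
    have hωp : (a ^ (2 ^ k')) ^ 2 = 1 := by
      rw [← pow_mul, ← pow_succ, ← hk]; exact pow_orderOf_eq_one a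
    have hω1 : a ^ (2 ^ k') ≠ 1 := by
      intro h
      have h' := orderOf_dvd_of_pow_eq_one h
      rw [hk] at h'
      have := (Nat.pow_dvd_pow_iff_le_right (by norm_num : 1 < 2)).mp h'
      omega
    have hωo : orderOf (a ^ (2 ^ k')) = 2 := orderOf_eq_prime hωp hω1
    have hωA : zpowers (a ^ (2 ^ k')) ≤ zpowers a :=
      Subgroup.zpowers_le.mpr (Subgroup.npow_mem_zpowers a _)
    refine false_of_normal_pair hn b (a ^ (2 ^ k')) 2 hbo hωo (fun h => hbA (hωA h))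
      (modular_conj_omega 2 a b k' (by omega) hk hba) ?_ ?_
    · intro g
      have hc := hcomm g b
      have hpow : (g * b * g⁻¹ * b⁻¹ * b) ^ 2 = 1 := by
        have e : g * b * g⁻¹ * b⁻¹ * b = g * b * g⁻¹ := by group
        rw [e, conj_pow, hb2]; group
      have hmem := (kc_two a b k' (by omega) hk hb2 hba _ hc).2 hpow
      have e : g * b * g⁻¹ = (g * b * g⁻¹ * b⁻¹) * b := by group
      rw [e]
      exact mul_mem (le_sup_right (a := zpowers b) hmem)
        (le_sup_left (b := zpowers (a ^ (2 ^ k'))) (Subgroup.mem_zpowers b))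
    · intro g
      have hc : g * a ^ (2 ^ k') * g⁻¹ ∈ zpowers a :=
        hAn.conj_mem _ (Subgroup.npow_mem_zpowers a _) g
      have hpow : (g * a ^ (2 ^ k') * g⁻¹) ^ 2 = 1 := by
        rw [conj_pow, hωp]; group
      have hmem := (kc_two a b k' (by omega) hk hb2 hba _ hc).1 hpow
      exact le_sup_right (a := zpowers b) hmem
  have hana : ∀ y : P, y ∉ zpowers a → y * y ∈ zpowers a → ∀ r : ℤ, a ^ r = y * a * y⁻¹ →
      ∃ t : ℤ, (y * a ^ t) * a * (y * a ^ t)⁻¹ = a ^ r ∧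
      (((2:ℤ) ^ k ∣ r + 1 ∧ (y * a ^ t) ^ 2 = 1) ∨
       ((2:ℤ) ^ k ∣ r + 1 ∧ (y * a ^ t) ^ 2 = a ^ (2 ^ (k - 1))) ∨
       (3 ≤ k ∧ (2:ℤ) ^ k ∣ r + 1 - 2 ^ (k - 1) ∧ (y * a ^ t) ^ 2 = 1)) := by
    intro y hy hyy r hr
    obtain ⟨s, hs⟩ := Subgroup.mem_zpowers_iff.mp hyy
    obtain ⟨t, hF2, hc⟩ := two_core a y k hk2 hk r s hr hs (fun h => hy (hmemA y h))
    refine ⟨t, hF2, ?_⟩
    rcases hc with h | h | ⟨h3, h4, h5⟩ | h
    · exact Or.inl h
    · exact Or.inr (Or.inl h)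
    · exfalso
      have hbA : y * a ^ t ∉ zpowers a := by
        intro h
        apply hy
        have h' := (zpowers a).mul_mem h ((zpowers a).inv_mem ((zpowers a).zpow_mem haA t))
        rwa [mul_inv_cancel_right] at h'
      apply hcase3 (y * a ^ t) h5 hbA h3
      rw [hF2]
      have e : r - ((1 + 2 ^ (k - 1) : ℕ) : ℤ) = r - 1 - 2 ^ (k - 1) := by push_cast; ring
      have := hpowa r ((1 + 2 ^ (k - 1) : ℕ) : ℤ) (by rw [e]; exact h4)
      rw [this, zpow_natCast]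
    · exact Or.inr (Or.inr h)
  have h4k : (4:ℤ) ∣ (2:ℤ) ^ k := by
    have : (2:ℤ) ^ 2 ∣ (2:ℤ) ^ k := pow_dvd_pow 2 hk2
    simpa using this
  have hA3 : ∀ y : P, y ∉ zpowers a → y * y ∈ zpowers a → ∀ r : ℤ, a ^ r = y * a * y⁻¹ →
      (4:ℤ) ∣ r + 1 := by
    intro y hy hyy r hr
    obtain ⟨t, -, hc⟩ := hana y hy hyy r hr
    rcases hc with ⟨h, -⟩ | ⟨h, -⟩ | ⟨h3, h, -⟩
    · exact dvd_trans h4k h
    · exact dvd_trans h4k h
    · have h4' : (4:ℤ) ∣ (2:ℤ) ^ (k - 1) := by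
        have : (2:ℤ) ^ 2 ∣ (2:ℤ) ^ (k - 1) := pow_dvd_pow 2 (by omega)
        simpa using this
      have := dvd_add (dvd_trans h4k h) h4'
      rwa [sub_add_cancel] at this
  have hsq : ∀ y : P, y ∉ zpowers a → y * y ∈ zpowers a := by
    intro y hy
    by_contra hyy
    obtain ⟨N, hN⟩ := hP y
    have hex : ∃ j, y ^ 2 ^ j ∈ zpowers a := ⟨N, by rw [hN]; exact one_mem _⟩
    have hj : y ^ 2 ^ (Nat.find hex) ∈ zpowers a := Nat.find_spec hex
    have hj0 : Nat.find hex ≠ 0 := by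
      intro h0; rw [h0, pow_zero, pow_one] at hj; exact hy hj
    have hj1 : Nat.find hex ≠ 1 := by
      intro h1; rw [h1, pow_one, pow_two] at hj; exact hyy hj
    obtain ⟨j', hj'⟩ : ∃ j', Nat.find hex = j' + 2 := ⟨Nat.find hex - 2, by omega⟩
    have hz : y ^ 2 ^ (j' + 1) ∉ zpowers a := Nat.find_min hex (by omega)
    rw [hj'] at hj
    obtain ⟨w, hw⟩ : ∃ w, w = y ^ 2 ^ j' := ⟨_, rfl⟩
    have hz' : w * w ∉ zpowers a := by
      rw [hw, ← pow_two, ← pow_mul, ← pow_succ]; exact hz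
    have hzz : (w * w) * (w * w) ∈ zpowers a := by
      have e : (w * w) * (w * w) = y ^ 2 ^ (j' + 2) := by
        rw [hw, ← pow_two, ← pow_two, ← pow_mul, ← pow_mul]; congr 1; ring
      rw [e]; exact hj
    obtain ⟨rw_, hrw⟩ := hexp w
    have hconj : a ^ (rw_ * rw_) = (w * w) * a * (w * w)⁻¹ := by
      have e : (w * w) * a * (w * w)⁻¹ = w * (w * a * w⁻¹) * w⁻¹ := by group
      rw [e, ← hrw, ← conj_zpow, ← hrw, ← zpow_mul]
    have h4 := hA3 (w * w) hz' hzz (rw_ * rw_) hconj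
    rcases Int.even_or_odd' rw_ with ⟨c, hc | hc⟩
    · rw [hc] at h4
      have e : 2 * c * (2 * c) + 1 = 4 * (c * c) + 1 := by ring
      rw [e] at h4; omega
    · rw [hc] at h4
      have e : (2 * c + 1) * (2 * c + 1) + 1 = 4 * (c * c + c) + 2 := by ring
      rw [e] at h4; omega
  have hprod : ∀ y y' : P, y ∉ zpowers a → y' ∉ zpowers a → y * y' ∈ zpowers a := by
    intro y y' hy hy'
    by_contra hyy
    obtain ⟨r₁, hr₁⟩ := hexp y
    obtain ⟨r₂, hr₂⟩ := hexp y'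
    have hconj : a ^ (r₁ * r₂) = (y * y') * a * (y * y')⁻¹ := by
      have e : (y * y') * a * (y * y')⁻¹ = y * (y' * a * y'⁻¹) * y⁻¹ := by group
      rw [e, ← hr₂, ← conj_zpow, ← hr₁, ← zpow_mul]
    obtain ⟨u, hu⟩ := hA3 y hy (hsq y hy) r₁ hr₁
    obtain ⟨v, hv⟩ := hA3 y' hy' (hsq y' hy') r₂ hr₂
    obtain ⟨w, hw⟩ := hA3 (y * y') hyy (hsq _ hyy) (r₁ * r₂) hconj
    have e1 : r₁ = 4 * u - 1 := by linarith
    have e2 : r₂ = 4 * v - 1 := by linarith
    rw [e1, e2] at hw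
    have e : (4 * u - 1) * (4 * v - 1) + 1 = 4 * (4 * (u * v) - u - v) + 2 := by ring
    rw [e] at hw; omega
  obtain ⟨y₀, hy₀⟩ := hPA
  have hAi : (zpowers a).index = 2 := by
    rw [Subgroup.index_eq_two_iff]
    refine ⟨y₀, fun b => ?_⟩
    by_cases hb : b ∈ zpowers a
    · exact Or.inr ⟨hb, fun h => hy₀ (((zpowers a).mul_mem_cancel_left hb).mp h)⟩
    · exact Or.inl ⟨hprod b y₀ hb hy₀, hb⟩
  have hcard : Nat.card P = 2 ^ (k + 1) := by
    have := Subgroup.card_mul_index (zpowers a)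
    rw [hAi, Nat.card_zpowers, hk] at this
    rw [← this, pow_succ]
  obtain ⟨r₀, hr₀⟩ := hexp y₀
  obtain ⟨t, hF2, hc⟩ := hana y₀ hy₀ (hsq y₀ hy₀) r₀ hr₀
  have hbA : y₀ * a ^ t ∉ zpowers a := by
    intro h
    apply hy₀
    have h' := (zpowers a).mul_mem h ((zpowers a).inv_mem ((zpowers a).zpow_mem haA t))
    rwa [mul_inv_cancel_right] at h'
  obtain ⟨b, hb⟩ : ∃ b, b = y₀ * a ^ t := ⟨_, rfl⟩
  rw [← hb] at hF2 hc hbA
  have hinv : (2:ℤ) ^ k ∣ r₀ + 1 → b * a * b⁻¹ = a⁻¹ := by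
    intro h
    rw [hF2]
    have := hpowa r₀ (-1) (by rw [sub_neg_eq_add]; exact h)
    rwa [zpow_neg, zpow_one] at this
  rcases hc with ⟨h1, h2⟩ | ⟨h1, h2⟩ | ⟨h3, h1, h2⟩
  · have hconj := hinv h1
    have hx : b * b = 1 := by rw [← pow_two]; exact h2
    rcases Nat.lt_or_ge k 3 with hk3 | hk3
    · exfalso
      have hk2' : k = 2 := by omega
      subst hk2'
      have hb1 : b ≠ 1 := by rintro rfl; exact hbA (one_mem _)
      have hbo : orderOf b = 2 := orderOf_eq_prime h2 hb1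
      have ha4 : a ^ 4 = 1 := by
        have := pow_orderOf_eq_one a; rw [hk] at this; norm_num at this; exact this
      have hωp : (a ^ 2) ^ 2 = 1 := by rw [← pow_mul]; exact ha4
      have hω1 : a ^ 2 ≠ 1 := by
        intro h
        have h' := orderOf_dvd_of_pow_eq_one h
        rw [hk] at h'; norm_num at h'
      have hωo : orderOf (a ^ 2) = 2 := orderOf_eq_prime hωp hω1
      have hωA : zpowers (a ^ 2) ≤ zpowers a :=
        Subgroup.zpowers_le.mpr (Subgroup.npow_mem_zpowers a _)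
      have hcommω : b * a ^ 2 = a ^ 2 * b := by
        have e : b * a ^ 2 * b⁻¹ = a ^ 2 := by
          rw [← conj_pow, hconj, inv_pow, inv_eq_iff_mul_eq_one, ← pow_add]; exact ha4
        calc b * a ^ 2 = b * a ^ 2 * b⁻¹ * b := by group
          _ = a ^ 2 * b := by rw [e]
      have hAconj : ∀ h ∈ zpowers a, h * b * h⁻¹ ∈ zpowers b ⊔ zpowers (a ^ 2) := by
        intro h hh
        obtain ⟨i, rfl⟩ := Subgroup.mem_zpowers_iff.mp hh
        have e1 : b * (a ^ i)⁻¹ * b⁻¹ = a ^ i := by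
          rw [← zpow_neg, ← conj_zpow, hconj, inv_zpow, zpow_neg, inv_inv]
        have e2 : a ^ i * b * (a ^ i)⁻¹ = (a ^ 2) ^ i * b := by
          calc a ^ i * b * (a ^ i)⁻¹ = a ^ i * (b * (a ^ i)⁻¹ * b⁻¹) * b := by group
            _ = a ^ i * a ^ i * b := by rw [e1]
            _ = (a ^ 2) ^ i * b := by
                rw [← zpow_add, ← zpow_natCast a 2, ← zpow_mul]; congr 2; push_cast; ring
        rw [e2]
        exact mul_mem (le_sup_right (a := zpowers b) (Subgroup.zpow_mem_zpowers _ i))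
          (le_sup_left (b := zpowers (a ^ 2)) (Subgroup.mem_zpowers b))
      refine false_of_normal_pair hn b (a ^ 2) 2 hbo hωo (fun h => hbA (hωA h)) hcommω ?_ ?_
      · intro g
        by_cases hg : g ∈ zpowers a
        · exact hAconj g hg
        · have hgb : g * b⁻¹ ∈ zpowers a := by
            rw [Subgroup.mul_mem_iff_of_index_two hAi, inv_mem_iff]
            exact ⟨fun h => absurd h hg, fun h => absurd h hbA⟩
          have e : g * b * g⁻¹ = (g * b⁻¹) * b * (g * b⁻¹)⁻¹ := by group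
          rw [e]; exact hAconj _ hgb
      · intro g
        obtain ⟨u, hu⟩ := hexp g
        have e : g * a ^ 2 * g⁻¹ = (a ^ 2) ^ u := by
          rw [← conj_pow, ← hu, ← zpow_natCast (a ^ u) 2, ← zpow_mul, mul_comm, zpow_mul,
            zpow_natCast]
        rw [e]
        exact le_sup_right (a := zpowers b) (Subgroup.zpow_mem_zpowers _ u)
    · right; left
      have hinj := dihHom_injective b a hx hconj hbA
      have hbij : Function.Bijective (dihHom b a hx hconj) := by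
        apply hinj.bijective_of_nat_card_le
        rw [DihedralGroup.nat_card, hk, hcard, pow_succ]; omega
      refine ⟨orderOf a, ?_, ⟨(MulEquiv.ofBijective _ hbij).symm⟩⟩
      rw [hk]
      calc 8 = 2 ^ 3 := by norm_num
        _ ≤ 2 ^ k := Nat.pow_le_pow_right (by norm_num) hk3
  · left
    have hconj := hinv h1
    have hρ : a ^ (2 * 2 ^ (k - 1)) = 1 := by
      have e : 2 * 2 ^ (k - 1) = 2 ^ k := by rw [← pow_succ']; congr 1; omega
      rw [e, ← hk]; exact pow_orderOf_eq_one a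
    have hx : b * b = a ^ (2 ^ (k - 1)) := by rw [← pow_two]; exact h2
    have ho : orderOf a = 2 * 2 ^ (k - 1) := by
      rw [hk, ← pow_succ']; congr 1; omega
    have hinj := quatHom_injective b a (2 ^ (k - 1)) hρ hx hconj ho hbA
    haveI : NeZero (2 ^ (k - 1)) := ⟨by positivity⟩
    have hbij : Function.Bijective (quatHom b a (2 ^ (k - 1)) hρ hx hconj) := by
      apply hinj.bijective_of_nat_card_le
      rw [hcard, Nat.card_eq_fintype_card, QuaternionGroup.card]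
      have e : 2 ^ (k + 1) = 4 * 2 ^ (k - 1) := by
        have : k + 1 = (k - 1) + 2 := by omega
        rw [this, pow_add]; ring
      omega
    exact ⟨2 ^ (k - 1), ⟨(MulEquiv.ofBijective _ hbij).symm⟩⟩
  · right; right
    refine ⟨k, h3, hcard, a, b, hk, ?_, ?_⟩
    · exact orderOf_eq_prime h2 (by rintro rfl; exact hbA (one_mem _))
    · rw [hF2]
      have hle : 1 ≤ 2 ^ (k - 1) := Nat.one_le_two_pow
      have e : r₀ - ((2 ^ (k - 1) - 1 : ℕ) : ℤ) = r₀ + 1 - 2 ^ (k - 1) := by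
        rw [Nat.cast_sub hle]; push_cast; ring
      have := hpowa r₀ ((2 ^ (k - 1) - 1 : ℕ) : ℤ) (by rw [e]; exact h1)
      rw [this, zpow_natCast]

/-- A `p`-group in which every abelian normal subgroup is cyclic but which has a non-cyclic
abelian subgroup is a generalized quaternion, dihedral or quasi-dihedral `2`-group. -/
theorem p_group_cyclic_normal_abelian {P : Type*} [Group P] [Finite P] (p : ℕ) [Fact p.Prime]
    (hP : IsPGroup p P) (hn : ∀ A : Subgroup P, A.Normal → IsMulCommutative A → IsCyclic A)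
    (hm : ∃ B : Subgroup P, IsMulCommutative B ∧ ¬ IsCyclic B) :
    p = 2 ∧ ((∃ n : ℕ, Nonempty (P ≃* QuaternionGroup n)) ∨
      (∃ n : ℕ, 8 ≤ n ∧ Nonempty (P ≃* DihedralGroup n)) ∨ Cfsg.IsQuasiDihedral P) := by
  obtain ⟨a, k, hk2, hk, hAn, hmemA, hcomm, hPA⟩ := cyclic_normal_setup p hP hn hm
  by_cases hp2 : p = 2
  · subst hp2
    exact ⟨rfl, cyclic_normal_two hn a k hk2 hk hAn hmemA hcomm hPA hP⟩
  · exact (cyclic_normal_odd_false p hp2 hP hn a k hk2 hk hAn hmemA hcomm hPA).elim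

end Cfsg.Agent.Lib.helper1
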