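import Mathlib
import Cfsg.Agent.Lib.helper8.S1456MC
import Cfsg.Agent.Lib.lead.S1455Q2
import Cfsg.Prelude.Def_OddOrderLocal

set_option autoImplicit false

namespace Cfsg.Agent.Lib.helper1.S1454P1

open scoped commutatorElement

/-- In `H = R ⊔ A` (with `A` normalizing the narrow `p`-group `R`, `A` solvable of odd order,
`p` odd), every `p'`-element of `[A, A]` centralizing... is trivial when `A ⊓ C(R) = ⊥`. -/
theorem part_one_core {G : Type*} [Group G] [Finite G] (p : ℕ) [Fact p.Prime] (hp : p ≠ 2)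
    (R A : Subgroup G) (hR : IsPGroup p R) (hRn : Cfsg.IsNarrow p R)
    (hA : A ≤ Subgroup.normalizer (R : Set G)) (hAs : Group.IsSolvable A)
    (hAodd : Odd (Nat.card A)) (hfaith : A ⊓ Subgroup.centralizer (R : Set G) = ⊥) :
    ∀ g ∈ ⁅A, A⁆, (orderOf g).Coprime p → g = 1 := by
  have hpp : p.Prime := Fact.out
  have hRH : R ≤ R ⊔ A := le_sup_left
  have hAH : A ≤ R ⊔ A := le_sup_right
  have hHN : R ⊔ A ≤ Subgroup.normalizer (R : Set G) := sup_le Subgroup.le_normalizer hA
  -- product decomposition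
  let T : Subgroup G :=
    { carrier := {x | ∃ a ∈ A, ∃ r ∈ R, x = a * r}
      mul_mem' := by
        rintro x y ⟨a, ha, r, hr, rfl⟩ ⟨a', ha', r', hr', rfl⟩
        refine ⟨a * a', A.mul_mem ha ha', (a'⁻¹ * r * a'⁻¹⁻¹) * r', R.mul_mem ?_ hr', by group⟩
        exact ((Subgroup.mem_normalizer_iff.mp (hA (A.inv_mem ha'))) r).mp hr
      one_mem' := ⟨1, A.one_mem, 1, R.one_mem, (one_mul 1).symm⟩
      inv_mem' := by
        rintro x ⟨a, ha, r, hr, rfl⟩
        refine ⟨a⁻¹, A.inv_mem ha, a * r⁻¹ * a⁻¹, ?_, by group⟩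
        exact ((Subgroup.mem_normalizer_iff.mp (hA ha)) r⁻¹).mp (R.inv_mem hr) }
  have hT : R ⊔ A ≤ T :=
    sup_le (fun r hr => ⟨1, A.one_mem, r, hr, (one_mul r).symm⟩)
      (fun a ha => ⟨a, ha, 1, R.one_mem, (mul_one a).symm⟩)
  have hPn : (R.subgroupOf (R ⊔ A)).Normal := by
    constructor
    intro x hx g
    rw [Subgroup.mem_subgroupOf] at hx ⊢
    have h := (Subgroup.mem_normalizer_iff.mp (hHN g.2)) x.1
    exact h.mp hx
  have hPp : IsPGroup p ↥(R.subgroupOf (R ⊔ A)) :=
    hR.comap_of_injective (R ⊔ A).subtype Subtype.val_injective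
  -- the quotient map from A
  let f : ↥A →* ↥(R ⊔ A) ⧸ R.subgroupOf (R ⊔ A) :=
    (QuotientGroup.mk' (R.subgroupOf (R ⊔ A))).comp (Subgroup.inclusion hAH)
  have hf : Function.Surjective f := by
    intro y
    obtain ⟨x, rfl⟩ := QuotientGroup.mk_surjective y
    obtain ⟨a, ha, r, hr, hx⟩ := hT x.2
    refine ⟨⟨a, ha⟩, ?_⟩
    show QuotientGroup.mk (Subgroup.inclusion hAH ⟨a, ha⟩) = QuotientGroup.mk x
    rw [QuotientGroup.eq, Subgroup.mem_subgroupOf]
    have : ((Subgroup.inclusion hAH ⟨a, ha⟩)⁻¹ * x : ↥(R ⊔ A)).1 = r := by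
      show a⁻¹ * (x : G) = r
      rw [hx]; group
    rw [this]; exact hr
  have hsolvH : Group.IsSolvable ↥(R ⊔ A) := by
    have : Group.IsNilpotent ↥(R.subgroupOf (R ⊔ A)) := hPp.isNilpotent
    have : Group.IsSolvable ↥(R.subgroupOf (R ⊔ A)) := inferInstance
    have : Group.IsSolvable (↥(R ⊔ A) ⧸ R.subgroupOf (R ⊔ A)) := Group.isSolvable_of_surjective hf
    exact Group.isSolvable_of_ker_le_range (R.subgroupOf (R ⊔ A)).subtype
      (QuotientGroup.mk' (R.subgroupOf (R ⊔ A))) (by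
        rw [QuotientGroup.ker_mk', Subgroup.range_subtype])
  have hoddH : Odd (Nat.card ↥(R ⊔ A)) := by
    rw [Subgroup.card_eq_card_quotient_mul_card_subgroup (R.subgroupOf (R ⊔ A))]
    apply Odd.mul
    · exact Odd.of_dvd_nat hAodd (Subgroup.card_dvd_of_surjective f hf)
    · obtain ⟨n, hn⟩ := IsPGroup.iff_card.mp hPp
      rw [hn]
      exact Odd.pow (hpp.odd_of_ne_two hp)
  -- transport of subgroups of P to R
  have htr : ∀ B : Subgroup ↥(R ⊔ A), B ≤ R.subgroupOf (R ⊔ A) →
      Nat.card ↥(B.comap (Subgroup.inclusion hRH)) = Nat.card ↥B := by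
    intro B hB
    apply Nat.card_congr
    refine ⟨fun x => ⟨Subgroup.inclusion hRH x.1, x.2⟩,
      fun y => ⟨⟨y.1.1, hB y.2⟩, ?_⟩, ?_, ?_⟩
    · show Subgroup.inclusion hRH ⟨y.1.1, hB y.2⟩ ∈ B
      have : Subgroup.inclusion hRH ⟨y.1.1, hB y.2⟩ = y.1 := Subtype.ext rfl
      rw [this]; exact y.2
    · intro x; apply Subtype.ext; apply Subtype.ext; rfl
    · intro y; apply Subtype.ext; apply Subtype.ext; rfl
  -- the key: p'-elements of the commutator of H centralize P
  have key : ∀ y ∈ commutator ↥(R ⊔ A), (orderOf y).Coprime p →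
      y ∈ Subgroup.centralizer ((R.subgroupOf (R ⊔ A) : Subgroup ↥(R ⊔ A)) : Set ↥(R ⊔ A)) := by
    rcases hRn with hrk | ⟨R₀, R₁, h0, h1, -, hc, hcent⟩
    · refine Cfsg.Agent.Lib.helper8.S1456MC.narrow_der_centralizes hoddH p
        (R.subgroupOf (R ⊔ A)) hPp ⊥ bot_le
        (fun a ha b hb => by rw [Subgroup.mem_bot.mp ha, Subgroup.mem_bot.mp hb])
        (fun a ha => by rw [Subgroup.mem_bot.mp ha, one_pow]) ?_
      intro B hBP _ hab hexp
      rw [← htr B hBP]
      refine hrk _ ⟨⟨fun a b => ?_⟩⟩ ?_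
      · apply Subtype.ext
        apply Subtype.ext
        have := hab _ a.2 _ b.2
        exact congrArg (fun w : ↥(R ⊔ A) => (w : G)) this
      · intro a ha
        apply Subtype.ext
        have := hexp _ ha
        exact congrArg (fun w : ↥(R ⊔ A) => (w : G)) this
    · have hR₀c : ∀ a ∈ R₀, ∀ b ∈ R₀, a * b = b * a := by
        have : Fact (Nat.card ↥R₀).Prime := ⟨by rw [h0]; exact hpp⟩
        have : IsCyclic ↥R₀ := isCyclic_of_prime_card rfl
        intro a ha b hb
        have := (IsCyclic.isMulCommutative : IsMulCommutative ↥R₀).is_comm.comm ⟨a, ha⟩ ⟨b, hb⟩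
        exact congrArg Subtype.val this
      have hR₀p : ∀ a ∈ R₀, a ^ p = 1 := by
        intro a ha
        have h := pow_card_eq_one' (G := ↥R₀) (x := ⟨a, ha⟩)
        rw [h0] at h
        exact congrArg Subtype.val h
      refine Cfsg.Agent.Lib.helper8.S1456MC.narrow_der_centralizes hoddH p
        (R.subgroupOf (R ⊔ A)) hPp (R₀.map (Subgroup.inclusion hRH)) ?_ ?_ ?_ ?_
      · rintro _ ⟨a, -, rfl⟩
        rw [Subgroup.mem_subgroupOf]
        exact a.2
      · rintro _ ⟨a, ha, rfl⟩ _ ⟨b, hb, rfl⟩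
        rw [← map_mul, ← map_mul, hR₀c a ha b hb]
      · rintro _ ⟨a, ha, rfl⟩
        rw [← map_pow, hR₀p a ha, map_one]
      · intro B hBP hBC hab hexp
        rw [← htr B hBP]
        refine Cfsg.Agent.Lib.lead.S1455Q2.narrow_count p R₀ R₁ _ h0 h1 hc ?_ ?_
        · rw [hcent]
          intro x hx
          rw [Subgroup.mem_centralizer_iff]
          intro r hr
          have hx' : Subgroup.inclusion hRH x ∈ B := hx
          have h := Subgroup.mem_centralizer_iff.mp (hBC hx') (Subgroup.inclusion hRH r)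
            ⟨r, hr, rfl⟩
          rw [← map_mul, ← map_mul] at h
          exact Subgroup.inclusion_injective hRH h
        · intro b hb
          have hb' : Subgroup.inclusion hRH b ∈ B := hb
          have h := hexp _ hb'
          rw [← map_pow] at h
          exact Subgroup.inclusion_injective hRH (by rw [h, map_one])
  -- conclusion
  intro g hg hcop
  have hcomm : ⁅R ⊔ A, R ⊔ A⁆ = (commutator ↥(R ⊔ A)).map (R ⊔ A).subtype := by
    rw [commutator_def, Subgroup.map_commutator, ← MonoidHom.range_eq_map, Subgroup.range_subtype]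
  have hg' : g ∈ (commutator ↥(R ⊔ A)).map (R ⊔ A).subtype := by
    rw [← hcomm]
    exact Subgroup.commutator_mono hAH hAH hg
  obtain ⟨y, hy, rfl⟩ := hg'
  have hycop : (orderOf y).Coprime p := by
    rw [← Subgroup.orderOf_coe]; exact hcop
  have hyc := key y hy hycop
  have hgA : ((R ⊔ A).subtype y) ∈ A := by
    have : ⁅A, A⁆ ≤ A := Subgroup.commutator_le.mpr (fun a ha b hb =>
      A.mul_mem (A.mul_mem (A.mul_mem ha hb) (A.inv_mem ha)) (A.inv_mem hb))
    exact this hg
  have hgC : ((R ⊔ A).subtype y) ∈ Subgroup.centralizer (R : Set G) := by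
    rw [Subgroup.mem_centralizer_iff]
    intro r hr
    have h := Subgroup.mem_centralizer_iff.mp hyc ⟨r, hRH hr⟩ (Subgroup.mem_subgroupOf.mpr hr)
    exact congrArg (fun w : ↥(R ⊔ A) => (w : G)) h
  have : ((R ⊔ A).subtype y) ∈ A ⊓ Subgroup.centralizer (R : Set G) := ⟨hgA, hgC⟩
  rw [hfaith] at this
  exact Subgroup.mem_bot.mp this


/-- if the `p'`-elements of the commutator subgroup are trivial, then the commutator subgroup
lies in `O_p` and `O_p` has index prime to `p` -/
theorem part_one_wrap {A : Type*} [Group A] [Finite A] (p : ℕ) [Fact p.Prime]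
    (h : ∀ g ∈ commutator A, (orderOf g).Coprime p → g = 1) :
    commutator A ≤ Cfsg.pCore p A ∧ ((Cfsg.pCore p A).index).Coprime p := by
  have hpp : p.Prime := Fact.out
  have hCp : IsPGroup p ↥(commutator A) := by
    intro x
    have hx0 : orderOf (x : A) ≠ 0 := (orderOf_pos (x : A)).ne'
    obtain ⟨k, m, hm, hkm⟩ := Nat.exists_eq_pow_mul_and_not_dvd hx0 p hpp.ne_one
    refine ⟨k, ?_⟩
    apply Subtype.ext
    rw [Subgroup.coe_pow, Subgroup.coe_one]
    apply h _ (Subgroup.pow_mem _ x.2 _)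
    have h1 : ((x : A) ^ p ^ k) ^ m = 1 := by
      rw [← pow_mul, ← hkm]; exact pow_orderOf_eq_one _
    exact Nat.Coprime.coprime_dvd_left (orderOf_dvd_of_pow_eq_one h1)
      ((Nat.Prime.coprime_iff_not_dvd hpp).mpr hm).symm
  have hCn : (commutator A).Normal := inferInstance
  have hCle : commutator A ≤ Cfsg.pCore p A := le_sSup ⟨hCn, hCp⟩
  refine ⟨hCle, ?_⟩
  obtain ⟨P⟩ : Nonempty (Sylow p A) := inferInstance
  have hRn : (Cfsg.pCore p A).Normal := Subgroup.sSup_normal _ (fun _ h => h.1)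
  have hRp : IsPGroup p ↥(Cfsg.pCore p A) :=
    Sylow.sSup_of_normal _ (fun _ h => h.2) (fun _ h => h.1)
  have hRP : Cfsg.pCore p A ≤ (P : Subgroup A) := hRp.le_sylow_of_normal P
  have hPle : commutator A ≤ (P : Subgroup A) := hCle.trans hRP
  have hPn : (P : Subgroup A).Normal := by
    constructor
    intro n hn g
    have h2 : g * n * g⁻¹ = (g * n * g⁻¹ * n⁻¹) * n := by group
    have h3 : g * n * g⁻¹ * n⁻¹ ∈ commutator A :=
      Subgroup.commutator_mem_commutator (Subgroup.mem_top g) (Subgroup.mem_top n)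
    rw [h2]
    exact Subgroup.mul_mem _ (hPle h3) hn
  have hPeq : (P : Subgroup A) = Cfsg.pCore p A :=
    le_antisymm (le_sSup ⟨hPn, P.isPGroup'⟩) hRP
  rw [← hPeq]
  exact Nat.Coprime.symm ((Nat.Prime.coprime_iff_not_dvd hpp).mpr P.not_dvd_index)

/-- part (1) of S1454 in the form asked for by the assembler -/
theorem s1454_part1 {G : Type*} [Group G] [Finite G] (p : ℕ) [Fact p.Prime] (hp : p ≠ 2)
    (R A : Subgroup G) (hR : IsPGroup p R)
    (hA : A ≤ Subgroup.normalizer (R : Set G)) (hAs : Group.IsSolvable A)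
    (hAodd : Odd (Nat.card A)) (hfaith : A ⊓ Subgroup.centralizer (R : Set G) = ⊥)
    (hRn : Cfsg.IsNarrow p R) :
    commutator ↥A ≤ Cfsg.pCore p ↥A ∧ ((Cfsg.pCore p ↥A).index).Coprime p := by
  apply part_one_wrap
  intro g hg hcop
  have hcomm : ⁅A, A⁆ = (commutator ↥A).map A.subtype := by
    rw [commutator_def, Subgroup.map_commutator, ← MonoidHom.range_eq_map, Subgroup.range_subtype]
  have hg' : (g : G) ∈ ⁅A, A⁆ := by
    rw [hcomm]; exact ⟨g, hg, rfl⟩
  have hcop' : (orderOf (g : G)).Coprime p := by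
    rw [Subgroup.orderOf_coe]; exact hcop
  exact Subtype.ext (part_one_core p hp R A hR hRn hA hAs hAodd hfaith (g : G) hg' hcop')

end Cfsg.Agent.Lib.helper1.S1454P1
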