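import Mathlib
import Cfsg.Agent.Lib.helper15.RankTwo3
import Cfsg.Agent.Lib.helper26.S1454F
import Cfsg.Agent.Lib.helper26.S1454X3

set_option autoImplicit false

namespace Cfsg.Agent.Lib.helper1.S1454X3r

open scoped commutatorElement

/-- an element normalizing `D` normalizes the centralizer of `D` -/
theorem normalizer_centralizer_mem {G : Type*} [Group G] (D : Subgroup G) (g : G)
    (hg : g ∈ Subgroup.normalizer (D : Set G)) :
    g ∈ Subgroup.normalizer ((Subgroup.centralizer (D : Set G) : Subgroup G) : Set G) := by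
  have hNC : ∀ g ∈ Subgroup.normalizer (D : Set G), ∀ c ∈ Subgroup.centralizer (D : Set G),
      g * c * g⁻¹ ∈ Subgroup.centralizer (D : Set G) := by
    intro g hg c hc
    rw [Subgroup.mem_centralizer_iff]
    intro d hd
    have hd' : g⁻¹ * d * g ∈ D := by
      have := (Subgroup.mem_normalizer_iff.mp (Subgroup.inv_mem _ hg) d).mp hd
      simpa using this
    have h1 := Subgroup.mem_centralizer_iff.mp hc _ hd'
    calc d * (g * c * g⁻¹) = g * ((g⁻¹ * d * g) * c) * g⁻¹ := by group
      _ = g * (c * (g⁻¹ * d * g)) * g⁻¹ := by rw [h1]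
      _ = g * c * g⁻¹ * d := by group
  rw [Subgroup.mem_normalizer_iff]
  intro c
  constructor
  · exact hNC g hg c
  · intro h
    have := hNC g⁻¹ (Subgroup.inv_mem _ hg) _ h
    have h2 : g⁻¹ * (g * c * g⁻¹) * g⁻¹⁻¹ = c := by group
    rwa [h2] at this

/-- an element normalizing `X` and `Y` normalizes `X ⊓ Y` -/
theorem normalizer_inf_mem {G : Type*} [Group G] (X Y : Subgroup G) (g : G)
    (hX : g ∈ Subgroup.normalizer (X : Set G)) (hY : g ∈ Subgroup.normalizer (Y : Set G)) :
    g ∈ Subgroup.normalizer ((X ⊓ Y : Subgroup G) : Set G) := by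
  rw [Subgroup.mem_normalizer_iff]
  intro h
  rw [Subgroup.mem_inf, Subgroup.mem_inf, (Subgroup.mem_normalizer_iff.mp hX) h,
    (Subgroup.mem_normalizer_iff.mp hY) h]

/-- (X3r) of the S1454 split, relative form: `a` centralises `R ⊓ C(D)`. -/
theorem cent_centralizer_rel {G : Type*} [Group G] [Finite G] (p : ℕ) [Fact p.Prime] (hp : p ≠ 2)
    (R D : Subgroup G) (hR : IsPGroup p R) (hDR : D ≤ R)
    (hr : ∀ B : Subgroup G, B ≤ R → (∀ x ∈ B, ∀ y ∈ B, x * y = y * x) → (∀ x ∈ B, x ^ p = 1) →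
      Nat.card B ≤ p ^ 2)
    (hexp : ∀ d ∈ D, d ^ p = 1) (hD3 : Nat.card D = p ^ 3)
    (hZ : Nat.card ↥(D ⊓ Subgroup.centralizer (D : Set G)) = p) (a : G)
    (haR : a ∈ Subgroup.normalizer (R : Set G)) (haD : a ∈ Subgroup.normalizer (D : Set G))
    (ha : (orderOf a).Coprime (p * (p - 1))) :
    ∀ c ∈ R ⊓ Subgroup.centralizer (D : Set G), a * c = c * a := by
  have hpp : p.Prime := Fact.out
  have hap : (orderOf a).Coprime p := (Nat.coprime_mul_iff_right.mp ha).1
  have hap1 : (orderOf a).Coprime (p - 1) := (Nat.coprime_mul_iff_right.mp ha).2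
  have haCD := normalizer_centralizer_mem D a haD
  have haZ0 := normalizer_inf_mem D (Subgroup.centralizer (D : Set G)) a haD haCD
  have haC0 := normalizer_inf_mem R (Subgroup.centralizer (D : Set G)) a haR haCD
  obtain ⟨Z, hZdef⟩ : ∃ Z : Subgroup G, Z = D ⊓ Subgroup.centralizer (D : Set G) := ⟨_, rfl⟩
  obtain ⟨C, hCdef⟩ : ∃ C : Subgroup G, C = R ⊓ Subgroup.centralizer (D : Set G) := ⟨_, rfl⟩
  rw [← hZdef] at haZ0
  rw [← hCdef] at haC0
  have hZD : Z ≤ D := by rw [hZdef]; exact inf_le_left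
  have hZcent : Z ≤ Subgroup.centralizer (D : Set G) := by rw [hZdef]; exact inf_le_right
  have hCR : C ≤ R := by rw [hCdef]; exact inf_le_left
  have hCcent : C ≤ Subgroup.centralizer (D : Set G) := by rw [hCdef]; exact inf_le_right
  have hZcard : Nat.card Z = p := by rw [hZdef]; exact hZ
  have hCp : IsPGroup p C := hR.to_le hCR
  have hbn : ∀ g : G, g ∈ Subgroup.normalizer (((⊥ : Subgroup G) : Subgroup G) : Set G) := by
    intro g
    have hb : (⊥ : Subgroup G).Normal := inferInstance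
    rw [Subgroup.normalizer_eq_top_iff.mpr hb]; exact Subgroup.mem_top g
  -- `a` centralises `Z`
  have haZ : ∀ z ∈ Z, a * z = z * a := by
    have hZp : IsPGroup p Z := hR.to_le (hZD.trans hDR)
    have hcardZ : Nat.card Z ≤ p * Nat.card (⊥ : Subgroup G) := by
      rw [Subgroup.card_bot, mul_one, hZcard]
    have key := Cfsg.Agent.Lib.helper26.S1454F.rel_coprime_acts_trivially p Z ⊥ bot_le hZp
      (fun g _ => hbn g) hcardZ a haZ0 (hbn a) hap1
    intro z hz
    have h1 := key z hz
    rw [Subgroup.mem_bot] at h1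
    have h2 : a * z = (a * z * a⁻¹ * z⁻¹) * z * a := by group
    rw [h2, h1, one_mul]
  obtain ⟨E, hEC, hEexp, -, -, hEcrit⟩ :=
    Cfsg.Agent.Lib.helper15.GL2D.exists_critical p hp C hCp
  -- the critical subgroup of `C` lies in `Z`
  have hEZ : E ≤ Z := by
    intro x hx
    by_contra hxZ
    have hxC : x ∈ C := hEC hx
    have hxR : x ∈ R := hCR hxC
    have hxcent : x ∈ Subgroup.centralizer (D : Set G) := hCcent hxC
    have hxD : x ∉ D := fun h => hxZ (by rw [hZdef]; exact ⟨h, hxcent⟩)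
    obtain ⟨d, hdD, hdZ⟩ : ∃ d ∈ D, d ∉ Z := by
      by_contra hcon
      have hcon' : ∀ y ∈ D, y ∈ Z := fun y hy => by_contra (fun h => hcon ⟨y, hy, h⟩)
      have hle : Nat.card D ≤ Nat.card Z := Subgroup.card_le_of_le (fun y hy => hcon' y hy)
      rw [hD3, hZcard] at hle
      have : p ^ 1 < p ^ 3 := Nat.pow_lt_pow_right hpp.one_lt (by norm_num)
      rw [pow_one] at this
      omega
    have cz : ∀ z ∈ Z, ∀ y ∈ D, y * z = z * y := fun z hz y hy =>
      (Subgroup.mem_centralizer_iff.mp (hZcent hz)) y hy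
    have cx : ∀ y ∈ D, y * x = x * y := fun y hy =>
      (Subgroup.mem_centralizer_iff.mp hxcent) y hy
    obtain ⟨S, hSdef⟩ : ∃ S : Set G, S = (Z : Set G) ∪ {d, x} := ⟨_, rfl⟩
    have hSmem : ∀ s, s ∈ S ↔ s ∈ Z ∨ s = d ∨ s = x := by
      intro s
      rw [hSdef]
      simp only [Set.mem_union, Set.mem_insert_iff, Set.mem_singleton_iff, SetLike.mem_coe]
    have hSc : ∀ s ∈ S, ∀ t ∈ S, t * s = s * t := by
      intro s hs t ht
      rcases (hSmem s).mp hs with hs | hs | hs <;> rcases (hSmem t).mp ht with ht | ht | ht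
      · exact cz s hs t (hZD ht)
      · rw [ht]; exact cz s hs d hdD
      · rw [ht]; exact (cx s (hZD hs)).symm
      · rw [hs]; exact (cz t ht d hdD).symm
      · rw [hs, ht]
      · rw [hs, ht]; exact (cx d hdD).symm
      · rw [hs]; exact cx t (hZD ht)
      · rw [hs, ht]; exact cx d hdD
      · rw [hs, ht]
    obtain ⟨B, hBdef⟩ : ∃ B : Subgroup G, B = Subgroup.closure S := ⟨_, rfl⟩
    have hSB : ∀ s ∈ S, s ∈ B := fun s hs => by rw [hBdef]; exact Subgroup.subset_closure hs
    have hB1 : B ≤ Subgroup.centralizer S := by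
      rw [hBdef, Subgroup.closure_le]
      intro s hs
      exact Subgroup.mem_centralizer_iff.mpr (fun t ht => hSc s hs t ht)
    have hB2 : ∀ u ∈ B, ∀ v ∈ B, u * v = v * u := by
      intro u hu v hv
      have hle : B ≤ Subgroup.centralizer ({u} : Set G) := by
        rw [hBdef, Subgroup.closure_le]
        intro t ht
        refine Subgroup.mem_centralizer_iff.mpr (fun h hh => ?_)
        rw [Set.mem_singleton_iff.mp hh]
        exact ((Subgroup.mem_centralizer_iff.mp (hB1 hu)) t ht).symm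
      exact (Subgroup.mem_centralizer_iff.mp (hle hv)) u (Set.mem_singleton u)
    have hBexp : ∀ b ∈ B, b ^ p = 1 := by
      intro b hb
      rw [hBdef] at hb
      refine Subgroup.closure_induction (p := fun b _ => b ^ p = 1) ?_ ?_ ?_ ?_ hb
      · intro s hs
        rcases (hSmem s).mp hs with hs | hs | hs
        · exact hexp s (hZD hs)
        · rw [hs]; exact hexp d hdD
        · rw [hs]; exact hEexp x hx
      · exact one_pow p
      · intro u v hu hv h1 h2
        have hc : Commute u v := hB2 u (by rw [hBdef]; exact hu) v (by rw [hBdef]; exact hv)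
        rw [hc.mul_pow, h1, h2, one_mul]
      · intro u _ h1
        rw [inv_pow, h1, inv_one]
    have hBR : B ≤ R := by
      rw [hBdef, Subgroup.closure_le]
      intro s hs
      rcases (hSmem s).mp hs with hs | hs | hs
      · exact hDR (hZD hs)
      · rw [hs]; exact hDR hdD
      · rw [hs]; exact hxR
    obtain ⟨M, hMdef⟩ : ∃ M : Subgroup G, M = Z ⊔ Subgroup.zpowers d := ⟨_, rfl⟩
    have hZM : Z ≤ M := by rw [hMdef]; exact le_sup_left
    have hdM : d ∈ M := by rw [hMdef]; exact le_sup_right (α := Subgroup G) (Subgroup.mem_zpowers d)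
    have hdB : d ∈ B := hSB d ((hSmem d).mpr (Or.inr (Or.inl rfl)))
    have hxB : x ∈ B := hSB x ((hSmem x).mpr (Or.inr (Or.inr rfl)))
    have hMD : M ≤ D := by
      rw [hMdef]
      exact sup_le hZD ((Subgroup.zpowers_le).mpr hdD)
    have hMB : M ≤ B := by
      rw [hMdef]
      exact sup_le (fun z hz => hSB z ((hSmem z).mpr (Or.inl hz))) ((Subgroup.zpowers_le).mpr hdB)
    have hM2 : p ^ 2 ≤ Nat.card M :=
      Cfsg.Agent.Lib.helper26.S1454X3.card_step hpp hZM ⟨d, hdM, hdZ⟩
        (hR.to_le (hMD.trans hDR)) 1 (by rw [pow_one, hZcard])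
    have hB3 : p ^ 3 ≤ Nat.card B :=
      Cfsg.Agent.Lib.helper26.S1454X3.card_step hpp hMB ⟨x, hxB, fun h => hxD (hMD h)⟩
        (hR.to_le hBR) 2 hM2
    have hB4 := hr B hBR hB2 hBexp
    have : p ^ 2 < p ^ 3 := Nat.pow_lt_pow_right hpp.one_lt (by norm_num)
    omega
  have haE : a ∈ Subgroup.centralizer (E : Set G) :=
    Subgroup.mem_centralizer_iff.mpr (fun e he => (haZ e (hEZ he)).symm)
  have haC := hEcrit a haC0 hap haE
  intro c hc
  rw [← hCdef] at hc
  exact ((Subgroup.mem_centralizer_iff.mp haC) c hc).symm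

end Cfsg.Agent.Lib.helper1.S1454X3r
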