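import Mathlib
import Cfsg.Agent.Lib.helper1.FrobChar

set_option autoImplicit false

namespace Cfsg.Agent.Lib.helper1

open Cfsg Cfsg.Agent.Lib.helper24 Cfsg.Agent.Lib.helper23
open scoped ComplexConjugate Pointwise

universe u

/-- If every conjugate of `x` lying in `S` takes the value `φ 1`, the starred function is `φ 1`. -/
theorem frobStar_of_forall {G : Type u} [Group G] [Fintype G] (S : Subgroup G) (φ : S → ℂ)
    (x : G) (hx : ∀ g : G, ∀ hg : g⁻¹ * x * g ∈ S, φ ⟨g⁻¹ * x * g, hg⟩ = φ 1) :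
    frobStar S φ x = φ 1 := by
  unfold frobStar
  have : indFun S (fun k => φ k - φ 1) x = 0 := by
    unfold indFun
    rw [Finset.sum_eq_zero, mul_zero]
    intro g _
    by_cases hg : g⁻¹ * x * g ∈ S
    · rw [extendByZero_apply_mem S _ hg, hx g hg, sub_self]
    · exact extendByZero_apply_not_mem S _ hg
  rw [this, zero_add]

theorem frobStar_eq_on_ti {G : Type u} [Group G] [Fintype G] (T : Set G)
    (hTI : ∀ g : G, g ∉ Subgroup.normalizer T → ∀ t ∈ T, g * t * g⁻¹ ∈ T → t = 1)
    (φ : Subgroup.normalizer T → ℂ) (hφ : IsClassFunction (Subgroup.normalizer T) φ)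
    (hvan : ∀ x : Subgroup.normalizer T, (x : G) ∉ T → φ x = φ 1)
    (k : Subgroup.normalizer T) (hkT : (k : G) ∈ T) (hk : k ≠ 1) :
    frobStar (Subgroup.normalizer T) φ k = φ k := by
  unfold frobStar
  have hθc : IsClassFunction (Subgroup.normalizer T) (fun k => φ k - φ 1) := by
    intro a b
    change φ (b * a * b⁻¹) - φ 1 = φ a - φ 1
    rw [hφ a b]
  have := indFun_eq_on_ti T hTI (fun k => φ k - φ 1) hθc
    (fun x hx => by simp [hvan x hx]) k hkT hk
  rw [this]
  ring

theorem frobStar_irr_on_ti {G : Type u} [Group G] [Fintype G] (T : Set G)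
    (hTI : ∀ g : G, g ∉ Subgroup.normalizer T → ∀ t ∈ T, g * t * g⁻¹ ∈ T → t = 1)
    (φ : IrrCharacter (Subgroup.normalizer T)) (hφ : φ ≠ trivIrr (Subgroup.normalizer T))
    (hvan : ∀ x : Subgroup.normalizer T, (x : G) ∉ T → φ.1 x = φ.1 1) :
    IsIrrCharacter G (frobStar (Subgroup.normalizer T) φ.1) := by
  classical
  haveI : Fintype (Subgroup.normalizer T) := Fintype.ofFinite _
  obtain ⟨n, hn0, hn⟩ := isIrrCharacter_one φ.2
  have hφc : IsClassFunction (Subgroup.normalizer T) φ.1 := isCharacter_conj_class (isCharacter_irr φ)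
  set θ : (Subgroup.normalizer T) → ℂ := fun k => φ.1 k - φ.1 1 with hθ
  have hθ_eq : θ = φ.1 - (n : ℂ) • (trivIrr (Subgroup.normalizer T)).1 := by
    funext k
    simp [hθ, hn, trivIrr_apply]
  have hθc : IsClassFunction (Subgroup.normalizer T) θ := by
    intro a b
    change φ.1 (b * a * b⁻¹) - φ.1 1 = φ.1 a - φ.1 1
    rw [hφc a b]
  have hθ1 : θ 1 = 0 := by simp [hθ]
  have hθT : ∀ x : (Subgroup.normalizer T), (x : G) ∉ T → θ x = 0 := by
    intro x hx
    simp only [hθ]
    rw [hvan x hx, sub_self]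
  have hconjn : conj (n : ℂ) = n := Complex.conj_natCast n
  have h01 : classInner φ.1 (trivIrr (Subgroup.normalizer T)).1 = 0 := irr_inner_ne hφ
  have h10 : classInner (trivIrr (Subgroup.normalizer T)).1 φ.1 = 0 := irr_inner_ne (Ne.symm hφ)
  have h11 : classInner (trivIrr (Subgroup.normalizer T)).1 (trivIrr (Subgroup.normalizer T)).1 = 1 := irr_inner_self _
  have hφφ : classInner φ.1 φ.1 = 1 := irr_inner_self _
  have hθθ : classInner θ θ = 1 + (n : ℂ) ^ 2 := by
    rw [hθ_eq, classInner_sub_left, classInner_sub_right, classInner_sub_right,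
      classInner_smul_left, classInner_smul_left, classInner_smul_right, classInner_smul_right,
      hφφ, h01, h10, h11, hconjn]
    ring
  have hθt : classInner θ (trivIrr (Subgroup.normalizer T)).1 = -(n : ℂ) := by
    rw [hθ_eq, classInner_sub_left, classInner_smul_left, h01, h11]
    ring
  set Θ : G → ℂ := indFun (Subgroup.normalizer T) θ with hΘ
  have hΘΘ : classInner Θ Θ = 1 + (n : ℂ) ^ 2 := by
    rw [← hθθ]
    exact indFun_isometry_on_ti T hTI θ θ hθc hθT hθT hθ1
  have htG : IsClassFunction G (trivIrr G).1 := isCharacter_conj_class (isCharacter_irr _)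
  have hΘt : classInner Θ (trivIrr G).1 = -(n : ℂ) := by
    rw [hΘ, frobenius_reciprocity (Subgroup.normalizer T) θ htG, ← hθt]
    rfl
  have htΘ : classInner (trivIrr G).1 Θ = -(n : ℂ) := by
    rw [classInner_conj_symm Θ (trivIrr G).1, hΘt]
    simp
  have htt : classInner (trivIrr G).1 (trivIrr G).1 = 1 := irr_inner_self _
  have hstar : frobStar (Subgroup.normalizer T) φ.1 = Θ + (n : ℂ) • (trivIrr G).1 := by
    funext g
    simp [frobStar, hΘ, hθ, hn, trivIrr_apply]
  have hnorm : classInner (frobStar (Subgroup.normalizer T) φ.1) (frobStar (Subgroup.normalizer T) φ.1) = 1 := by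
    rw [hstar, classInner_add_left, classInner_add_right, classInner_add_right,
      classInner_smul_left, classInner_smul_left, classInner_smul_right, classInner_smul_right,
      hΘΘ, hΘt, htΘ, htt, hconjn]
    ring
  have hgen : IsGeneralizedCharacter G (frobStar (Subgroup.normalizer T) φ.1) := by
    refine ⟨indFun (Subgroup.normalizer T) φ.1 + (n : ℂ) • (trivIrr G).1, (n : ℂ) • indFun (Subgroup.normalizer T) (trivIrr (Subgroup.normalizer T)).1,
      isCharacter_add (isCharacter_indFun (Subgroup.normalizer T) (isCharacter_irr φ))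
        (isCharacter_natCast_smul n (isCharacter_irr _)),
      isCharacter_natCast_smul n (isCharacter_indFun (Subgroup.normalizer T) (isCharacter_irr _)), ?_⟩
    rw [hstar, hΘ, hθ_eq, indFun_sub', indFun_smul]
    abel
  have hpos : 0 < (frobStar (Subgroup.normalizer T) φ.1 1).re := by
    rw [frobStar_one, hn]
    simp
    exact hn0
  exact genchar_norm_one hgen hnorm hpos

/-- `x ^ a ∈ K`, `x ^ b ∈ K` with `a`, `b` coprime gives `x ∈ K`. -/
theorem mem_of_pow_mem_coprime {G : Type*} [Group G] (K : Subgroup G) (x : G) {a b : ℕ}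
    (hab : a.Coprime b) (ha : x ^ a ∈ K) (hb : x ^ b ∈ K) : x ∈ K := by
  have h1 : (x ^ a) ^ (Nat.gcdA a b) * (x ^ b) ^ (Nat.gcdB a b) ∈ K :=
    K.mul_mem (K.zpow_mem ha _) (K.zpow_mem hb _)
  have h2 : (x ^ a) ^ (Nat.gcdA a b) * (x ^ b) ^ (Nat.gcdB a b) = x := by
    rw [← zpow_natCast, ← zpow_natCast, ← zpow_mul, ← zpow_mul, ← zpow_add,
      ← Nat.gcd_eq_gcd_ab, hab.gcd_eq_one]
    simp
  rwa [h2] at h1

theorem pow_mem_of_le_normalizer {G : Type*} [Group G] [Finite G] (A M : Subgroup G)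
    (hAM : A ≤ M) (hMA : M ≤ Subgroup.normalizer (A : Set G)) (n : ℕ)
    (hn : Nat.card A * n = Nat.card M) (x : G) (hx : x ∈ M) : x ^ n ∈ A := by
  haveI : (A.subgroupOf M).Normal := (Subgroup.normal_subgroupOf_iff_le_normalizer hAM).mpr hMA
  have h1 := Subgroup.pow_index_mem (A.subgroupOf M) (⟨x, hx⟩ : M)
  have h2 : (A.subgroupOf M).index = n := by
    have h3 := Subgroup.card_mul_index (A.subgroupOf M)
    have h4 : Nat.card (A.subgroupOf M) = Nat.card A :=
      Nat.card_congr (Subgroup.subgroupOfEquivOfLe hAM).toEquiv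
    rw [h4, ← hn] at h3
    exact Nat.eq_of_mul_eq_mul_left Nat.card_pos h3
  rw [h2] at h1
  exact Subgroup.mem_subgroupOf.mp h1

/-- Wielandt-type generalisation of Frobenius' theorem: a TI subgroup `H` which has a normal
complement `K` of coprime order in its normalizer has a normal complement in `G`. -/
theorem ti_hall_complement {G : Type u} [Group G] [Finite G] (H K : Subgroup G)
    (hTI : ∀ g : G, g ∉ Subgroup.normalizer (H : Set G) → ∀ x ∈ H, g * x * g⁻¹ ∈ H → x = 1)
    (hH : H ≠ ⊥)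
    (hKM : K ≤ Subgroup.normalizer (H : Set G))
    (hMK : Subgroup.normalizer (H : Set G) ≤ Subgroup.normalizer (K : Set G))
    (hdisj : K ⊓ H = ⊥)
    (hcard : Nat.card K * Nat.card H = Nat.card (Subgroup.normalizer (H : Set G)))
    (hcop : (Nat.card H).Coprime (Nat.card K)) :
    ∃ N : Subgroup G, N.Normal ∧ N.IsComplement' H ∧
      N ⊓ Subgroup.normalizer (H : Set G) = K ∧
      ∀ x : G, x ∉ N → ∃ g : G, g⁻¹ * x * g ∈ Subgroup.normalizer (H : Set G) ∧
        g⁻¹ * x * g ∉ K := by
  classical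
  haveI : Fintype G := Fintype.ofFinite G
  set M : Subgroup G := Subgroup.normalizer (H : Set G) with hMdef
  have hHM : H ≤ M := Subgroup.le_normalizer
  have hpowH : ∀ x ∈ M, x ^ Nat.card K ∈ H := fun x hx =>
    pow_mem_of_le_normalizer H M hHM le_rfl (Nat.card K) (by rw [mul_comm]; exact hcard) x hx
  have hpowK : ∀ x ∈ M, x ^ Nat.card H ∈ K := fun x hx =>
    pow_mem_of_le_normalizer K M hKM hMK (Nat.card H) hcard x hx
  have hpow1 : ∀ x ∈ M, x ∉ K → x ^ Nat.card K ≠ 1 := by
    intro x hx hxK h1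
    apply hxK
    exact mem_of_pow_mem_coprime K x hcop (hpowK x hx) (by rw [h1]; exact K.one_mem)
  let T : Set G := {x | x ∈ M ∧ (x ∉ K ∨ x = 1)}
  have hTI0 : ∀ g : G, g ∉ M → ∀ t ∈ T, g * t * g⁻¹ ∈ T → t = 1 := by
    intro g hg t ht ht'
    by_contra ht1
    have htK : t ∉ K := by
      rcases ht.2 with h | h
      · exact h
      · exact absurd h ht1
    have h1 : t ^ Nat.card K ∈ H := hpowH t ht.1
    have h2 : g * t ^ Nat.card K * g⁻¹ ∈ H := by
      have := hpowH _ ht'.1
      rwa [conj_pow] at this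
    exact hpow1 t ht.1 htK (hTI g hg _ h1 h2)
  have hNT : Subgroup.normalizer T = M := by
    apply le_antisymm
    · intro g hg
      by_contra hgM
      obtain ⟨y, hy, hy1⟩ : ∃ y ∈ H, y ≠ 1 := by
        by_contra hcon
        push Not at hcon
        exact hH ((Subgroup.eq_bot_iff_forall H).mpr hcon)
      have hyK : y ∉ K := fun h => hy1 (by
        have : y ∈ K ⊓ H := Subgroup.mem_inf.mpr ⟨h, hy⟩
        rwa [hdisj, Subgroup.mem_bot] at this)
      have hyT : y ∈ T := ⟨hHM hy, Or.inl hyK⟩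
      have := (Subgroup.mem_set_normalizer_iff.mp hg y).mp hyT
      exact hy1 (hTI0 g hgM y hyT this)
    · intro m hm
      rw [Subgroup.mem_set_normalizer_iff]
      intro x
      have hmK : m ∈ Subgroup.normalizer (K : Set G) := hMK hm
      constructor
      · rintro ⟨hxM, hx⟩
        refine ⟨M.mul_mem (M.mul_mem hm hxM) (M.inv_mem hm), ?_⟩
        rcases hx with hx | hx
        · left
          intro h
          exact hx ((Subgroup.mem_normalizer_iff.mp hmK x).mpr h)
        · right; rw [hx]; group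
      · rintro ⟨hxM, hx⟩
        refine ⟨?_, ?_⟩
        · have := M.mul_mem (M.mul_mem (M.inv_mem hm) hxM) hm
          simpa [mul_assoc] using this
        · rcases hx with hx | hx
          · left
            intro h
            exact hx ((Subgroup.mem_normalizer_iff.mp hmK x).mp h)
          · right
            have := congrArg (fun t => m⁻¹ * t * m) hx
            simpa [mul_assoc] using this
  have hTI' : ∀ g : G, g ∉ Subgroup.normalizer T → ∀ t ∈ T, g * t * g⁻¹ ∈ T → t = 1 := by
    rw [hNT]; exact hTI0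
  have hmemNT : ∀ x : G, x ∈ Subgroup.normalizer T ↔ x ∈ M := by
    intro x; rw [hNT]
  haveI : Fintype (Subgroup.normalizer T) := Fintype.ofFinite _
  have hK'n : (K.subgroupOf (Subgroup.normalizer T)).Normal := by
    rw [hNT]
    exact (Subgroup.normal_subgroupOf_iff_le_normalizer hKM).mpr hMK
  haveI := hK'n
  -- vanishing
  have hvan : ∀ φ : IrrCharacter (Subgroup.normalizer T),
      K.subgroupOf (Subgroup.normalizer T) ≤ irrKer φ →
      ∀ x : Subgroup.normalizer T, (x : G) ∉ T → φ.1 x = φ.1 1 := by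
    intro φ hφ x hx
    have hxM : (x : G) ∈ M := (hmemNT _).mp x.2
    have hxK : (x : G) ∈ K := by
      by_contra h
      exact hx ⟨hxM, Or.inl h⟩
    exact (mem_irrKer φ x).mp (hφ (Subgroup.mem_subgroupOf.mpr hxK))
  let N : Subgroup G := ⨅ φ : {φ : IrrCharacter (Subgroup.normalizer T) //
      φ ≠ trivIrr (Subgroup.normalizer T) ∧ K.subgroupOf (Subgroup.normalizer T) ≤ irrKer φ},
    irrKer (⟨frobStar (Subgroup.normalizer T) φ.1.1,
      frobStar_irr_on_ti T hTI' φ.1 φ.2.1 (hvan φ.1 φ.2.2)⟩ : IrrCharacter G)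
  have hNn : N.Normal := Subgroup.normal_iInf_normal (fun φ => inferInstance)
  have hNmem : ∀ x : G, x ∈ N ↔ ∀ φ : IrrCharacter (Subgroup.normalizer T),
      (φ ≠ trivIrr (Subgroup.normalizer T) ∧ K.subgroupOf (Subgroup.normalizer T) ≤ irrKer φ) →
      frobStar (Subgroup.normalizer T) φ.1 x = frobStar (Subgroup.normalizer T) φ.1 1 := by
    intro x
    simp only [N, Subgroup.mem_iInf, mem_irrKer, Subtype.forall]
  -- elements all of whose conjugates in M lie in K belong to N
  have hsuff : ∀ x : G, (∀ g : G, g⁻¹ * x * g ∈ M → g⁻¹ * x * g ∈ K) → x ∈ N := by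
    intro x hx
    rw [hNmem]
    intro φ hφ
    rw [frobStar_one]
    apply frobStar_of_forall
    intro g hg
    have hgK : g⁻¹ * x * g ∈ K := hx g ((hmemNT _).mp hg)
    have : (⟨g⁻¹ * x * g, hg⟩ : Subgroup.normalizer T) ∈ irrKer φ :=
      hφ.2 (Subgroup.mem_subgroupOf.mpr hgK)
    exact (mem_irrKer φ _).mp this
  have hNM : N ⊓ M ≤ K := by
    intro x hx
    obtain ⟨hxN, hxM⟩ := Subgroup.mem_inf.mp hx
    by_contra hxK
    have hx1 : x ≠ 1 := fun h => hxK (h ▸ K.one_mem)
    have hxNT : x ∈ Subgroup.normalizer T := (hmemNT x).mpr hxM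
    have hxT : x ∈ T := ⟨hxM, Or.inl hxK⟩
    have hx'1 : (⟨x, hxNT⟩ : Subgroup.normalizer T) ≠ 1 := by
      intro h
      exact hx1 (congrArg Subtype.val h)
    have key : ∀ φ : IrrCharacter (Subgroup.normalizer T),
        K.subgroupOf (Subgroup.normalizer T) ≤ irrKer φ → φ.1 ⟨x, hxNT⟩ = φ.1 1 := by
      intro φ hφK
      by_cases hφ : φ = trivIrr (Subgroup.normalizer T)
      · rw [hφ, trivIrr_apply, trivIrr_apply]
      · have h1 := (hNmem x).mp hxN φ ⟨hφ, hφK⟩
        have hφc : IsClassFunction (Subgroup.normalizer T) φ.1 :=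
          isCharacter_conj_class (isCharacter_irr φ)
        have h2 := frobStar_eq_on_ti T hTI' φ.1 hφc (hvan φ hφK) ⟨x, hxNT⟩ hxT hx'1
        rw [frobStar_one] at h1
        change frobStar (Subgroup.normalizer T) φ.1 x = _ at h2
        rw [← h2, h1]
    have hq : (QuotientGroup.mk (⟨x, hxNT⟩ : Subgroup.normalizer T) :
        (Subgroup.normalizer T) ⧸ K.subgroupOf (Subgroup.normalizer T)) = 1 := by
      apply eq_one_of_forall_irr
      intro ψ
      have h1 := key (irrInfl (K.subgroupOf (Subgroup.normalizer T)) ψ) (by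
        intro k hk
        exact (mem_irrKer _ k).mpr (irrInfl_apply_of_mem _ ψ hk))
      rw [irrInfl_apply, irrInfl_apply] at h1
      rw [h1]
      rfl
    have := (QuotientGroup.eq_one_iff _).mp hq
    exact hxK (Subgroup.mem_subgroupOf.mp this)
  have hKN : K ≤ N := by
    intro x hx
    apply hsuff
    intro g hg
    by_contra hgK
    apply hpow1 _ hg hgK
    have h1 : x ^ Nat.card K = 1 := by
      have := pow_card_eq_one' (G := K) (x := ⟨x, hx⟩)
      exact congrArg Subtype.val this
    have h2 : (g⁻¹ * x * g) ^ Nat.card K = g⁻¹ * x ^ Nat.card K * g := by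
      have := conj_pow (a := g⁻¹) (b := x) (i := Nat.card K)
      simpa using this
    rw [h2, h1]
    group
  have hNMK : N ⊓ M = K := le_antisymm hNM (le_inf hKN hKM)
  have hconj : ∀ x : G, x ∉ N → ∃ g : G, g⁻¹ * x * g ∈ M ∧ g⁻¹ * x * g ∉ K := by
    intro x hx
    by_contra hcon
    push Not at hcon
    exact hx (hsuff x hcon)
  have hNH : Disjoint N H := by
    rw [Subgroup.disjoint_def]
    intro x hxN hxH
    have h1 : x ∈ K := hNM (Subgroup.mem_inf.mpr ⟨hxN, hHM hxH⟩)
    have : x ∈ K ⊓ H := Subgroup.mem_inf.mpr ⟨h1, hxH⟩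
    rwa [hdisj, Subgroup.mem_bot] at this
  refine ⟨N, hNn, ?_, hNMK, hconj⟩
  apply Subgroup.isComplement'_of_card_mul_and_disjoint _ hNH
  apply le_antisymm
  · have h1 := Nat.card_le_card_of_injective _ (Subgroup.mul_injective_of_disjoint hNH)
    rwa [Nat.card_prod] at h1
  · -- counting
    let f : (G ⧸ M) × {y : G // y ∈ M ∧ y ∉ K} → G := fun p => p.1.out * p.2.1 * (p.1.out)⁻¹
    have hsub : ((N : Set G)ᶜ) ⊆ Set.range f := by
      intro x hx
      obtain ⟨g, hgM, hgK⟩ := hconj x hx
      obtain ⟨m, hm⟩ := QuotientGroup.mk_out_eq_mul M g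
      have hmK : (m : G) ∈ Subgroup.normalizer (K : Set G) := hMK m.2
      refine ⟨⟨(g : G ⧸ M), ⟨(m : G)⁻¹ * (g⁻¹ * x * g) * m, ?_, ?_⟩⟩, ?_⟩
      · exact M.mul_mem (M.mul_mem (M.inv_mem m.2) hgM) m.2
      · intro h
        exact hgK ((Subgroup.mem_normalizer_iff''.mp hmK _).mpr h)
      · change (QuotientGroup.mk g : G ⧸ M).out * ((m : G)⁻¹ * (g⁻¹ * x * g) * m)
          * ((QuotientGroup.mk g : G ⧸ M).out)⁻¹ = x
        rw [hm]
        group
    have h1 : ((N : Set G)ᶜ).ncard ≤ (Set.range f).ncard :=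
      Set.ncard_le_ncard hsub (Set.toFinite _)
    have h2 : (Set.range f).ncard ≤ Nat.card ((G ⧸ M) × {y : G // y ∈ M ∧ y ∉ K}) := by
      rw [← Set.image_univ]
      calc (f '' Set.univ).ncard ≤ (Set.univ : Set ((G ⧸ M) × {y : G // y ∈ M ∧ y ∉ K})).ncard :=
            Set.ncard_image_le (Set.toFinite _)
        _ = Nat.card ((G ⧸ M) × {y : G // y ∈ M ∧ y ∉ K}) := Set.ncard_univ _
    have h3 : Nat.card {y : G // y ∈ M ∧ y ∉ K} = Nat.card M - Nat.card K := by
      have e1 : Nat.card {y : G // y ∈ M ∧ y ∉ K} = ((M : Set G) \ (K : Set G)).ncard := by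
        rw [← Nat.card_coe_set_eq]
        rfl
      rw [e1, Set.ncard_diff (by exact_mod_cast hKM) (Set.toFinite _)]
      rw [← Nat.card_coe_set_eq, ← Nat.card_coe_set_eq]
      rfl
    have h4 : (N : Set G).ncard + ((N : Set G)ᶜ).ncard = Nat.card G :=
      Set.ncard_add_ncard_compl _
    have h5 : (N : Set G).ncard = Nat.card N := by
      rw [← Nat.card_coe_set_eq]; rfl
    have h6 : M.index * Nat.card M = Nat.card G := Subgroup.index_mul_card M
    rw [Nat.card_prod, h3] at h2
    have h7 : Nat.card (G ⧸ M) = M.index := rfl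
    rw [h7] at h2
    have hHpos : 0 < Nat.card H := Nat.card_pos
    have hKpos : 0 < Nat.card K := Nat.card_pos
    -- |G| ≤ |N| + index * (|M| - |K|)
    have h8 : Nat.card G ≤ Nat.card N + M.index * (Nat.card M - Nat.card K) := by
      rw [← h4, h5]
      exact Nat.add_le_add_left (h1.trans h2) _
    have h9 : M.index * (Nat.card M - Nat.card K) + M.index * Nat.card K
        = M.index * Nat.card M := by
      rw [← Nat.mul_add, Nat.sub_add_cancel]
      rw [← hcard]
      exact Nat.le_mul_of_pos_right _ hHpos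
    have h10 : M.index * Nat.card K ≤ Nat.card N := by
      rw [← h6] at h8
      omega
    calc Nat.card G = M.index * Nat.card M := h6.symm
      _ = M.index * Nat.card K * Nat.card H := by rw [← hcard, mul_assoc]
      _ ≤ Nat.card N * Nat.card H := Nat.mul_le_mul_right _ h10

end Cfsg.Agent.Lib.helper1
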