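import Mathlib
import Cfsg.Agent.Lib.helper1.TIHall
import Cfsg.Agent.Lib.helper1.FrobConj

set_option autoImplicit false

namespace Cfsg.Agent.Lib.helper1

open Cfsg
open scoped Pointwise

universe u

/-- A TI subgroup which is a normal Hall subgroup of its normalizer is a Hall subgroup. -/
theorem ti_hall_coprime {G : Type*} [Group G] [Finite G] (H : Subgroup G)
    (hTI : ∀ g : G, g ∉ Subgroup.normalizer (H : Set G) → ∀ x ∈ H, g * x * g⁻¹ ∈ H → x = 1)
    (n : ℕ) (hn : Nat.card H * n = Nat.card (Subgroup.normalizer (H : Set G)))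
    (hcop : (Nat.card H).Coprime n) : (Nat.card H).Coprime H.index := by
  apply Nat.coprime_of_dvd
  intro p hp hpH
  haveI : Fact p.Prime := ⟨hp⟩
  have hHM : H ≤ Subgroup.normalizer (H : Set G) := Subgroup.le_normalizer
  -- p-elements of the normalizer lie in H
  have hpM : ∀ y ∈ Subgroup.normalizer (H : Set G), (∃ k : ℕ, y ^ p ^ k = 1) → y ∈ H := by
    intro y hy ⟨k, hk⟩
    have h1 : y ^ n ∈ H := pow_mem_of_le_normalizer H _ hHM le_rfl n hn y hy
    have h2 : (p ^ k).Coprime n := by
      apply Nat.Coprime.pow_left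
      exact Nat.Coprime.coprime_dvd_left hpH hcop
    exact mem_of_pow_mem_coprime H y h2 (by rw [hk]; exact H.one_mem) h1
  obtain ⟨x, hx⟩ := exists_prime_orderOf_dvd_card' (G := H) p hpH
  have hx1 : (x : G) ≠ 1 := by
    intro h
    have : x = 1 := Subtype.ext h
    rw [this, orderOf_one] at hx
    exact hp.one_lt.ne hx
  have hPx : IsPGroup p (Subgroup.zpowers (x : G)) := by
    apply IsPGroup.of_card (n := 1)
    rw [Nat.card_zpowers, pow_one, Subgroup.orderOf_coe, hx]
  obtain ⟨S, hS⟩ := hPx.exists_le_sylow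
  have hxS : (x : G) ∈ (S : Subgroup G) := hS (Subgroup.mem_zpowers _)
  haveI : Nontrivial (S : Subgroup G) := ⟨⟨⟨x, hxS⟩, 1, fun h => hx1 (congrArg Subtype.val h)⟩⟩
  haveI hnt := IsPGroup.center_nontrivial (G := (S : Subgroup G)) S.isPGroup'
  obtain ⟨z, hz1⟩ := exists_ne (1 : Subgroup.center (S : Subgroup G))
  have hzc : ∀ s : (S : Subgroup G), s * z.1 = z.1 * s := fun s =>
    (Subgroup.mem_center_iff.mp z.2 s)
  have hzG1 : ((z.1 : (S : Subgroup G)) : G) ≠ 1 := by
    intro h
    apply hz1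
    apply Subtype.ext
    apply Subtype.ext
    exact h
  have hpS : ∀ s : (S : Subgroup G), ∃ k : ℕ, (s : G) ^ p ^ k = 1 := by
    intro s
    obtain ⟨k, hk⟩ := S.isPGroup' s
    exact ⟨k, by exact_mod_cast congrArg Subtype.val hk⟩
  -- z lies in M, hence in H
  have hzM : ((z.1 : (S : Subgroup G)) : G) ∈ Subgroup.normalizer (H : Set G) := by
    by_contra hcon
    apply hx1
    apply hTI _ hcon (x : G) x.2
    have h1 := hzc ⟨x, hxS⟩
    have h2 : ((z.1 : (S : Subgroup G)) : G) * x = x * ((z.1 : (S : Subgroup G)) : G) :=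
      (congrArg Subtype.val h1).symm
    rw [h2, mul_inv_cancel_right]
    exact x.2
  have hzH : ((z.1 : (S : Subgroup G)) : G) ∈ H := hpM _ hzM (hpS z.1)
  have hSH : (S : Subgroup G) ≤ H := by
    intro s hs
    have hsM : s ∈ Subgroup.normalizer (H : Set G) := by
      by_contra hcon
      apply hzG1
      apply hTI _ hcon _ hzH
      have h1 := hzc ⟨s, hs⟩
      have h2 : s * ((z.1 : (S : Subgroup G)) : G) = ((z.1 : (S : Subgroup G)) : G) * s :=
        congrArg Subtype.val h1
      rw [h2, mul_inv_cancel_right]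
      exact hzH
    exact hpM s hsM (hpS ⟨s, hs⟩)
  intro hdvd
  exact S.not_dvd_index (dvd_trans hdvd (Subgroup.index_dvd_of_le hSH))

/-- If every nonidentity element of a finite group fixes exactly one point, the group has a
common fixed point. -/
theorem exists_common_fixed {A : Type*} {X : Type*} [Group A] [Finite A] [MulAction A X]
    [Nonempty X] (h : ∀ a : A, a ≠ 1 → ∃! x : X, a • x = x) : ∃ x : X, ∀ a : A, a • x = x := by
  by_cases hA : ∀ a : A, a = 1
  · obtain ⟨x⟩ := (inferInstance : Nonempty X)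
    exact ⟨x, fun a => by rw [hA a, one_smul]⟩
  push Not at hA
  obtain ⟨a0, ha0⟩ := hA
  obtain ⟨x0, hx0, hx0u⟩ := h a0 ha0
  -- stabilizers which are neither trivial nor everything are Frobenius complements
  have hfrob : ∀ x : X, MulAction.stabilizer A x ≠ ⊥ → MulAction.stabilizer A x ≠ ⊤ →
      Cfsg.IsFrobeniusComplement (MulAction.stabilizer A x) := by
    intro x hb ht
    refine ⟨hb, ht, ?_⟩
    intro g hg
    rw [eq_bot_iff]
    intro s hs
    obtain ⟨hs1, hs2⟩ := Subgroup.mem_inf.mp hs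
    rw [Cfsg.Agent.S0039.mem_conj] at hs2
    rw [Subgroup.mem_bot]
    by_contra hs1'
    obtain ⟨y, hy, hyu⟩ := h s hs1'
    have e1 : x = y := hyu x (MulAction.mem_stabilizer_iff.mp hs1)
    have e2 : g • x = y := by
      apply hyu
      have := MulAction.mem_stabilizer_iff.mp hs2
      rw [mul_smul, mul_smul, inv_smul_eq_iff] at this
      exact this
    apply hg
    rw [MulAction.mem_stabilizer_iff, e2, e1]
  by_cases htop : MulAction.stabilizer A x0 = ⊤
  · refine ⟨x0, fun a => ?_⟩
    have : a ∈ MulAction.stabilizer A x0 := by rw [htop]; trivial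
    exact MulAction.mem_stabilizer_iff.mp this
  exfalso
  have hbot : MulAction.stabilizer A x0 ≠ ⊥ := by
    intro hb
    have : a0 ∈ MulAction.stabilizer A x0 := MulAction.mem_stabilizer_iff.mpr hx0
    rw [hb, Subgroup.mem_bot] at this
    exact ha0 this
  have hS := hfrob x0 hbot htop
  obtain ⟨N1, -, hN1n, hc, hN1, -⟩ := frob_pair _ hS
  haveI := hN1n
  obtain ⟨z, hz, hz1⟩ : ∃ z ∈ N1, z ≠ 1 := by
    by_contra hcon
    push Not at hcon
    exact hN1 ((Subgroup.eq_bot_iff_forall N1).mpr hcon)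
  have hdisj : ∀ w, w ∈ N1 → w ∈ MulAction.stabilizer A x0 → w = 1 := by
    intro w hw1 hw2
    have := Subgroup.disjoint_def.mp hc.disjoint hw1 hw2
    exact this
  obtain ⟨x1, hx1, hx1u⟩ := h z hz1
  have hbot1 : MulAction.stabilizer A x1 ≠ ⊥ := by
    intro hb
    have : z ∈ MulAction.stabilizer A x1 := MulAction.mem_stabilizer_iff.mpr hx1
    rw [hb, Subgroup.mem_bot] at this
    exact hz1 this
  have htop1 : MulAction.stabilizer A x1 ≠ ⊤ := by
    intro ht
    have h1 : a0 ∈ MulAction.stabilizer A x1 := by rw [ht]; trivial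
    have h2 : x1 = x0 := hx0u x1 (MulAction.mem_stabilizer_iff.mp h1)
    apply hz1
    apply hdisj z hz
    rw [MulAction.mem_stabilizer_iff, ← h2]
    exact hx1
  have hS1 := hfrob x1 hbot1 htop1
  obtain ⟨g, hg⟩ := frob_complements_conj _ _ hS hS1
  have hzg : g * z * g⁻¹ ∈ MulAction.stabilizer A x0 := by
    rw [← hg, Cfsg.Agent.S0039.mem_conj]
    have : g⁻¹ * (g * z * g⁻¹) * g = z := by group
    rw [this]
    exact MulAction.mem_stabilizer_iff.mpr hx1
  have h3 := hdisj _ (hN1n.conj_mem z hz g) hzg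
  apply hz1
  have := congrArg (fun t => g⁻¹ * t * g) h3
  simpa [mul_assoc] using this

end Cfsg.Agent.Lib.helper1
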