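import Mathlib
import Cfsg.Agent.Lib.helper1.TIHall2

set_option autoImplicit false

namespace Cfsg.Agent.Lib.helper1

open Cfsg
open scoped Pointwise

universe u

theorem inv_conj_pow {G : Type*} [Group G] (g a : G) (n : ℕ) :
    (g⁻¹ * a * g) ^ n = g⁻¹ * a ^ n * g := by
  have := conj_pow (a := g⁻¹) (b := a) (i := n)
  simpa using this

/-- Conjugacy: any subgroup of the order of `H` is conjugate into `H`. -/
theorem ti_hall_conj {G : Type u} [Group G] [Finite G] (H K N : Subgroup G)
    (hTI : ∀ g : G, g ∉ Subgroup.normalizer (H : Set G) → ∀ x ∈ H, g * x * g⁻¹ ∈ H → x = 1)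
    (hcard : Nat.card K * Nat.card H = Nat.card (Subgroup.normalizer (H : Set G)))
    (hcop : (Nat.card H).Coprime (Nat.card K))
    (hcopN : (Nat.card H).Coprime (Nat.card N))
    (hconj : ∀ x : G, x ∉ N → ∃ g : G, g⁻¹ * x * g ∈ Subgroup.normalizer (H : Set G) ∧
      g⁻¹ * x * g ∉ K)
    (H1 : Subgroup G) (hH1 : Nat.card H1 = Nat.card H) :
    ∃ g : G, ∀ x ∈ H1, g⁻¹ * x * g ∈ H := by
  set M := Subgroup.normalizer (H : Set G) with hM
  have hHM : H ≤ M := Subgroup.le_normalizer
  have hpM : ∀ y ∈ M, y ^ Nat.card H = 1 → y ∈ H := by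
    intro y hy hy1
    have h1 : y ^ Nat.card K ∈ H :=
      pow_mem_of_le_normalizer H M hHM le_rfl (Nat.card K) (by rw [mul_comm]; exact hcard) y hy
    exact mem_of_pow_mem_coprime H y hcop (by rw [hy1]; exact H.one_mem) h1
  have hpow : ∀ a : H1, (a : G) ^ Nat.card H = 1 := by
    intro a
    rw [← hH1]
    have := pow_card_eq_one' (G := H1) (x := a)
    exact_mod_cast congrArg Subtype.val this
  have hnotN : ∀ a : H1, a ≠ 1 → (a : G) ∉ N := by
    intro a ha haN
    apply ha
    have h1 : (a : G) ^ Nat.card N = 1 := by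
      have := pow_card_eq_one' (G := N) (x := ⟨a, haN⟩)
      exact congrArg Subtype.val this
    have : (a : G) ∈ (⊥ : Subgroup G) :=
      mem_of_pow_mem_coprime ⊥ (a : G) hcopN (by rw [hpow a]; exact Subgroup.one_mem _)
        (by rw [h1]; exact Subgroup.one_mem _)
    exact Subtype.ext (Subgroup.mem_bot.mp this)
  have hfixiff : ∀ (a : H1) (g' : G), a • (g' : G ⧸ M) = (g' : G ⧸ M) ↔ g'⁻¹ * a * g' ∈ M := by
    intro a g'
    change (((a : G) * g' : G) : G ⧸ M) = (g' : G ⧸ M) ↔ _
    rw [QuotientGroup.eq]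
    constructor
    · intro h
      have := M.inv_mem h
      simpa [mul_assoc] using this
    · intro h
      have := M.inv_mem h
      simpa [mul_assoc] using this
  have hfix : ∀ a : H1, a ≠ 1 → ∃! q : G ⧸ M, a • q = q := by
    intro a ha
    obtain ⟨g, hgM, -⟩ := hconj a (hnotN a ha)
    refine ⟨(g : G ⧸ M), (hfixiff a g).mpr hgM, ?_⟩
    intro q hq
    obtain ⟨g', rfl⟩ := QuotientGroup.mk_surjective q
    have hg'M := (hfixiff a g').mp hq
    have h1 : g⁻¹ * a * g ∈ H := hpM _ hgM (by rw [inv_conj_pow, hpow a]; group)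
    have h2 : g'⁻¹ * a * g' ∈ H := hpM _ hg'M (by rw [inv_conj_pow, hpow a]; group)
    have h3 : g⁻¹ * (a : G) * g ≠ 1 := by
      intro h0
      apply ha
      have := congrArg (fun t => g * t * g⁻¹) h0
      have h4 : (a : G) = 1 := by simpa [mul_assoc] using this
      exact Subtype.ext h4
    rw [QuotientGroup.eq]
    by_contra hcon
    apply h3
    apply hTI _ hcon _ h1
    have e : g'⁻¹ * g * (g⁻¹ * (a : G) * g) * (g'⁻¹ * g)⁻¹ = g'⁻¹ * a * g' := by group
    rw [e]
    exact h2
  haveI : Nonempty (G ⧸ M) := ⟨((1 : G) : G ⧸ M)⟩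
  obtain ⟨q, hq⟩ := exists_common_fixed (A := H1) (X := G ⧸ M) hfix
  obtain ⟨g, rfl⟩ := QuotientGroup.mk_surjective q
  refine ⟨g, fun x hx => ?_⟩
  have h1 := (hfixiff ⟨x, hx⟩ g).mp (hq ⟨x, hx⟩)
  exact hpM _ h1 (by rw [inv_conj_pow, hpow ⟨x, hx⟩]; group)

/-- Existence of an `H`-invariant Sylow subgroup of the normal complement. -/
theorem ti_hall_invariant_sylow {G : Type u} [Group G] [Finite G] (H K N : Subgroup G)
    [N.Normal]
    (hTI : ∀ g : G, g ∉ Subgroup.normalizer (H : Set G) → ∀ x ∈ H, g * x * g⁻¹ ∈ H → x = 1)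
    (hcard : Nat.card K * Nat.card H = Nat.card (Subgroup.normalizer (H : Set G)))
    (hcop : (Nat.card H).Coprime (Nat.card K))
    (hcopN : (Nat.card H).Coprime (Nat.card N))
    (hconj : ∀ x : G, x ∉ N → ∃ g : G, g⁻¹ * x * g ∈ Subgroup.normalizer (H : Set G) ∧
      g⁻¹ * x * g ∉ K)
    (hc : N.IsComplement' H) (r : ℕ) [Fact r.Prime] :
    ∃ R : Subgroup G, R ≤ N ∧ IsPGroup r R ∧ H ≤ Subgroup.normalizer (R : Set G) ∧
      Nat.card R = r ^ (Nat.card N).factorization r := by
  obtain ⟨P⟩ : Nonempty (Sylow r N) := inferInstance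
  set R0 : Subgroup G := (P : Subgroup N).map N.subtype with hR0
  set L : Subgroup G := Subgroup.normalizer (R0 : Set G) with hL
  have hfrat : L ⊔ N = ⊤ := Sylow.normalizer_sup_eq_top P
  have hidx : (N.subgroupOf L).index = Nat.card H := by
    have h1 : N.relIndex (L ⊔ N) = N.relIndex L := Subgroup.relIndex_sup_right L N
    change N.relIndex L = _
    rw [← h1, hfrat, Subgroup.relIndex_top_right]
    exact hc.symm.index_eq_card
  have hcardNL : Nat.card (N.subgroupOf L) ∣ Nat.card N := by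
    rw [← Subgroup.inf_subgroupOf_right,
      Nat.card_congr (Subgroup.subgroupOfEquivOfLe (inf_le_right : N ⊓ L ≤ L)).toEquiv]
    exact Subgroup.card_dvd_of_le inf_le_left
  have hcop' : (Nat.card (N.subgroupOf L)).Coprime (N.subgroupOf L).index := by
    rw [hidx]
    exact (Nat.Coprime.coprime_dvd_right hcardNL hcopN).symm
  obtain ⟨H1s, hH1s⟩ := Subgroup.exists_right_complement'_of_coprime hcop'
  have hH1scard : Nat.card H1s = Nat.card H := by
    rw [← hidx]
    exact hH1s.symm.index_eq_card.symm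
  set H1 : Subgroup G := H1s.map L.subtype with hH1
  have hH1card : Nat.card H1 = Nat.card H := by
    rw [hH1, Subgroup.card_map_of_injective L.subtype_injective, hH1scard]
  obtain ⟨g, hg⟩ := ti_hall_conj H K N hTI hcard hcop hcopN hconj H1 hH1card
  have hH1L : H1 ≤ L := Subgroup.map_subtype_le _
  have hR0N : R0 ≤ N := Subgroup.map_subtype_le _
  set R : Subgroup G := R0.map (MulAut.conj g⁻¹).toMonoidHom with hR
  have hmemR : ∀ y, y ∈ R ↔ g * y * g⁻¹ ∈ R0 := by
    intro y
    rw [hR, Subgroup.mem_map_equiv, MulAut.conj_symm_apply, inv_inv]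
  have hinj : Function.Injective (MulAut.conj g⁻¹).toMonoidHom := (MulAut.conj g⁻¹).injective
  refine ⟨R, ?_, ?_, ?_, ?_⟩
  · intro y hy
    have h1 : g * y * g⁻¹ ∈ N := hR0N ((hmemR y).mp hy)
    have h2 := (inferInstance : N.Normal).conj_mem _ h1 g⁻¹
    simpa [mul_assoc] using h2
  · exact (P.isPGroup'.map N.subtype).map _
  · -- conjugate of H1 is H
    have hle : H1.map (MulAut.conj g⁻¹).toMonoidHom ≤ H := by
      intro y hy
      obtain ⟨x, hx, rfl⟩ := Subgroup.mem_map.mp hy
      have := hg x hx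
      simpa using this
    have heq : H1.map (MulAut.conj g⁻¹).toMonoidHom = H := by
      apply Subgroup.eq_of_le_of_card_ge hle
      rw [Subgroup.card_map_of_injective hinj, hH1card]
    intro h hh
    rw [← heq] at hh
    obtain ⟨x, hx, rfl⟩ := Subgroup.mem_map.mp hh
    have hxL : x ∈ Subgroup.normalizer (R0 : Set G) := hH1L hx
    rw [Subgroup.mem_normalizer_iff]
    intro y
    rw [hmemR, hmemR]
    have e : g * ((MulAut.conj g⁻¹).toMonoidHom x * y * ((MulAut.conj g⁻¹).toMonoidHom x)⁻¹) * g⁻¹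
        = x * (g * y * g⁻¹) * x⁻¹ := by
      simp only [MulEquiv.toMonoidHom_eq_coe, MonoidHom.coe_coe, MulAut.conj_apply]
      group
    rw [e]
    exact Subgroup.mem_normalizer_iff.mp hxL _
  · rw [hR, Subgroup.card_map_of_injective hinj, hR0,
      Subgroup.card_map_of_injective N.subtype_injective]
    exact Sylow.card_eq_multiplicity P

/-- A conjugation of prime order `q` on a finite invariant set of size prime to `q` has a fixed
point. -/
theorem exists_conj_fixed {G : Type*} [Group G] (h : G) (q : ℕ) [Fact q.Prime] (hq : h ^ q = 1)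
    (S : Set G) (hSfin : S.Finite) (hS : ∀ x, h * x * h⁻¹ ∈ S ↔ x ∈ S) (hcard : ¬ q ∣ S.ncard) :
    ∃ x ∈ S, h * x * h⁻¹ = x := by
  classical
  haveI : Fintype S := hSfin.fintype
  let σ : Equiv.Perm S := Equiv.Perm.subtypePerm (MulAut.conj h).toEquiv hS
  have hσ : ∀ (n : ℕ) (x : S), (((σ ^ n) x : S) : G) = h ^ n * x * (h ^ n)⁻¹ := by
    intro n
    induction n with
    | zero => intro x; simp
    | succ k ih =>
      intro x
      rw [pow_succ', Equiv.Perm.mul_apply]
      change h * ((σ ^ k) x : G) * h⁻¹ = _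
      rw [ih x, pow_succ']
      group
  have hσq : σ ^ q ^ 1 = 1 := by
    ext x
    rw [pow_one, hσ q x, hq]
    simp
  have hc : ¬ q ∣ Fintype.card S := by
    rwa [← Nat.card_eq_fintype_card, Nat.card_coe_set_eq]
  obtain ⟨a, ha⟩ := Equiv.Perm.exists_fixed_point_of_prime hc hσq
  exact ⟨a, a.2, congrArg Subtype.val ha⟩

end Cfsg.Agent.Lib.helper1
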