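import Mathlib
import Cfsg.Agent.Lib.helper1.TIHall3

set_option autoImplicit false

namespace Cfsg.Agent.Lib.helper1

open Cfsg
open scoped Pointwise

universe u

/-- A group `H` acting on a section `U / D` with all nonidentity elements fixed-point-free is
isomorphic to a Frobenius complement. -/
theorem frob_compl_of_section {G : Type u} [Group G] [Finite G] (H U D : Subgroup G)
    (hH : H ≠ ⊥) (hDU : D ≤ U) (hne : D ≠ U)
    (hUD : U ≤ Subgroup.normalizer (D : Set G)) (hHU : H ≤ Subgroup.normalizer (U : Set G))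
    (hHD : H ≤ Subgroup.normalizer (D : Set G))
    (hcop : (Nat.card H).Coprime (Nat.card U))
    (hfix : ∀ h ∈ H, h ≠ 1 → ∀ u ∈ U, h * u = u * h → u ∈ D) :
    ∃ (F : Type u) (_ : Group F) (_ : Finite F) (C : Subgroup F),
      Cfsg.IsFrobeniusComplement C ∧ Nonempty (H ≃* C) := by
  set T : Subgroup G := U ⊔ H with hT
  have hUT : U ≤ T := le_sup_left
  have hHT : H ≤ T := le_sup_right
  have hDT : D ≤ T := hDU.trans hUT
  have hTD : T ≤ Subgroup.normalizer (D : Set G) := sup_le hUD hHD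
  have hTU : T ≤ Subgroup.normalizer (U : Set G) := sup_le Subgroup.le_normalizer hHU
  haveI hDn : (D.subgroupOf T).Normal :=
    (Subgroup.normal_subgroupOf_iff_le_normalizer hDT).mpr hTD
  haveI hUn : (U.subgroupOf T).Normal :=
    (Subgroup.normal_subgroupOf_iff_le_normalizer hUT).mpr hTU
  have hUH : ∀ x, x ∈ U → x ∈ H → x = 1 := by
    intro x hxU hxH
    have : U ⊓ H = ⊥ := Subgroup.inf_eq_bot_of_coprime hcop.symm
    have h2 : x ∈ U ⊓ H := Subgroup.mem_inf.mpr ⟨hxU, hxH⟩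
    rwa [this, Subgroup.mem_bot] at h2
  let π : T →* T ⧸ D.subgroupOf T := QuotientGroup.mk' (D.subgroupOf T)
  have hπ1 : ∀ t : T, π t = 1 ↔ (t : G) ∈ D := by
    intro t
    rw [QuotientGroup.mk'_apply, QuotientGroup.eq_one_iff, Subgroup.mem_subgroupOf]
  have hπsurj : Function.Surjective π := QuotientGroup.mk'_surjective _
  let NF : Subgroup (T ⧸ D.subgroupOf T) := (U.subgroupOf T).map π
  let f : H →* T ⧸ D.subgroupOf T := π.comp (Subgroup.inclusion hHT)
  let C : Subgroup (T ⧸ D.subgroupOf T) := f.range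
  haveI hNFn : NF.Normal := hUn.map π hπsurj
  have hfinj : Function.Injective f := by
    rw [injective_iff_map_eq_one]
    intro a ha
    have h1 : ((Subgroup.inclusion hHT a : T) : G) ∈ D := (hπ1 _).mp ha
    have h2 : (a : G) ∈ D := h1
    exact Subtype.ext (hUH _ (hDU h2) a.2)
  have hC : C ≠ ⊥ := by
    intro hb
    apply hH
    rw [Subgroup.eq_bot_iff_forall]
    intro x hx
    have h1 : f ⟨x, hx⟩ ∈ C := ⟨⟨x, hx⟩, rfl⟩
    rw [hb, Subgroup.mem_bot] at h1
    have h2 := hfinj (h1.trans (map_one f).symm)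
    exact congrArg Subtype.val h2
  obtain ⟨u0, hu0U, hu0D⟩ : ∃ u ∈ U, u ∉ D := by
    by_contra hcon
    push Not at hcon
    exact hne (le_antisymm hDU hcon)
  have hNF : NF ≠ ⊥ := by
    intro hb
    apply hu0D
    have h1 : π ⟨u0, hUT hu0U⟩ ∈ NF :=
      Subgroup.mem_map_of_mem π (Subgroup.mem_subgroupOf.mpr hu0U)
    rw [hb, Subgroup.mem_bot] at h1
    exact (hπ1 _).mp h1
  have hdisj : Disjoint NF C := by
    rw [Subgroup.disjoint_def]
    intro x hxN hxC
    obtain ⟨t, ht, rfl⟩ := Subgroup.mem_map.mp hxN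
    obtain ⟨a, ha⟩ := hxC
    have h1 : π (t⁻¹ * Subgroup.inclusion hHT a) = 1 := by
      rw [map_mul, map_inv]
      change (π t)⁻¹ * f a = 1
      rw [ha, inv_mul_cancel]
    have h2 : ((t : G))⁻¹ * (a : G) ∈ D := (hπ1 _).mp h1
    have h3 : (a : G) ∈ U := by
      have := U.mul_mem (Subgroup.mem_subgroupOf.mp ht) (hDU h2)
      simpa using this
    have h4 : (a : G) = 1 := hUH _ h3 a.2
    have h5 : a = 1 := Subtype.ext h4
    rw [← ha, h5, map_one]
  have hsup : NF ⊔ C = ⊤ := by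
    have hCmap : C = (H.subgroupOf T).map π := by
      ext x
      constructor
      · rintro ⟨a, rfl⟩
        exact Subgroup.mem_map_of_mem π (Subgroup.mem_subgroupOf.mpr a.2)
      · intro hx
        obtain ⟨t, ht, rfl⟩ := Subgroup.mem_map.mp hx
        exact ⟨⟨t, Subgroup.mem_subgroupOf.mp ht⟩, rfl⟩
    rw [hCmap, ← Subgroup.map_sup, ← Subgroup.subgroupOf_sup hUT hHT, Subgroup.subgroupOf_self,
      ← MonoidHom.range_eq_map, MonoidHom.range_eq_top]
    exact hπsurj
  have hcompl : Subgroup.IsComplement' NF C := by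
    apply Subgroup.isComplement'_of_disjoint_and_mul_eq_univ hdisj
    rw [← Subgroup.normal_mul, hsup]
    rfl
  have hfpf : ∀ c ∈ C, c ≠ 1 → NF ⊓ Subgroup.centralizer {c} = ⊥ := by
    rintro c ⟨a, rfl⟩ hc1
    have ha1 : (a : G) ≠ 1 := by
      intro h
      apply hc1
      have : a = 1 := Subtype.ext h
      rw [this, map_one]
    rw [eq_bot_iff]
    intro x hx
    obtain ⟨hxN, hxC⟩ := Subgroup.mem_inf.mp hx
    obtain ⟨t, ht, rfl⟩ := Subgroup.mem_map.mp hxN
    have htU : (t : G) ∈ U := Subgroup.mem_subgroupOf.mp ht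
    rw [Subgroup.mem_centralizer_singleton_iff] at hxC
    rw [Subgroup.mem_bot, hπ1]
    have hord : orderOf (a : G) ≠ 1 := by rwa [Ne, orderOf_eq_one_iff]
    have hord0 : orderOf (a : G) ≠ 0 := (orderOf_pos (a : G)).ne'
    obtain ⟨q, hq, hqd⟩ := Nat.exists_prime_and_dvd hord
    haveI : Fact q.Prime := ⟨hq⟩
    obtain ⟨j, hj⟩ : ∃ j : ℕ, j = orderOf (a : G) / q := ⟨_, rfl⟩
    have hh1ord : orderOf ((a : G) ^ j) = q := by
      rw [hj]; exact orderOf_pow_orderOf_div hord0 hqd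
    have hh1H : (a : G) ^ j ∈ H := H.pow_mem a.2 j
    have hh11 : (a : G) ^ j ≠ 1 := by
      intro h0
      rw [h0, orderOf_one] at hh1ord
      exact hq.one_lt.ne hh1ord
    have hh1q : ((a : G) ^ j) ^ q = 1 := by
      rw [← hh1ord]; exact pow_orderOf_eq_one _
    have hcomm : π t * f (a ^ j) = f (a ^ j) * π t := by
      rw [map_pow]
      exact (Commute.pow_right (show Commute (π t) (f a) from hxC) j)
    have hd0 : ((t : G) * (a : G) ^ j)⁻¹ * ((a : G) ^ j * (t : G)) ∈ D := by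
      have h1 : π ((t * Subgroup.inclusion hHT (a ^ j))⁻¹
          * (Subgroup.inclusion hHT (a ^ j) * t)) = 1 := by
        rw [map_mul, map_inv, map_mul, map_mul]
        change (π t * f (a ^ j))⁻¹ * (f (a ^ j) * π t) = 1
        rw [hcomm, inv_mul_cancel]
      exact (hπ1 _).mp h1
    obtain ⟨u, hu⟩ : ∃ u : G, u = (t : G) := ⟨_, rfl⟩
    obtain ⟨h1, hh1⟩ : ∃ h1 : G, h1 = (a : G) ^ j := ⟨_, rfl⟩
    rw [← hu, ← hh1] at hd0
    rw [← hh1] at hh1H hh11 hh1q hh1ord
    rw [← hu] at htU ⊢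
    have hh1D : h1 ∈ Subgroup.normalizer (D : Set G) := hHD hh1H
    let Sset : Set G := {x | u⁻¹ * x ∈ D}
    have hSiff : ∀ x, h1 * x * h1⁻¹ ∈ Sset ↔ x ∈ Sset := by
      intro x
      change u⁻¹ * (h1 * x * h1⁻¹) ∈ D ↔ u⁻¹ * x ∈ D
      have e : u⁻¹ * (h1 * x * h1⁻¹)
          = (h1 * ((u * h1)⁻¹ * (h1 * u)) * h1⁻¹) * (h1 * (u⁻¹ * x) * h1⁻¹) := by group
      rw [e]
      have e1 : h1 * ((u * h1)⁻¹ * (h1 * u)) * h1⁻¹ ∈ D :=
        (Subgroup.mem_normalizer_iff.mp hh1D _).mp hd0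
      rw [Subgroup.mul_mem_cancel_left D e1]
      exact (Subgroup.mem_normalizer_iff.mp hh1D _).symm
    have hScard : Sset.ncard = Nat.card D := by
      have e : Sset = (fun d => u * d) '' (D : Set G) := by
        ext x
        constructor
        · intro hx
          exact ⟨u⁻¹ * x, hx, by simp⟩
        · rintro ⟨d, hd, rfl⟩
          change u⁻¹ * (u * d) ∈ D
          simpa using hd
      rw [e, Set.ncard_image_of_injective _ (mul_right_injective u), ← Nat.card_coe_set_eq]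
      rfl
    have hnd : ¬ q ∣ Sset.ncard := by
      rw [hScard]
      intro hqD
      have hqH : q ∣ Nat.card H := by
        rw [← hh1ord]
        exact Subgroup.orderOf_dvd_natCard H hh1H
      have := Nat.dvd_gcd hqH (dvd_trans hqD (Subgroup.card_dvd_of_le hDU))
      rw [hcop.gcd_eq_one] at this
      exact hq.one_lt.ne' (Nat.dvd_one.mp this)
    obtain ⟨x, hxS, hxfix⟩ := exists_conj_fixed h1 q hh1q Sset (Set.toFinite _) hSiff hnd
    have hxD' : u⁻¹ * x ∈ D := hxS
    have hxU : x ∈ U := by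
      have := U.mul_mem htU (hDU hxD')
      simpa using this
    have hcommx : h1 * x = x * h1 := by
      have := congrArg (fun t => t * h1) hxfix
      simpa [mul_assoc] using this
    have hxD : x ∈ D := hfix h1 hh1H hh11 x hxU hcommx
    have := D.mul_mem hxD (D.inv_mem hxD')
    simpa using this
  exact ⟨T ⧸ D.subgroupOf T, inferInstance, inferInstance, C,
    (Cfsg.Agent.S0039.result NF C hcompl hNF hC).mpr hfpf, ⟨MonoidHom.ofInjective hfinj⟩⟩

end Cfsg.Agent.Lib.helper1
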